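import Mathlib
import Cfsg.Statements.S3024
import Cfsg.Agent.Even.Known
import Cfsg.Agent.Loc.Conj

/-! Definitions for S3024 (the Monster from two 7-local subgroups). -/

set_option autoImplicit false

namespace CF.Sv

open Cfsg Subgroup CF.Loc
open scoped commutatorElement

abbrev V : Type := Fin 4 → ZMod 7
abbrev GV : Type := V ≃ₗ[ZMod 7] V
abbrev A7 : Type := alternatingGroup (Fin 7)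
/-- The map `-1` on `V`. -/
abbrev ng : GV := LinearEquiv.neg (ZMod 7)

scoped notation "𝐜(" x ")" => Subgroup.centralizer (Singleton.singleton x : Set _)

/-- `x` is a 7-element. -/
def P7 {G : Type*} [Group G] (x : G) : Prop := ∃ k : ℕ, x ^ 7 ^ k = 1

/-- `M = 2.A₇` inside `GL₄(7)`, `s` of order 7 with fixed space spanned by `e`. -/
structure Li (M : Subgroup GV) (π : M →* A7) (s : M) (e : V) : Prop where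
  sj : Function.Surjective π
  ker : ∀ g : M, π g = 1 ↔ (g : GV) = 1 ∨ (g : GV) = ng
  neg : ng ∈ M
  sq : ∀ g : M, g ^ 2 = 1 → π g = 1
  s7 : orderOf s = 7
  e0 : e ≠ 0
  fix : ∀ v, (s : GV) v = v ↔ ∃ a : ZMod 7, v = a • e

/-- `v` is a nonzero multiple of an `M`-image of `u`. -/
def Bp (M : Subgroup GV) (u v : V) : Prop := ∃ g ∈ M, ∃ a : ZMod 7, a ≠ 0 ∧ v = a • g u

/-- The first 7-local: `C(d) = Q.2A₇`, `Q = 7^{1+4}`, coordinates `φ` on `Q/⟨d⟩`. -/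
structure Lo (G : Type*) [Group G] where
  d : G
  Q : Subgroup G
  φ : G → V
  ρ : 𝐍(zpowers d) →* GV
  M : Subgroup GV
  π : M →* A7
  s : M
  e : V
  li : Li M π s e
  d7 : orderOf d = 7
  dQ : d ∈ Q
  Qc : Q ≤ 𝐜(d)
  Q7 : ∀ a ∈ Q, a ^ 7 = 1
  φ_mul : ∀ a ∈ Q, ∀ b ∈ Q, φ (a * b) = φ a + φ b
  φ_eq : ∀ a ∈ Q, φ a = 0 ↔ a ∈ zpowers d
  φ_sj : ∀ v, ∃ a ∈ Q, φ a = v
  nQ : ∀ g ∈ 𝐍(zpowers d), ∀ a ∈ Q, g * a * g⁻¹ ∈ Q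
  nd : ∀ a ∈ Q, a ∉ zpowers d → ∃ b ∈ Q, ⁅a, b⁆ = d
  φ_cj : ∀ g : 𝐍(zpowers d), ∀ a ∈ Q, φ (g * a * (g : G)⁻¹) = ρ g (φ a)
  ker : ∀ g : 𝐍(zpowers d), ρ g = 1 ↔ (g : G) ∈ Q
  mem_M : ∀ m : GV, m ∈ M ↔ ∃ g : 𝐍(zpowers d), (g : G) ∈ 𝐜(d) ∧ ρ g = m

/-- The data from both locals: `Z₂ = ⟨d, w⟩`, `c` a `7A`-element. -/
structure Bs (G : Type*) [Group G] extends Lo G where
  w : G
  c : G
  wQ : w ∈ Q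
  we : φ w = e
  cQ : c ∈ Q
  c1 : ∀ a : ZMod 7, φ c ≠ a • e
  c2 : ∃ a : ZMod 7, (s : GV) (φ c) - φ c = a • e
  hH : ∀ u ∈ closure {d, w}, ∀ v ∈ closure {d, w}, u ≠ 1 → v ≠ 1 →
    ∃ h ∈ closure {x | x ∈ 𝐜(c) ∧ x ∈ 𝐍(closure {d, w}) ∧ P7 x}, h * u * h⁻¹ = v
  hx : ∃ a ∈ Q, ∃ g : G, g * a * g⁻¹ ∈ 𝐜(d) ∧ g * a * g⁻¹ ∉ Q
  o7 : ¬ 7 ^ 7 ∣ Nat.card G

/-- The hypotheses of S3024 (without the K-condition). -/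
structure Hy {G : Type*} [Group G] (S : Sylow 7 G) (Z₁ Z₂ Q K A₂ A₃ A₅ : Subgroup G) : Prop where
  z1 : Z₁ = (S : Subgroup G) ⊓ 𝐂((S : Subgroup G))
  c1 : Nat.card Z₁ = 7
  z2 : Z₂ = (Subgroup.upperCentralSeries (S : Subgroup G) 2).map (S : Subgroup G).subtype
  c2 : Nat.card Z₂ = 49
  n1 : centralizer (pCore 7 𝐍(Z₁) : Set 𝐍(Z₁)) ≤ pCore 7 𝐍(Z₁)
  QK : Q ≤ K
  KN : K ≤ 𝐍(Z₁)
  Qn : (Q.subgroupOf 𝐍(Z₁)).Normal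
  ex : IsExtraspecial 7 Q
  cQ : Nat.card Q = 7 ^ 5
  Q7 : ∀ x ∈ Q, x ^ 7 = 1
  KQ : ∃ _ : (Q.subgroupOf K).Normal, IsNonsplitDoubleCover (K ⧸ Q.subgroupOf K) A7
  NK : ∃ _ : (K.subgroupOf 𝐍(Z₁)).Normal, Nat.card (𝐍(Z₁) ⧸ K.subgroupOf 𝐍(Z₁)) = 6
  h23 : A₂ < A₃
  h35 : A₃ < A₅
  h5 : A₅ ≤ 𝐍(Z₂)
  a2 : (A₂.subgroupOf 𝐍(Z₂)).Normal
  a3 : (A₃.subgroupOf 𝐍(Z₂)).Normal
  k2 : Nat.card A₂ = 7 ^ 2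
  k3 : Nat.card A₃ = 7 ^ 3
  k5 : Nat.card A₅ = 7 ^ 5
  gl : ∃ _ : (A₅.subgroupOf 𝐍(Z₂)).Normal, Nonempty (𝐍(Z₂) ⧸ A₅.subgroupOf 𝐍(Z₂) ≃* GL (Fin 2) (ZMod 7))
  o7 : pCore 7 ↥(𝐍(Z₁) ⊔ 𝐍(Z₂)) = ⊥

/-- First consequences of `Hy`. -/
structure H0 {G : Type*} [Group G] (S : Sylow 7 G) (Z₁ Z₂ Q K A₅ : Subgroup G) : Prop where
  QS : Q ≤ S
  SK : (S : Subgroup G) ≤ K
  cS : Nat.card S = 7 ^ 6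
  zQ : Z₁ = Q ⊓ 𝐂(Q)
  z12 : Z₁ ≤ Z₂
  z2Q : Z₂ ≤ Q
  m2 : ∀ a, a ∈ Z₂ ↔ a ∈ S ∧ ∀ x ∈ S, ⁅a, x⁆ ∈ Z₁
  a5 : A₅ = (S : Subgroup G) ⊓ 𝐂(Z₂)
  tr : ∀ u ∈ Z₂, ∀ v ∈ Z₂, u ≠ 1 → v ≠ 1 → ∃ h ∈ closure {x | x ∈ 𝐍(Z₂) ∧ P7 x}, h * u * h⁻¹ = v
  cK : K = 𝐂(Z₁)

/-- `L` is attached to the hypotheses. -/
structure Tie {G : Type*} [Group G] (L : Lo G) (S : Sylow 7 G) (Z₁ Z₂ Q : Subgroup G) : Prop where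
  q : L.Q = Q
  z : zpowers L.d = Z₁
  z2 : ∀ a ∈ Q, a ∈ Z₂ ↔ ∃ k : ZMod 7, L.φ a = k • L.e
  s : ∃ g : 𝐍(zpowers L.d), (g : G) ∈ S ∧ L.ρ g = L.s

section
variable {C : Type*} [Group C]

/-- `C(g) = ⟨g⟩ × 2.A₇` with `z` the central involution. -/
def TyB (z g : C) : Prop :=
  ∃ π : 𝐜(g) →* A7, Function.Surjective π ∧ ∀ h, π h = 1 ↔ (h : C) ∈ zpowers g ⊔ zpowers z

/-- `C(g)/⟨g⟩` is the centralizer in He of the involution `t`, the image of `z`. -/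
def TyA (z g : C) : Prop :=
  ∃ (t : Spor.He) (f : 𝐜(g) →* Spor.He), orderOf t = 2 ∧ f.range = 𝐜(t) ∧
    (∀ h, f h = 1 ↔ (h : C) ∈ zpowers g) ∧ ∀ hz : z ∈ 𝐜(g), f ⟨z, hz⟩ = t

/-- `R = 2^{1+6}_+` containing `z`. -/
structure Rx (z : C) (R : Subgroup C) : Prop where
  ex : IsExtraspecial 2 R
  cd : Nat.card R = 128
  zR : z ∈ R
  ab : ∃ A ≤ R, z ∈ A ∧ IsElementaryAbelian 2 A ∧ 16 ≤ Nat.card A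

/-- `C(g) = ⟨g⟩ × R.L₃(2)`. -/
structure TyR (z g : C) (R : Subgroup C) : Prop where
  rx : Rx z R
  le : R ≤ 𝐜(g)
  nm : 𝐜(g) ≤ 𝐍(R)
  cd : Nat.card 𝐜(g) = 7 * 21504
  sm : ∀ N, R ⊔ zpowers g ≤ N → N ≤ 𝐜(g) → 𝐜(g) ≤ 𝐍(N) → N = R ⊔ zpowers g ∨ N = 𝐜(g)

/-- The involution centralizer `C`, central involution `z`, `E = 7²`. -/
structure Ce (z : C) (E : Subgroup C) : Prop where
  kg : IsKGroup C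
  z2 : orderOf z = 2
  zc : z ∈ center C
  ea : IsElementaryAbelian 7 E
  e49 : Nat.card E = 49
  ty : ∀ g ∈ E, g ≠ 1 → TyB z g ∨ TyA z g
  ex : ∃ y ∈ E, y ≠ 1 ∧ TyB z y

structure Cf (z : C) (E : Subgroup C) : Prop where
  kg : IsKGroup C
  z2 : orderOf z = 2
  zc : z ∈ center C
  ea : IsElementaryAbelian 7 E
  e49 : Nat.card E = 49
  ty : ∀ g ∈ E, g ≠ 1 → TyB z g ∨ ∃ R, TyR z g R
  ex : ∃ y ∈ E, y ≠ 1 ∧ TyB z y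
  syl : ¬ 343 ∣ Nat.card C
  cE : 𝐂(E) ≤ E ⊔ zpowers z

/-- The quotient `C / O_{7'}(C)`. -/
structure Cb (E : Subgroup C) : Prop where
  kg : IsKGroup C
  o7 : ∀ N : Subgroup C, N.Normal → ¬ 7 ∣ Nat.card N → N = ⊥
  ea : IsElementaryAbelian 7 E
  e49 : Nat.card E = 49
  syl : ¬ 343 ∣ Nat.card C
  cE : 𝐂(E) ≤ E
  cc : ∀ g ∈ E, g ≠ 1 → Nat.card 𝐜(g) = 17640 ∨ Nat.card 𝐜(g) = 1176 ∨ Nat.card 𝐜(g) = 9408 ∨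
    Nat.card 𝐜(g) = 75264
  gen : ∀ g ∈ E, g ≠ 1 → ∀ N, E ≤ N → N ≤ 𝐜(g) → 𝐜(g) ≤ 𝐍(N) → N = 𝐜(g)
  ex : ∃ y ∈ E, y ≠ 1 ∧ ∃ π : 𝐜(y) →* A7, Function.Surjective π ∧ ∀ h, π h = 1 → (h : C) ∈ zpowers y

/-- The four points of `E` of the second kind. -/
structure Fo (E : Subgroup C) (x : Fin 4 → C) : Prop where
  mem : ∀ i, x i ∈ E
  ne : ∀ i, x i ≠ 1
  dis : ∀ i j, x i ∈ zpowers (x j) → i = j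
  cj : ∀ i j, ∃ n : C, n * x i * n⁻¹ ∈ zpowers (x j)

end

end CF.Sv
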