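import Cfsg.Agent.Sv.A

/-! S3024: the basic facts on `Li` and `Lo`. -/

set_option autoImplicit false

namespace CF.Sv

open Cfsg Subgroup CF.Loc
open scoped commutatorElement

instance fin_GV : Finite GV := Finite.of_injective _ DFunLike.coe_injective

theorem card_V : Nat.card V = 7 ^ 4 := by simp

theorem two_ne : (2 : ZMod 7) ≠ 0 := by decide

theorem ng_ne : ng ≠ 1 := fun h => by
  have := congrFun (congrArg (fun f : GV => f fun _ => 1) h) 0
  revert this; simp; decide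

theorem ng_mul : ng * ng = 1 := LinearEquiv.ext fun v => by simp

theorem ng_comm (g : GV) : ng * g = g * ng := LinearEquiv.ext fun v => by simp

theorem B.fixv {s : GV} (s7 : s ^ 7 = 1) (W : Submodule (ZMod 7) V) (hW : ∀ v ∈ W, s v ∈ W) {u : V} (hu : u ∈ W)
    (u0 : u ≠ 0) : ∃ v ∈ W, v ≠ 0 ∧ s v = v := by
  haveI : Fact (Nat.Prime 7) := ⟨by decide⟩
  let N : Module.End (ZMod 7) V := s.toLinearMap - 1
  have hN : N ^ 7 = 0 := by
    haveI : CharP (Module.End (ZMod 7) V) 7 := charP_of_injective_algebraMap' (ZMod 7) 7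
    rw [sub_pow_char_of_commute _ (Commute.one_right _), one_pow, sub_eq_zero]
    exact (map_pow LinearEquiv.automorphismGroup.toLinearMapMonoidHom s 7).symm.trans
      (congrArg LinearEquiv.toLinearMap s7)
  have m : ∀ k, (N ^ k) u ∈ W := fun k => by
    induction k with
    | zero => exact hu
    | succ k ih => rw [pow_succ', Module.End.mul_apply]; exact W.sub_mem (hW _ ih) ih
  have ex : ∃ k, (N ^ (k + 1)) u = 0 := ⟨6, by rw [hN]; rfl⟩
  classical
  refine ⟨(N ^ Nat.find ex) u, m _, ?_, ?_⟩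
  · rcases h : Nat.find ex with _ | k
    · exact u0
    · exact Nat.find_min ex (m := k) (by omega)
  · have := Nat.find_spec ex
    rw [pow_succ', Module.End.mul_apply] at this
    exact sub_eq_zero.1 this

theorem inv_comm {s β : GV} {e : V} (s7 : s ^ 7 = 1) (fix : ∀ v, s v = v ↔ ∃ a : ZMod 7, v = a • e)
    (b2 : β * β = 1) (c : β * s = s * β) : β = 1 ∨ β = ng := by
  haveI : Fact (Nat.Prime 7) := ⟨by decide⟩
  have bb : ∀ v, β (β v) = v := fun v => congrArg (fun f : GV => f v) b2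
  have cc : ∀ v, β (s v) = s (β v) := fun v => congrArg (fun f : GV => f v) c
  by_contra h
  rw [not_or] at h
  obtain ⟨u, hu⟩ : ∃ u, β u ≠ u := by
    by_contra k; push Not at k; exact h.1 (LinearEquiv.ext k)
  obtain ⟨u', hu'⟩ : ∃ u, β u ≠ -u := by
    by_contra k; push Not at k; exact h.2 (LinearEquiv.ext k)
  obtain ⟨v, hv, v0, sv⟩ := B.fixv s7 (LinearMap.ker (β.toLinearMap + 1)) (fun v hv => by
    have : β v + v = 0 := hv
    change β (s v) + s v = 0
    rw [cc, ← map_add, this, map_zero]) (u := β u - u) (by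
      change β (β u - u) + (β u - u) = 0
      rw [map_sub, bb]; abel) (sub_ne_zero.2 hu)
  obtain ⟨v', hv', v0', sv'⟩ := B.fixv s7 (LinearMap.ker (β.toLinearMap - 1)) (fun v hv => by
    have : β v - v = 0 := hv
    change β (s v) - s v = 0
    rw [cc, ← map_sub, this, map_zero]) (u := β u' + u') (by
      change β (β u' + u') - (β u' + u') = 0
      rw [map_add, bb]; abel) fun k => hu' (eq_neg_of_add_eq_zero_left k)
  obtain ⟨a, rfl⟩ := (fix v).1 sv
  obtain ⟨b, rfl⟩ := (fix v').1 sv'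
  have a0 : a ≠ 0 := fun k => v0 (by simp [k])
  have b0 : b ≠ 0 := fun k => v0' (by simp [k])
  have e1 : a • (β e + e) = 0 := by rw [smul_add, ← map_smul]; exact hv
  have e2 : b • (β e - e) = 0 := by rw [smul_sub, ← map_smul]; exact hv'
  rw [smul_eq_zero_iff_right a0] at e1
  rw [smul_eq_zero_iff_right b0, sub_eq_zero] at e2
  rw [e2, ← two_smul (ZMod 7), smul_eq_zero_iff_right two_ne] at e1
  exact v0 (by simp [e1])

theorem card_A7 : Nat.card A7 = 2520 := by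
  have := two_mul_nat_card_alternatingGroup (α := Fin 7)
  rw [Nat.card_perm, Nat.card_fin] at this
  change 2 * Nat.card A7 = 5040 at this
  omega

theorem Li.card {M : Subgroup GV} {π : M →* A7} {s : M} {e : V} (h : Li M π s e) : Nat.card M = 5040 := by
  have k : π.ker = zpowers ⟨ng, h.neg⟩ := by
    ext g
    rw [MonoidHom.mem_ker, h.ker]
    constructor
    · rintro (k | k)
      · rw [show g = 1 from Subtype.ext k]; exact one_mem _
      · rw [show g = ⟨ng, h.neg⟩ from Subtype.ext k]; exact mem_zpowers _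
    · intro k
      have : zpowers (⟨ng, h.neg⟩ : M) ≤ π.ker := zpowers_le.2 ((h.ker _).2 (.inr rfl))
      exact (h.ker _).1 (this k)
  have o : orderOf (⟨ng, h.neg⟩ : M) = 2 := orderOf_eq_prime (by rw [pow_two]; exact Subtype.ext ng_mul)
    fun k => ng_ne (congrArg Subtype.val k)
  rw [← card_mul_index π.ker, index_ker, MonoidHom.range_eq_top.2 h.sj, card_top, card_A7, k, Nat.card_zpowers, o]

namespace Lo
variable {G : Type*} [Group G] (L : Lo G)

theorem φ_one : L.φ 1 = 0 := (L.φ_eq 1 (one_mem _)).2 (one_mem _)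

/-- `φ` as a homomorphism. -/
def φh : L.Q →* Multiplicative V where
  toFun a := Multiplicative.ofAdd (L.φ a)
  map_one' := congrArg _ L.φ_one
  map_mul' a b := congrArg _ (L.φ_mul a a.2 b b.2)

theorem φ_inv {a : G} (ha : a ∈ L.Q) : L.φ a⁻¹ = - L.φ a := congrArg Multiplicative.toAdd (L.φh.map_inv ⟨a, ha⟩)

theorem φ_zpow {a : G} (ha : a ∈ L.Q) (k : ℤ) : L.φ (a ^ k) = (k : ZMod 7) • L.φ a := by
  rw [Int.cast_smul_eq_zsmul]; exact congrArg Multiplicative.toAdd (map_zpow L.φh ⟨a, ha⟩ k)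

theorem φ_pow {a : G} (ha : a ∈ L.Q) (k : ℕ) : L.φ (a ^ k) = (k : ZMod 7) • L.φ a := by
  simpa using L.φ_zpow ha k

theorem φ_inj {a b : G} (ha : a ∈ L.Q) (hb : b ∈ L.Q) (e : L.φ a = L.φ b) : ∃ u ∈ zpowers L.d, b = a * u :=
  ⟨a⁻¹ * b, (L.φ_eq _ (mul_mem (inv_mem ha) hb)).1 (by rw [L.φ_mul _ (inv_mem ha) _ hb, L.φ_inv ha, e]; simp), by simp⟩

theorem zQ : zpowers L.d ≤ L.Q := zpowers_le.2 L.dQ

theorem cz {a u : G} (ha : a ∈ 𝐜(L.d)) (hu : u ∈ zpowers L.d) : a * u = u * a := by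
  obtain ⟨k, rfl⟩ := hu
  exact ((show Commute a L.d from mem_centralizer_singleton_iff.1 ha).zpow_right k).eq

theorem cN : 𝐜(L.d) ≤ 𝐍(zpowers L.d) := fun g hg => mem_normalizer_iff.2 fun u =>
  ⟨fun hu => by rwa [L.cz hg hu, mul_inv_cancel_right], fun hu => by
    have := L.cz (inv_mem hg) hu
    rwa [show u = g * u * g⁻¹ by
      calc u = g⁻¹ * (g * u * g⁻¹) * g := by group
        _ = _ := by rw [this, inv_mul_cancel_right]]⟩

theorem cm {a b : G} (ha : a ∈ L.Q) (hb : b ∈ L.Q) : ⁅a, b⁆ ∈ zpowers L.d := by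
  refine (L.φ_eq _ (mul_mem (mul_mem (mul_mem ha hb) (inv_mem ha)) (inv_mem hb))).1 ?_
  rw [L.φ_mul _ (mul_mem (mul_mem ha hb) (inv_mem ha)) _ (inv_mem hb), L.φ_mul _ (mul_mem ha hb) _ (inv_mem ha),
    L.φ_mul _ ha _ hb, L.φ_inv ha, L.φ_inv hb]
  abel

theorem cQ_le : 𝐂(L.Q) ≤ zpowers L.d := fun g hg => by
  have c : ∀ a ∈ L.Q, g * a * g⁻¹ = a := fun a ha => by rw [← hg a ha, mul_inv_cancel_right]
  have n : g ∈ 𝐍(zpowers L.d) := L.cN (mem_centralizer_singleton_iff.2 (hg _ L.dQ).symm)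
  have q : g ∈ L.Q := (L.ker ⟨g, n⟩).1 (LinearEquiv.ext fun v => by
    obtain ⟨a, ha, rfl⟩ := L.φ_sj v
    rw [← L.φ_cj _ a ha, c a ha]; rfl)
  by_contra k
  obtain ⟨b, hb, e⟩ := L.nd g q k
  rw [commutatorElement_def, c b hb, mul_inv_cancel] at e
  have := L.d7
  rw [← e, orderOf_one] at this
  omega

/-- `b ↦ ⁅a, b⁆` on `Q`. -/
def ch {a : G} (ha : a ∈ L.Q) : L.Q →* zpowers L.d where
  toFun b := ⟨⁅a, (b : G)⁆, L.cm ha b.2⟩
  map_one' := Subtype.ext (by simp)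
  map_mul' b c := Subtype.ext (by
    have := L.cz (L.Qc b.2) (L.cm ha c.2)
    change ⁅a, (b * c : G)⁆ = ⁅a, (b : G)⁆ * ⁅a, (c : G)⁆
    calc ⁅a, (b * c : G)⁆ = ⁅a, (b : G)⁆ * (b * ⁅a, (c : G)⁆) * (b : G)⁻¹ := by simp only [commutatorElement_def]; group
      _ = _ := by rw [this]; group)

theorem ch_sj {a : G} (ha : a ∈ L.Q) (h : a ∉ zpowers L.d) : Function.Surjective (L.ch ha) := by
  rintro ⟨_, k, rfl⟩
  obtain ⟨b, hb, e⟩ := L.nd a ha h
  refine ⟨⟨b, hb⟩ ^ k, ?_⟩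
  rw [map_zpow]
  exact Subtype.ext (congrArg (· ^ k) e)

theorem cj_mul {a u : G} (ha : a ∈ L.Q) (h : a ∉ zpowers L.d) (hu : u ∈ zpowers L.d) :
    ∃ b ∈ L.Q, b * a * b⁻¹ = a * u := by
  obtain ⟨b, e⟩ := L.ch_sj ha h ⟨u⁻¹, inv_mem hu⟩
  refine ⟨b, b.2, ?_⟩
  have e : ⁅a, (b : G)⁆ = u⁻¹ := congrArg Subtype.val e
  rw [L.cz (L.Qc ha) hu, ← inv_inv u, ← e, commutatorElement_def]; group

theorem exz : ∃ z : 𝐍(zpowers L.d), (z : G) ∈ 𝐜(L.d) ∧ orderOf (z : G) = 2 ∧ L.ρ z = ng := by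
  obtain ⟨k, hk, e⟩ := (L.mem_M _).1 L.li.neg
  have q : ((k * k : 𝐍(zpowers L.d)) : G) ∈ L.Q := (L.ker _).1 (by rw [map_mul, e, ng_mul])
  have r : L.ρ (k ^ 7) = ng := by
    rw [map_pow, e]
    calc ng ^ 7 = (ng * ng) ^ 3 * ng := by rw [← pow_two, ← pow_mul, ← pow_succ]
      _ = ng := by rw [ng_mul, one_pow, one_mul]
  refine ⟨k ^ 7, pow_mem hk 7, orderOf_eq_prime ?_ fun h => ng_ne ?_, r⟩
  · rw [coe_pow, ← pow_mul, mul_comm, pow_mul, sq]; exact L.Q7 _ q
  · rw [← r, show k ^ 7 = 1 from Subtype.ext h, map_one]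

theorem cardZ : Nat.card (zpowers L.d) = 7 := by rw [Nat.card_zpowers, L.d7]

instance finZ : Finite (zpowers L.d) := Nat.finite_of_card_ne_zero (by rw [L.cardZ]; decide)

theorem φh_ker : L.φh.ker = (zpowers L.d).subgroupOf L.Q := ext fun a => L.φ_eq a a.2

theorem cardQ : Nat.card L.Q = 7 ^ 5 := by
  have s : Function.Surjective L.φh := fun v => by
    obtain ⟨a, ha, e⟩ := L.φ_sj v.toAdd
    exact ⟨⟨a, ha⟩, congrArg Multiplicative.ofAdd e⟩
  rw [← card_mul_index L.φh.ker, index_ker, MonoidHom.range_eq_top.2 s, card_top, L.φh_ker,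
    Nat.card_congr (subgroupOfEquivOfLe L.zQ).toEquiv, L.cardZ, Nat.card_congr Multiplicative.toAdd, card_V]
  rfl

theorem cardC {a : G} (ha : a ∈ L.Q) (h : a ∉ zpowers L.d) : Nat.card ↥(L.Q ⊓ 𝐜(a)) = 7 ^ 4 := by
  have k : (L.ch ha).ker = (L.Q ⊓ 𝐜(a)).subgroupOf L.Q := ext fun b => by
    rw [MonoidHom.mem_ker, Subtype.ext_iff, mem_subgroupOf, mem_inf, mem_centralizer_singleton_iff]
    exact commutatorElement_eq_one_iff_mul_comm.trans ⟨fun e => ⟨b.2, e.symm⟩, fun e => e.2.symm⟩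
  have := card_mul_index (L.ch ha).ker
  rw [index_ker, MonoidHom.range_eq_top.2 (L.ch_sj ha h), card_top, L.cardZ, L.cardQ, k,
    Nat.card_congr (subgroupOfEquivOfLe inf_le_left).toEquiv] at this
  omega

instance finQ : Finite L.Q := Nat.finite_of_card_ne_zero (by rw [L.cardQ]; decide)

theorem ab {B : Subgroup G} (hB : B ≤ L.Q) (c : B ≤ 𝐂(B)) : Nat.card B ≤ 343 := by
  by_contra h
  haveI : Finite B := Nat.finite_of_card_ne_zero (by omega)
  have k : ∀ b ∈ B, b ∉ zpowers L.d → B = L.Q ⊓ 𝐜(b) := fun b hb n => by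
    have le : B ≤ L.Q ⊓ 𝐜(b) := le_inf hB fun x hx => mem_centralizer_singleton_iff.2 (c hb x hx)
    have e := L.cardC (hB hb) n
    haveI : Finite ↥(L.Q ⊓ 𝐜(b)) := Nat.finite_of_card_ne_zero (by rw [e]; decide)
    obtain ⟨i, hi, q⟩ := (Nat.dvd_prime_pow (by decide : Nat.Prime 7)).1 (e ▸ card_dvd_of_le le)
    refine eq_of_le_of_card_ge le ?_
    rw [e, q]
    rw [q] at h
    interval_cases i <;> simp_all
  obtain ⟨b, hb, n⟩ : ∃ b ∈ B, b ∉ zpowers L.d := by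
    by_contra q; push Not at q
    have := card_le_of_le (H := B) (K := zpowers L.d) q
    rw [L.cardZ] at this; omega
  obtain ⟨a, ha, na⟩ : ∃ a ∈ L.Q, a ∉ B := by
    by_contra q; push Not at q
    have := card_le_of_le (H := L.Q) (K := B) q
    rw [L.cardQ, k b hb n, L.cardC (hB hb) n] at this; omega
  let f := (L.ch ha).comp (inclusion hB)
  have k1 : Nat.card f.ker ≤ 7 := by
    rw [← L.cardZ, ← card_map_of_injective B.subtype_injective]
    refine card_le_of_le ?_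
    rintro _ ⟨x, hx, rfl⟩
    by_contra q
    refine na ((k x x.2 q).ge ⟨ha, mem_centralizer_singleton_iff.2 ?_⟩)
    exact commutatorElement_eq_one_iff_mul_comm.1 (congrArg Subtype.val hx)
  have k2 : Nat.card f.range ≤ 7 := L.cardZ ▸ Nat.card_le_card_of_injective _ f.range.subtype_injective
  have := card_mul_index f.ker
  rw [index_ker] at this
  nlinarith

theorem cardK : Nat.card 𝐜(L.d) = 7 ^ 5 * 5040 := by
  let f := L.ρ.comp (inclusion L.cN)
  have r : f.range = L.M := ext fun m => by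
    rw [L.mem_M]
    exact ⟨fun ⟨g, e⟩ => ⟨_, g.2, e⟩, fun ⟨g, hg, e⟩ => ⟨⟨g, hg⟩, e⟩⟩
  have k : f.ker = L.Q.subgroupOf _ := ext fun g => L.ker _
  rw [← card_mul_index f.ker, index_ker, r, L.li.card, k, Nat.card_congr (subgroupOfEquivOfLe L.Qc).toEquiv, L.cardQ]

/-- `N ∩ X / C ∩ X` embeds in `Aut ⟨d⟩`. -/
theorem cardN (X : Subgroup G) : Nat.card ↥(𝐍(zpowers L.d) ⊓ X) ∣ 6 * Nat.card ↥(𝐜(L.d) ⊓ X) := by
  let f := (normalizerMonoidHom (zpowers L.d)).comp (inclusion (inf_le_left : 𝐍(zpowers L.d) ⊓ X ≤ _))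
  have k : f.ker = (𝐜(L.d) ⊓ X).subgroupOf _ := ext fun g => by
    rw [mem_subgroupOf, MonoidHom.mem_ker]
    refine ⟨fun e => ⟨mem_centralizer_singleton_iff.2 ?_, g.2.2⟩, fun e => MulEquiv.ext fun u => Subtype.ext ?_⟩
    · exact mul_inv_eq_iff_eq_mul.1 (congrArg (fun t : MulAut (zpowers L.d) => (t ⟨_, mem_zpowers _⟩ : G)) e)
    · exact mul_inv_eq_iff_eq_mul.2 (L.cz e.1 u.2)
  have a : Nat.card (MulAut (zpowers L.d)) = 6 := by rw [IsCyclic.card_mulAut, L.cardZ]; rfl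
  rw [← card_mul_index f.ker, index_ker, k, Nat.card_congr (subgroupOfEquivOfLe (inf_le_inf_right X L.cN)).toEquiv,
    mul_comm, ← a]
  exact mul_dvd_mul_right (card_subgroup_dvd_card _) _

end Lo

end CF.Sv
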