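import Cfsg.Agent.Sv.B
import Cfsg.Agent.Solv.Nilpotent

/-! S3024: first consequences of the hypotheses. -/

set_option autoImplicit false
set_option linter.unusedSectionVars false

namespace CF.Sv

open Cfsg Subgroup CF.Loc
open scoped commutatorElement

instance fact7 : Fact (Nat.Prime 7) := ⟨by decide⟩

namespace B0
variable {G : Type*} [Group G]

theorem step {p : ℕ} [Fact p.Prime] {S A B : Subgroup G} [Finite S] (hS : IsPGroup p S) (lt : A < B) (hB : B ≤ S)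
    (nA : S ≤ 𝐍(A)) (nB : S ≤ 𝐍(B)) : ∃ b ∈ B, b ∉ A ∧ ∀ x ∈ S, ⁅b, x⁆ ∈ A := by
  haveI := normal_subgroupOf_of_le_normalizer nA
  haveI := normal_subgroupOf_of_le_normalizer nB
  haveI := (hS.to_quotient (A.subgroupOf S)).isNilpotent
  haveI := Normal.map ‹(B.subgroupOf S).Normal› _ (QuotientGroup.mk'_surjective (A.subgroupOf S))
  obtain ⟨b, hb, n⟩ := SetLike.exists_of_lt lt
  obtain ⟨⟨_, ⟨c, hc, rfl⟩, z⟩, k⟩ := ne_bot_iff_exists_ne_one.1 (Solv.normal_inf_center_ne_bot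
    ((B.subgroupOf S).map (QuotientGroup.mk' (A.subgroupOf S))) fun e => n <|
      (QuotientGroup.eq_one_iff (N := A.subgroupOf S) ⟨b, hB hb⟩).1 (mem_bot.1 (e.le ⟨⟨b, hB hb⟩, hb, rfl⟩)))
  refine ⟨c, hc, fun e => k (Subtype.ext ((QuotientGroup.eq_one_iff _).2 e)), fun x hx => ?_⟩
  refine (QuotientGroup.eq_one_iff (N := A.subgroupOf S) ⁅c, ⟨x, hx⟩⁆).1 ?_
  rw [← QuotientGroup.mk'_apply, map_commutatorElement]
  exact commutatorElement_eq_one_iff_mul_comm.2 (mem_center_iff.1 z _).symm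

theorem le_S {p : ℕ} (S : Sylow p G) {R : Subgroup G} (hR : IsPGroup p R) (n : (S : Subgroup G) ≤ 𝐍(R)) : R ≤ S :=
  le_sup_right.trans (S.3 (S.2.to_sup_of_normal_right' hR n) le_sup_left).le

theorem eq_zp {Z : Subgroup G} {p : ℕ} [hp : Fact p.Prime] (h : Nat.card Z = p) {u : G} (hu : u ∈ Z) (u1 : u ≠ 1) :
    zpowers u = Z := by
  haveI : Finite Z := Nat.finite_of_card_ne_zero (h ▸ hp.out.ne_zero)
  have le := zpowers_le.2 hu
  refine eq_of_le_of_card_ge le ?_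
  rcases (Nat.dvd_prime hp.out).1 (h ▸ card_dvd_of_le le) with k | k
  · exact absurd (zpowers_eq_bot.1 (card_eq_one.1 k)) u1
  · rw [h, k]

theorem eq_of_lt {A B Z : Subgroup G} [Finite Z] {p n : ℕ} [hp : Fact p.Prime] (a : Nat.card A = p ^ n)
    (z : Nat.card Z = p ^ (n + 1)) (lt : A < B) (le : B ≤ Z) : B = Z := by
  haveI : Finite B := .of_injective _ (inclusion_injective le)
  obtain ⟨i, hi, e⟩ := (Nat.dvd_prime_pow hp.out).1 (z ▸ card_dvd_of_le le)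
  refine eq_of_le_of_card_ge le ?_
  by_contra k
  refine lt.ne (eq_of_le_of_card_ge lt.le ?_)
  rw [z, e, not_le, Nat.pow_lt_pow_iff_right hp.out.one_lt] at k
  rw [a, e]
  exact Nat.pow_le_pow_right hp.out.pos (by omega)

theorem perf {M : Type*} [Group M] (h : IsNonsplitDoubleCover M A7) : commutator M = ⊤ := by
  obtain ⟨c, ⟨e⟩, n⟩ := h
  let f := e.toMonoidHom.comp (QuotientGroup.mk' (center M))
  have s : Function.Surjective f := e.surjective.comp (QuotientGroup.mk'_surjective _)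
  have k : f.ker = center M := by
    ext x; simp [f]
  have t : center M ⊔ commutator M = ⊤ := by
    rw [← k, sup_comm, ← comap_map_eq, _root_.commutator_def, map_commutator, map_top_of_surjective f s,
      ← _root_.commutator_def, commutator_alternatingGroup_eq_top (by simp), comap_top]
  by_contra q
  refine n (commutator M) (isComplement'_of_disjoint_and_mul_eq_univ ?_ ?_)
  · rw [disjoint_iff]
    by_contra d
    obtain ⟨⟨u, hu⟩, u1⟩ := ne_bot_iff_exists_ne_one.1 d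
    rw [← eq_zp c hu.1 fun e => u1 (Subtype.ext e), sup_of_le_right (zpowers_le.2 hu.2)] at t
    exact q t
  · rw [← normal_mul, t, coe_top]

theorem card_dc {M : Type*} [Group M] (h : IsNonsplitDoubleCover M A7) : Nat.card M = 5040 := by
  obtain ⟨c, ⟨e⟩, -⟩ := h
  rw [card_eq_card_quotient_mul_card_subgroup (center M), c, Nat.card_congr e.toEquiv, card_A7]

variable [Finite G] {S : Sylow 7 G} {Z₁ Z₂ Q K A₂ A₃ A₅ : Subgroup G} (h : Hy S Z₁ Z₂ Q K A₂ A₃ A₅)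
include h

theorem zS {u x : G} (hu : u ∈ Z₁) (hx : x ∈ S) : x * u = u * x := (h.z1.le hu).2 x hx

theorem SN : (S : Subgroup G) ≤ 𝐍(Z₁) := fun x hx => mem_normalizer_of_conj_mem fun u hu => by
  rwa [zS h hu hx, mul_inv_cancel_right]

theorem NQ : 𝐍(Z₁) ≤ 𝐍(Q) := (normal_subgroupOf_iff_le_normalizer (h.QK.trans h.KN)).1 h.Qn

theorem QS : Q ≤ S := le_S S h.ex.1.1 ((SN h).trans (NQ h))

theorem SK : (S : Subgroup G) ≤ K := fun x hx => by
  obtain ⟨_, c⟩ := h.NK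
  obtain ⟨k, e⟩ := S.2 ⟨x, hx⟩
  refine (QuotientGroup.eq_one_iff (N := K.subgroupOf 𝐍(Z₁)) ⟨x, SN h hx⟩).1 (orderOf_eq_one_iff.1 ?_)
  refine Nat.eq_one_of_dvd_coprimes (Nat.Coprime.pow_right k (by decide : Nat.Coprime 6 7)) (c ▸ orderOf_dvd_natCard _)
    (orderOf_dvd_of_pow_eq_one ?_)
  rw [← QuotientGroup.mk_pow, show (⟨x, SN h hx⟩ : 𝐍(Z₁)) ^ 7 ^ k = 1 from Subtype.ext (congrArg Subtype.val e :)]
  rfl

theorem cK0 : Nat.card K = 7 ^ 5 * 5040 := by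
  obtain ⟨_, c⟩ := h.KQ
  rw [card_eq_card_quotient_mul_card_subgroup (Q.subgroupOf K), card_dc c,
    Nat.card_congr (subgroupOfEquivOfLe h.QK).toEquiv, h.cQ, mul_comm]

theorem cS : Nat.card S = 7 ^ 6 := by
  rw [← Nat.card_congr (subgroupOfEquivOfLe (SK h)).toEquiv]
  refine ((S.subtype (SK h)).card_eq_multiplicity).trans ?_
  rw [cK0 h, show 7 ^ 5 * 5040 = 7 ^ 6 * 720 from rfl, Nat.factorization_mul_apply_of_coprime (by decide),
    Nat.Prime.factorization_pow fact7.out, Nat.factorization_eq_zero_of_not_dvd (by decide)]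
  simp

theorem zQ : Z₁ = Q ⊓ 𝐂(Q) := by
  have c : Nat.card ↥(Q ⊓ 𝐂(Q)) = 7 := by
    rw [← h.ex.2, ← card_map_of_injective Q.subtype_injective]
    congr; ext x
    exact ⟨fun a => ⟨⟨x, a.1⟩, mem_center_iff.2 fun y => Subtype.ext (a.2 y y.2), rfl⟩, by
      rintro ⟨y, a, rfl⟩; exact ⟨y.2, fun z hz => congrArg Subtype.val (mem_center_iff.1 a ⟨z, hz⟩)⟩⟩
  have n := (SN h).trans (NQ h)
  obtain ⟨b, hb, n, k⟩ := step S.2 (A := ⊥) (B := Q ⊓ 𝐂(Q)) (bot_lt_iff_ne_bot.2 fun e => by simp [e] at c)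
    (inf_le_left.trans (QS h)) le_normalizer_of_normal (le_normalizer_inf n (le_normalizer_centralizer n))
  rw [← eq_zp c hb n, eq_zp h.c1 (h.z1.ge ⟨QS h hb.1, fun x hx =>
    (commutatorElement_eq_one_iff_mul_comm.1 (k x hx)).symm⟩) n]

theorem m2 (a : G) : a ∈ Z₂ ↔ a ∈ S ∧ ∀ x ∈ S, ⁅a, x⁆ ∈ Z₁ := by
  have k : ∀ u : (S : Subgroup G), u ∈ Subgroup.upperCentralSeries (S : Subgroup G) 1 ↔ (u : G) ∈ Z₁ := fun u => by
    rw [Subgroup.upperCentralSeries_one, h.z1, mem_center_iff]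
    exact ⟨fun e => ⟨u.2, fun y hy => congrArg Subtype.val (e ⟨y, hy⟩)⟩, fun e y => Subtype.ext (e.2 y y.2)⟩
  rw [h.z2]
  exact ⟨by rintro ⟨u, e, rfl⟩; exact ⟨u.2, fun x hx => (k _).1 (e ⟨x, hx⟩)⟩,
    fun e => ⟨⟨a, e.1⟩, fun y => (k _).2 (e.2 y y.2), rfl⟩⟩

theorem z12 : Z₁ ≤ Z₂ := fun u hu => (m2 h u).2 ⟨(h.z1.le hu).1, fun x hx => by
  rw [commutatorElement_eq_one_iff_mul_comm.2 (zS h hu hx).symm]; exact one_mem _⟩

theorem z2S : Z₂ ≤ S := fun u hu => ((m2 h u).1 hu).1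

theorem z2Q : Z₂ ≤ Q := by
  have le : Z₁ ≤ Q := (zQ h).le.trans inf_le_left
  obtain ⟨b, hb, n, k⟩ := step S.2 (A := Z₁) (B := Q) (le.lt_of_ne fun e => by
    have := h.cQ; rw [← e, h.c1] at this; omega) (QS h) (SN h) ((SN h).trans (NQ h))
  exact inf_eq_left.1 (eq_of_lt (p := 7) (n := 1) h.c1 h.c2 ((le_inf (z12 h) le).lt_of_not_ge fun e =>
    n (e ⟨(m2 h b).2 ⟨QS h hb, k⟩, hb⟩)) inf_le_left)

theorem SN2 : (S : Subgroup G) ≤ 𝐍(Z₂) := fun x hx => mem_normalizer_of_conj_mem fun u hu => by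
  have := mul_mem (inv_mem (z12 h (((m2 h u).1 hu).2 x hx))) hu
  rwa [commutatorElement_inv, commutatorElement_def, inv_mul_cancel_right] at this

theorem mv {u z : G} (hu : u ∈ Z₂) (n : u ∉ Z₁) (hz : z ∈ Z₁) : ∃ x ∈ S, x * u * x⁻¹ = u * z := by
  obtain ⟨x, hx, e⟩ : ∃ x ∈ S, ⁅u, x⁆ ≠ 1 := by
    by_contra q; push Not at q
    exact n (h.z1.ge ⟨z2S h hu, fun x hx => (commutatorElement_eq_one_iff_mul_comm.1 (q x hx)).symm⟩)
  have m := inv_mem (((m2 h u).1 hu).2 x hx)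
  rw [← eq_zp h.c1 m (inv_ne_one.2 e), ← mem_powers_iff_mem_zpowers] at hz
  obtain ⟨k, rfl⟩ := hz
  refine ⟨x ^ k, pow_mem hx k, ?_⟩
  generalize hy : ⁅u, x⁆⁻¹ = y at m
  have e1 : x * u * x⁻¹ = u * y := by
    rw [zS h m (z2S h hu), ← hy, commutatorElement_def]; group
  induction k with
  | zero => simp
  | succ k ih =>
    calc x ^ (k + 1) * u * (x ^ (k + 1))⁻¹ = x * (x ^ k * u * (x ^ k)⁻¹) * x⁻¹ := by group
      _ = x * u * x⁻¹ * (x * y ^ k * x⁻¹) := by rw [ih]; group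
      _ = _ := by rw [e1, zS h (pow_mem m k) hx]; group

theorem exn : ∃ n ∈ 𝐍(Z₂), n ∉ 𝐍(Z₁) := by
  by_contra q; push Not at q
  have e : 𝐍(Z₁) ⊔ 𝐍(Z₂) = 𝐍(Z₁) := sup_eq_left.2 q
  have o := h.o7
  rw [e] at o
  haveI := h.Qn
  have := (Solv.le_pCore (h.ex.1.1.of_equiv (subgroupOfEquivOfLe (h.QK.trans h.KN)).symm)).trans o.le
  have c := h.cQ
  rw [← Nat.card_congr (subgroupOfEquivOfLe (h.QK.trans h.KN)).toEquiv, le_bot_iff.1 this] at c
  simp at c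

theorem tr : ∀ u ∈ Z₂, ∀ v ∈ Z₂, u ≠ 1 → v ≠ 1 → ∃ g ∈ closure {x | x ∈ 𝐍(Z₂) ∧ P7 x}, g * u * g⁻¹ = v := by
  set H := closure {x | x ∈ 𝐍(Z₂) ∧ P7 x}
  obtain ⟨n, hn, n1⟩ := exn h
  have p7 : ∀ x ∈ S, P7 x := fun x hx => (S.2 ⟨x, hx⟩).imp fun _ e => congrArg Subtype.val e
  let R : G → G → Prop := fun u v => ∃ g ∈ H, g * u * g⁻¹ = v
  have tr : ∀ {u v w}, R u v → R v w → R u w := by
    rintro u _ _ ⟨a, ha, rfl⟩ ⟨b, hb, rfl⟩
    exact ⟨b * a, mul_mem hb ha, by group⟩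
  have sy : ∀ {u v}, R u v → R v u := by
    rintro u _ ⟨a, ha, rfl⟩
    exact ⟨a⁻¹, inv_mem ha, by group⟩
  have m1 : ∀ u ∈ Z₂, u ∉ Z₁ → ∀ z ∈ Z₁, R u (u * z) := fun u hu k z hz =>
    (mv h hu k hz).imp fun x e => ⟨subset_closure ⟨SN2 h e.1, p7 x e.1⟩, e.2⟩
  have m2 : ∀ u ∈ Z₂, u ∉ cj[n] Z₁ → ∀ z ∈ cj[n] Z₁, R u (u * z) := fun u hu k z hz => by
    obtain ⟨x, hx, e⟩ := mv h (conj_mem_of_mem_normalizer' hn hu) (mt mem_cj.2 k) (mem_cj.1 hz)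
    refine ⟨n * x * n⁻¹, subset_closure ⟨mul_mem (mul_mem hn (SN2 h hx)) (inv_mem hn),
      (p7 x hx).imp fun k e => by rw [conj_pow, e, mul_one, mul_inv_cancel]⟩, ?_⟩
    calc _ = n * (x * (n⁻¹ * u * n) * x⁻¹) * n⁻¹ := by group
      _ = _ := by rw [e]; group
  have c' : Nat.card (cj[n] Z₁) = 7 := (card_cj _ _).trans h.c1
  have dj : ∀ u ∈ Z₁, u ∈ cj[n] Z₁ → u = 1 := fun u a b => by
    by_contra k
    exact n1 (cj_eq_self_iff.1 ((eq_zp c' b k).symm.trans (eq_zp h.c1 a k)))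
  have l' : cj[n] Z₁ ≤ Z₂ := cj_le_of_mem_normalizer hn (z12 h)
  obtain ⟨⟨d, hd⟩, d1⟩ := (ne_bot_iff_exists_ne_one (H := Z₁)).1 fun e => by simpa [e] using h.c1
  obtain ⟨⟨d', hd'⟩, d1'⟩ := (ne_bot_iff_exists_ne_one (H := cj[n] Z₁)).1 fun e => by rw [e] at c'; simp at c'
  replace d1 : d ≠ 1 := fun e => d1 (Subtype.ext e)
  replace d1' : d' ≠ 1 := fun e => d1' (Subtype.ext e)
  have sp : Z₁ ⊔ cj[n] Z₁ = Z₂ := eq_of_lt (p := 7) (n := 1) h.c1 h.c2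
    (le_sup_left.lt_of_not_ge fun e => d1' (dj _ (e (mem_sup_right hd')) hd')) (sup_le (z12 h) l')
  have k1 : ∀ a ∈ Z₁, ∀ b ∈ cj[n] Z₁, b ≠ 1 → R (a * b) (d * d') := fun a ha b hb b1 => by
    have r1 := m1 (a * b) (mul_mem (z12 h ha) (l' hb)) (fun e => b1 (dj _ ((mul_mem_cancel_left ha).1 e) hb))
      (a⁻¹ * d) (mul_mem (inv_mem ha) hd)
    have r2 := m2 (d * b) (mul_mem (z12 h hd) (l' hb)) (fun e => d1 (dj _ hd ((mul_mem_cancel_right hb).1 e)))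
      (b⁻¹ * d') (mul_mem (inv_mem hb) hd')
    rw [← zS h ha (z2S h (l' hb)), mul_assoc, mul_inv_cancel_left, zS h hd (z2S h (l' hb))] at r1
    rw [mul_assoc, mul_inv_cancel_left] at r2
    rw [← zS h ha (z2S h (l' hb))]
    exact tr r1 r2
  have k : ∀ u ∈ Z₂, u ≠ 1 → R u (d * d') := fun u hu u1 => by
    obtain ⟨a, ha, b, hb, rfl⟩ := (mem_sup_of_le_normalizer (l'.trans ((z2S h).trans (SN h)))).1 (sp.ge hu)
    by_cases b1 : b = 1
    · subst b1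
      rw [mul_one] at *
      exact tr (m2 a hu (fun e => u1 (dj _ ha e)) d' hd') (k1 a ha d' hd' d1')
    · exact k1 a ha b hb b1
  exact fun u hu v hv u1 v1 => tr (k u hu u1) (sy (k v hv v1))

theorem exd : ∃ d ∈ Z₁, d ≠ 1 := by
  obtain ⟨⟨d, hd⟩, d1⟩ := (ne_bot_iff_exists_ne_one (H := Z₁)).1 fun e => by simpa [e] using h.c1
  exact ⟨d, hd, fun e => d1 (Subtype.ext e)⟩

/-- A subgroup normalized by `N(Z₂)` and meeting `Z₂` contains it. -/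
theorem all {X : Subgroup G} (n : 𝐍(Z₂) ≤ 𝐍(X)) {u : G} (hu : u ∈ Z₂) (u1 : u ≠ 1) (x : u ∈ X) : Z₂ ≤ X :=
  fun v hv => by
    by_cases v1 : v = 1
    · exact v1 ▸ one_mem _
    obtain ⟨g, hg, rfl⟩ := tr h u hu v hv u1 v1
    exact conj_mem_of_mem_normalizer (n ((closure_le _).2 (fun _ e => e.1) hg)) x

theorem N5 : 𝐍(Z₂) ≤ 𝐍(A₅) := by
  obtain ⟨n, -⟩ := h.gl
  exact (normal_subgroupOf_iff_le_normalizer h.h5).1 n

theorem a5 : A₅ = (S : Subgroup G) ⊓ 𝐂(Z₂) := by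
  have le : A₅ ≤ S := le_S S (IsPGroup.of_card h.k5) ((SN2 h).trans (N5 h))
  obtain ⟨d, hd, d1⟩ := exd h
  have c : Z₂ ≤ 𝐂(A₅) := all h (le_normalizer_centralizer (N5 h)) (z12 h hd) d1 fun x hx => zS h hd (le hx)
  have l := le_inf le (le_centralizer_iff.1 c)
  by_contra q
  have e := eq_of_lt h.k5 (cS h) (l.lt_of_ne q) inf_le_left
  have : Z₂ ≤ Z₁ := h.z1.ge.trans' (le_inf (z2S h) (le_centralizer_iff.1 (e.ge.trans inf_le_right)))
  have := card_le_of_le this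
  rw [h.c1, h.c2] at this
  omega

theorem cK : K = 𝐂(Z₁) := by
  haveI : IsCyclic Z₁ := isCyclic_of_prime_card h.c1
  obtain ⟨d, hd, d1⟩ := exd h
  have zd := eq_zp h.c1 hd d1
  let F := normalizerMonoidHom Z₁
  have k : ∀ g, g ∈ F.ker ↔ (g : G) ∈ 𝐂(Z₁) := fun g => by rw [normalizerMonoidHom_ker, mem_subgroupOf]
  have le : K ≤ 𝐂(Z₁) := fun x hx => by
    obtain ⟨_, c⟩ := h.KQ
    let f := (IsCyclic.mulAutMulEquiv Z₁).toMonoidHom.comp (F.comp (inclusion h.KN))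
    have q : Q.subgroupOf K ≤ f.ker := fun y hy => by
      have : inclusion h.KN y ∈ F.ker := (k _).2 fun u hu => (((zQ h).le hu).2 y hy).symm
      exact (congrArg (IsCyclic.mulAutMulEquiv Z₁) this).trans (map_one _)
    have := Abelianization.commutator_subset_ker (QuotientGroup.lift _ f q) ((perf c).ge (mem_top (QuotientGroup.mk ⟨x, hx⟩)))
    exact (k ⟨x, h.KN hx⟩).1 ((IsCyclic.mulAutMulEquiv Z₁).map_eq_one_iff.1 this)
  have s : Function.Surjective F := fun α => by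
    obtain ⟨g, -, e⟩ := tr h d (z12 h hd) (α ⟨d, hd⟩) (z12 h (α _).2) d1 fun e =>
      d1 (congrArg Subtype.val (α.map_eq_one_iff.1 (Subtype.ext e)))
    have n : g ∈ 𝐍(Z₁) := mem_normalizer_of_cj_le (by
      rw [← zd, cj_zpowers, e, zd]; exact zpowers_le.2 (α _).2)
    refine ⟨⟨g, n⟩, MulEquiv.ext fun u => ?_⟩
    obtain ⟨i, hi⟩ := zd.ge u.2
    rw [show u = ⟨d, hd⟩ ^ i from Subtype.ext hi.symm, map_zpow, map_zpow]
    exact congrArg (· ^ i) (Subtype.ext e)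
  obtain ⟨_, c⟩ := h.NK
  have i : F.ker.index = 6 := by
    rw [index_ker, MonoidHom.range_eq_top.2 s, card_top, IsCyclic.card_mulAut, h.c1]; rfl
  have l : K.subgroupOf 𝐍(Z₁) ≤ F.ker := fun g hg => (k g).2 (le hg)
  have e := eq_of_le_of_card_ge l (by
    have a := card_mul_index F.ker
    have b := card_mul_index (K.subgroupOf 𝐍(Z₁))
    rw [index_eq_card, c] at b
    rw [i] at a
    omega)
  exact le.antisymm fun x hx => e.ge (x := ⟨x, centralizer_le_normalizer _ hx⟩) ((k _).2 hx)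

end B0

open B0 in
theorem Hy.b0 {G : Type*} [Group G] [Finite G] {S : Sylow 7 G} {Z₁ Z₂ Q K A₂ A₃ A₅ : Subgroup G}
    (h : Hy S Z₁ Z₂ Q K A₂ A₃ A₅) : H0 S Z₁ Z₂ Q K A₅ :=
  ⟨QS h, SK h, cS h, zQ h, z12 h, z2Q h, m2 h, a5 h, tr h, cK h⟩

end CF.Sv
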