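import Cfsg.Agent.Sv.B0
import Cfsg.Agent.Recog.DC
import Cfsg.Agent.Loc.Core

/-! S3024: the coordinates on `Q / Z₁`. -/

set_option autoImplicit false
set_option linter.unusedSectionVars false

namespace CF.Sv

open Cfsg Subgroup CF.Loc
open scoped commutatorElement

instance simple_A7 : IsSimpleGroup A7 := alternatingGroup.isSimpleGroup (by simp)

namespace B1

theorem exists_hom {Q : Type*} [Group Q] [Finite Q] (Z : Subgroup Q) [Z.Normal] (c : commutator Q ≤ Z)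
    (e : ∀ x : Q, x ^ 7 = 1) (k : Z.index = 7 ^ 4) :
    ∃ f : Q →* Multiplicative V, Function.Surjective f ∧ f.ker = Z := by
  letI : CommGroup (Q ⧸ Z) := { mul_comm := (Normal.quotient_commutative_iff_commutator_le.2 c).is_comm.comm }
  letI : Module (ZMod 7) (Additive (Q ⧸ Z)) := AddCommGroup.zmodModule fun x => by
    obtain ⟨y, hy⟩ := QuotientGroup.mk_surjective x.toMul
    change Additive.ofMul (x.toMul ^ 7) = Additive.ofMul 1
    rw [← hy, ← QuotientGroup.mk_pow, e]; rfl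
  haveI := Module.Finite.of_finite (R := ZMod 7) (M := Additive (Q ⧸ Z))
  have r : Module.finrank (ZMod 7) (Additive (Q ⧸ Z)) = 4 := by
    have := Module.natCard_eq_pow_finrank (K := ZMod 7) (V := Additive (Q ⧸ Z))
    rw [Nat.card_zmod, Nat.card_congr Additive.toMul, ← index_eq_card, k] at this
    exact (Nat.pow_right_injective (by decide) this).symm
  let l := (Module.finBasisOfFinrankEq (ZMod 7) (Additive (Q ⧸ Z)) r).equivFun
  let m : (Q ⧸ Z) ≃* Multiplicative V := AddEquiv.toMultiplicativeRight l.toAddEquiv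
  refine ⟨m.toMonoidHom.comp (QuotientGroup.mk' Z), m.surjective.comp (QuotientGroup.mk'_surjective Z), ?_⟩
  ext x
  simp

theorem exists_lin {Q : Type*} [Group Q] {f : Q →* Multiplicative V} (s : Function.Surjective f) (α : Q →* Q)
    (h : ∀ x ∈ f.ker, α x ∈ f.ker) : ∃ l : V →ₗ[ZMod 7] V, ∀ a, l (f a).toAdd = (f (α a)).toAdd :=
  ⟨(AddMonoidHom.toMultiplicative.symm (f.liftOfSurjective s ⟨f.comp α, h⟩)).toZModLinearMap 7, fun a =>
    congrArg Multiplicative.toAdd (f.liftOfRightInverse_comp_apply _ _ ⟨f.comp α, h⟩ a)⟩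

variable {G : Type*} [Group G] [Finite G] {S : Sylow 7 G} {d : G} {Z₂ Q K A₂ A₃ A₅ : Subgroup G}
  (h : Hy S (zpowers d) Z₂ Q K A₂ A₃ A₅) (h0 : H0 S (zpowers d) Z₂ Q K A₅)
include h h0

theorem zQ : zpowers d ≤ Q := h0.z12.trans h0.z2Q

theorem cen : center Q = (zpowers d).subgroupOf Q := ext fun x => by
  rw [mem_subgroupOf, h0.zQ, mem_center_iff]
  exact ⟨fun e => ⟨x.2, fun y hy => congrArg Subtype.val (e ⟨y, hy⟩)⟩, fun e y => Subtype.ext (e.2 y y.2)⟩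

theorem cm {a b : G} (ha : a ∈ Q) (hb : b ∈ Q) : ⁅a, b⁆ ∈ zpowers d :=
  (h.ex.1.2.2.trans (cen h h0)).le (commutator_mem_commutator (mem_top (⟨a, ha⟩ : Q)) (mem_top ⟨b, hb⟩))

theorem cz {a u : G} (ha : a ∈ K) (hu : u ∈ zpowers d) : u * a = a * u := h0.cK.le ha u hu

theorem nd (a : G) (ha : a ∈ Q) (n : a ∉ zpowers d) : ∃ b ∈ Q, ⁅a, b⁆ = d := by
  obtain ⟨b, hb, e⟩ : ∃ b ∈ Q, ⁅a, b⁆ ≠ 1 := by
    by_contra q; push Not at q
    exact n (h0.zQ.ge ⟨ha, fun x hx => (commutatorElement_eq_one_iff_mul_comm.1 (q x hx)).symm⟩)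
  obtain ⟨k, hk⟩ := mem_powers_iff_mem_zpowers.2 ((B0.eq_zp h.c1 (cm h h0 ha hb) e).ge (mem_zpowers d))
  refine ⟨b ^ k, pow_mem hb k, Eq.trans ?_ hk⟩
  clear hk
  beta_reduce
  induction k with
  | zero => simp
  | succ k ih =>
    have := cz h h0 (h.QK (pow_mem hb k)) (cm h h0 ha hb)
    calc ⁅a, b ^ (k + 1)⁆ = ⁅a, b ^ k⁆ * (b ^ k * ⁅a, b⁆) * (b ^ k)⁻¹ := by simp only [commutatorElement_def]; group
      _ = _ := by rw [← this, ih, pow_succ]; group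

theorem noP {R : Subgroup G} (p : IsPGroup 7 R) (n : K ≤ 𝐍(R)) : R ≤ Q := by
  have le := (B0.le_S S p (h0.SK.trans n)).trans h0.SK
  obtain ⟨_, c, ⟨e⟩, -⟩ := h.KQ
  let f := e.toMonoidHom.comp ((QuotientGroup.mk' _).comp (QuotientGroup.mk' (Q.subgroupOf K)))
  have s : Function.Surjective f :=
    e.surjective.comp ((QuotientGroup.mk'_surjective _).comp (QuotientGroup.mk'_surjective _))
  have p' := (p.of_equiv (subgroupOfEquivOfLe le).symm).map f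
  rcases (Normal.map (normal_subgroupOf_of_le_normalizer n) f s).eq_bot_or_eq_top with k | k
  · intro x hx
    have m : (QuotientGroup.mk ⟨x, le hx⟩ : K ⧸ Q.subgroupOf K) ∈ center _ :=
      (QuotientGroup.eq_one_iff _).1 (e.map_eq_one_iff.1 (mem_bot.1 (k.le ⟨⟨x, le hx⟩, hx, rfl⟩)))
    obtain ⟨i, hi⟩ := p ⟨x, hx⟩
    refine (QuotientGroup.eq_one_iff (N := Q.subgroupOf K) ⟨x, le hx⟩).1 (orderOf_eq_one_iff.1 ?_)
    refine Nat.eq_one_of_dvd_coprimes (Nat.Coprime.pow_right i (by decide : Nat.Coprime 2 7))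
      (c ▸ orderOf_dvd_natCard _ m) (orderOf_dvd_of_pow_eq_one ?_)
    rw [← QuotientGroup.mk_pow, show (⟨x, le hx⟩ : K) ^ 7 ^ i = 1 from Subtype.ext (congrArg Subtype.val hi :)]
    rfl
  · obtain ⟨i, hi⟩ := IsPGroup.iff_card.1 p'
    rw [k, card_top, card_A7] at hi
    exact absurd ((Nat.Prime.dvd_of_dvd_pow Nat.prime_two (hi ▸ by decide : 2 ∣ 7 ^ i))) (by decide)

theorem cQ {g : G} (n : g ∈ 𝐍(zpowers d)) (c : ∀ a ∈ Q, a * g = g * a) : g ∈ Q := by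
  have k : (pCore 7 𝐍(zpowers d)).map (Subgroup.subtype _) ≤ Q := noP h h0 ((isPGroup_pCore 7 _).map _)
    (h.KN.trans fun x hx => mem_normalizer_of_conj_mem (by
      rintro _ ⟨y, hy, rfl⟩; exact ⟨_, (pCore_normal 7 _).conj_mem y hy ⟨x, hx⟩, rfl⟩))
  exact k ⟨⟨g, n⟩, h.n1 fun y hy => Subtype.ext (c _ (k ⟨y, hy, rfl⟩)), rfl⟩

theorem main : ∃ L : Lo G, Tie L S (zpowers d) Z₂ Q := by
  classical
  have NQ := B0.NQ h
  have d7 : orderOf d = 7 := (Nat.card_zpowers d).symm.trans h.c1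
  haveI : ((zpowers d).subgroupOf Q).Normal := cen h h0 ▸ inferInstance
  obtain ⟨f, fs, fk⟩ := exists_hom ((zpowers d).subgroupOf Q) (h.ex.1.2.2.trans (cen h h0)).le
    (fun x => Subtype.ext (h.Q7 x x.2)) (by
      have := card_mul_index ((zpowers d).subgroupOf Q)
      rw [Nat.card_congr (subgroupOfEquivOfLe (zQ h h0)).toEquiv, h.c1, h.cQ] at this
      omega)
  let φ : G → V := fun a => if ha : a ∈ Q then (f ⟨a, ha⟩).toAdd else 0
  have hφ : ∀ {a} (ha : a ∈ Q), φ a = (f ⟨a, ha⟩).toAdd := fun ha => dif_pos ha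
  have φm : ∀ a ∈ Q, ∀ b ∈ Q, φ (a * b) = φ a + φ b := fun a ha b hb => by
    rw [hφ ha, hφ hb, hφ (mul_mem ha hb), ← toAdd_mul, ← map_mul]; rfl
  have φe : ∀ a ∈ Q, φ a = 0 ↔ a ∈ zpowers d := fun a ha => by
    rw [hφ ha]; exact (SetLike.ext_iff.1 fk ⟨a, ha⟩)
  have φs : ∀ v, ∃ a ∈ Q, φ a = v := fun v => by
    obtain ⟨a, e⟩ := fs (.ofAdd v)
    exact ⟨a, a.2, (hφ a.2).trans (congrArg Multiplicative.toAdd e)⟩
  have φi : ∀ a ∈ Q, ∀ b ∈ Q, φ a = φ b ↔ b⁻¹ * a ∈ zpowers d := fun a ha b hb => by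
    rw [← φe _ (mul_mem (inv_mem hb) ha)]
    nth_rewrite 1 [show a = b * (b⁻¹ * a) by group]
    rw [φm _ hb _ (mul_mem (inv_mem hb) ha), add_eq_left]
  have nQ : ∀ g ∈ 𝐍(zpowers d), ∀ a ∈ Q, g * a * g⁻¹ ∈ Q := fun g hg a ha => conj_mem_of_mem_normalizer (NQ hg) ha
  have l0 : ∀ g : 𝐍(zpowers d), ∃ l : V →ₗ[ZMod 7] V, ∀ a ∈ Q, l (φ a) = φ (g * a * (g : G)⁻¹) := fun g => by
    obtain ⟨l, hl⟩ := exists_lin fs (Q.normalizerMonoidHom ⟨g, NQ g.2⟩).toMonoidHom fun x hx => by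
      rw [fk] at hx ⊢; exact conj_mem_of_mem_normalizer g.2 hx
    exact ⟨l, fun a ha => by rw [hφ ha, hl, hφ (nQ _ g.2 _ ha)]; rfl⟩
  choose l hl using l0
  have li : ∀ g v, l g (l g⁻¹ v) = v := fun g v => by
    obtain ⟨a, ha, rfl⟩ := φs v
    rw [hl _ _ ha, hl _ _ (nQ _ g⁻¹.2 _ ha)]
    congr 1; simp [mul_assoc]
  let ρ : 𝐍(zpowers d) →* GV := MonoidHom.mk' (fun g => LinearEquiv.ofLinearMap (l g) (l g⁻¹) (LinearMap.ext (li g))
    (LinearMap.ext fun v => by simpa using li g⁻¹ v)) fun a b => LinearEquiv.ext fun v => by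
      obtain ⟨x, hx, rfl⟩ := φs v
      change l (a * b) _ = l a (l b _)
      rw [hl _ _ hx, hl _ _ hx, hl _ _ (nQ _ b.2 _ hx)]
      congr 1; simp [mul_assoc]
  have φc : ∀ g : 𝐍(zpowers d), ∀ a ∈ Q, φ (g * a * (g : G)⁻¹) = ρ g (φ a) := fun g a ha => (hl g a ha).symm
  have fx : ∀ g : 𝐍(zpowers d), ∀ a ∈ Q, ρ g (φ a) = φ a ↔ a⁻¹ * (g * a * (g : G)⁻¹) ∈ zpowers d := fun g a ha => by
    rw [← φc g a ha, φi _ (nQ _ g.2 _ ha) _ ha]
  have kr : ∀ g : 𝐍(zpowers d), ρ g = 1 ↔ (g : G) ∈ Q := by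
    have k : ρ.ker.map (Subgroup.subtype _) ≤ Q := by
      refine noP h h0 (IsPGroup.map (fun ⟨g, hg⟩ => ⟨2, Subtype.ext (Subtype.ext ?_)⟩) _)
        (h.KN.trans fun x hx => mem_normalizer_of_conj_mem (by
          rintro _ ⟨y, hy, rfl⟩; exact ⟨_, ρ.normal_ker.conj_mem y hy ⟨x, hx⟩, rfl⟩))
      have u : ∀ a ∈ Q, ∃ u ∈ zpowers d, g * a * (g : G)⁻¹ = a * u := fun a ha =>
        ⟨_, (fx g a ha).1 (by rw [MonoidHom.mem_ker.1 hg]; rfl), by group⟩
      have gd : (g : G) ∈ K := by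
        obtain ⟨a, ha, n⟩ : ∃ a ∈ Q, a ∉ zpowers d := by
          by_contra q; push Not at q
          have := card_le_of_le (H := Q) (K := zpowers d) q
          rw [h.c1, h.cQ] at this; omega
        obtain ⟨b, hb, e⟩ := nd h h0 a ha n
        obtain ⟨x, hx, e1⟩ := u a ha
        obtain ⟨y, hy, e2⟩ := u b hb
        suffices k : (g : G) * ⁅a, b⁆ * (g : G)⁻¹ = ⁅a, b⁆ by
          rw [e] at k
          rwa [h0.cK, centralizer_zpowers, mem_centralizer_singleton_iff, ← mul_inv_eq_iff_eq_mul]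
        rw [conjugate_commutatorElement, e1, e2]
        have c1 := cz h h0 (h.QK (mul_mem hb (zQ h h0 hy))) hx
        have c2 := cz h h0 (h.QK (inv_mem ha)) hy
        calc ⁅a * x, b * y⁆ = a * (x * (b * y)) * x⁻¹ * a⁻¹ * y⁻¹ * b⁻¹ := by simp only [commutatorElement_def]; group
          _ = a * b * (y * a⁻¹) * y⁻¹ * b⁻¹ := by rw [c1]; group
          _ = _ := by rw [c2, commutatorElement_def]; group
      have q : (g : G) ^ 7 ∈ Q := cQ h h0 (pow_mem g.2 7) fun a ha => by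
        obtain ⟨x, hx, e⟩ := u a ha
        have : ∀ k : ℕ, (g : G) ^ k * a * ((g : G) ^ k)⁻¹ = a * x ^ k := fun k => by
          induction k with
          | zero => simp
          | succ k ih =>
            calc _ = g * ((g : G) ^ k * a * ((g : G) ^ k)⁻¹) * (g : G)⁻¹ := by group
              _ = g * a * (g : G)⁻¹ * (g * x ^ k * (g : G)⁻¹) := by rw [ih]; group
              _ = _ := by rw [e, ← cz h h0 gd (pow_mem hx k)]; group
        have := this 7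
        rwa [h.Q7 x (zQ h h0 hx), mul_one, mul_inv_eq_iff_eq_mul, eq_comm] at this
      exact (pow_mul (g : G) 7 7).trans (h.Q7 _ q)
    refine fun g => ⟨fun e => k ⟨g, e, rfl⟩, fun e => LinearEquiv.ext fun v => ?_⟩
    obtain ⟨a, ha, rfl⟩ := φs v
    refine (fx g a ha).2 ?_
    have := cm h h0 (inv_mem ha) e
    rwa [commutatorElement_def, inv_inv, mul_assoc, mul_assoc, ← mul_assoc (g : G)] at this
  let r := ρ.comp (inclusion h.KN)
  obtain ⟨_, dc⟩ := h.KQ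
  obtain ⟨π, t, D, -⟩ := Recog.exists_dc dc
  let ψ : (K ⧸ Q.subgroupOf K) ≃* r.range :=
    (QuotientGroup.quotientMulEquivOfEq (ext fun g => (kr (inclusion h.KN g)).symm)).trans (QuotientGroup.quotientKerEquivRange r)
  obtain ⟨x, hx, xQ⟩ : ∃ x ∈ S, x ∉ Q := by
    by_contra q; push Not at q
    have := card_le_of_le (H := S) (K := Q) q
    rw [h0.cS, h.cQ] at this; omega
  have sp : Q ⊔ zpowers x = S := B0.eq_of_lt h.cQ h0.cS (le_sup_left.lt_of_not_ge fun e =>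
    xQ (e (mem_sup_right (mem_zpowers x)))) (sup_le h0.QS (zpowers_le.2 hx))
  obtain ⟨w, hw, wz⟩ : ∃ w ∈ Z₂, w ∉ zpowers d := by
    by_contra q; push Not at q
    have := card_le_of_le (H := Z₂) (K := zpowers d) q
    rw [h.c1, h.c2] at this; omega
  have sp2 : zpowers d ⊔ zpowers w = Z₂ := B0.eq_of_lt (p := 7) (n := 1) h.c1 h.c2 (le_sup_left.lt_of_not_ge fun e =>
    wz (e (mem_sup_right (mem_zpowers w)))) (sup_le h0.z12 (zpowers_le.2 hw))
  have wQ := h0.z2Q hw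
  have φp : ∀ k : ℕ, φ (w ^ k) = (k : ZMod 7) • φ w := fun k => by
    induction k with
    | zero => simpa using (φe 1 (one_mem _)).2 (one_mem _)
    | succ k ih => rw [pow_succ, φm _ (pow_mem wQ k) _ wQ, ih, Nat.cast_succ, add_smul, one_smul]
  have z2 : ∀ a ∈ Q, a ∈ Z₂ ↔ ∃ k : ZMod 7, φ a = k • φ w := fun a ha => by
    constructor
    · intro e
      obtain ⟨u, hu, v, hv, rfl⟩ := (mem_sup_of_le_normalizer
        (zpowers_le.2 (h.KN (h.QK wQ)))).1 (sp2.ge e)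
      obtain ⟨k, rfl⟩ := mem_powers_iff_mem_zpowers.2 hv
      exact ⟨k, by rw [φm _ (zQ h h0 hu) _ (pow_mem wQ k), (φe _ (zQ h h0 hu)).2 hu, zero_add, φp]⟩
    · rintro ⟨k, e⟩
      rw [← ZMod.natCast_zmod_val k, ← φp, φi _ ha _ (pow_mem wQ _)] at e
      simpa using mul_mem (pow_mem hw k.val) (h0.z12 e)
  let s : r.range := ⟨r ⟨x, h0.SK hx⟩, _, rfl⟩
  have s7 : s ^ 7 = 1 := by
    refine Subtype.ext ((map_pow r _ 7).symm.trans ((kr _).2 ?_))
    haveI := normal_subgroupOf_of_le_normalizer ((B0.SN h).trans NQ)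
    have i : (Q.subgroupOf S).index = 7 := by
      have := card_mul_index (Q.subgroupOf S)
      rw [Nat.card_congr (subgroupOfEquivOfLe h0.QS).toEquiv, h0.cS, h.cQ] at this
      omega
    have := (Q.subgroupOf S).pow_index_mem ⟨x, hx⟩
    rwa [i] at this
  have fix : ∀ v, (s : GV) v = v ↔ ∃ a : ZMod 7, v = a • φ w := fun v => by
    obtain ⟨a, ha, rfl⟩ := φs v
    rw [← z2 a ha, ← inv_mem_iff, h0.m2]
    refine ⟨fun e => ⟨inv_mem (h0.QS ha), fun y hy => ?_⟩, fun e => (fx ⟨x, h.KN (h0.SK hx)⟩ a ha).2 ?_⟩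
    · have : Q ⊔ zpowers x ≤ ((MulAction.stabilizer GV (φ a)).comap ρ).map (Subgroup.subtype _) :=
        sup_le (fun z hz => ⟨⟨z, h.KN (h.QK hz)⟩, by
          change ρ _ _ = _
          rw [(kr ⟨z, _⟩).2 hz]; rfl, rfl⟩) (zpowers_le.2 ⟨⟨x, h.KN (h0.SK hx)⟩, e, rfl⟩)
      obtain ⟨z, k, rfl⟩ := this (sp.ge hy)
      rw [commutatorElement_def, inv_inv, mul_assoc, mul_assoc, ← mul_assoc (Subgroup.subtype _ z)]
      exact (fx z a ha).1 k
    · have := e.2 x hx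
      rwa [commutatorElement_def, inv_inv, mul_assoc, mul_assoc, ← mul_assoc x] at this
  have tn : (ψ t : GV) = ng := (inv_comm (congrArg Subtype.val s7 :) fix
    (congrArg Subtype.val ((map_mul ψ t t).symm.trans (by rw [D.sq, map_one])) :) (by
      obtain ⟨y, hy⟩ := ψ.surjective s
      rw [← hy, ← coe_mul, ← coe_mul, ← map_mul, ← map_mul, D.cen])).resolve_left fun e =>
        D.ne (ψ.map_eq_one_iff.1 (Subtype.ext e))
  let π' : r.range →* A7 := (π.comp ψ.symm.toMonoidHom).codRestrict _ fun g =>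
    Equiv.Perm.mem_alternatingGroup.2 (D.sgn _)
  have pk : ∀ y, π' (ψ y) = 1 ↔ π y = 1 := fun y => by
    rw [Subtype.ext_iff]; simp [π']
  refine ⟨⟨d, Q, φ, ρ, r.range, π', s, φ w, ⟨fun σ => ?_, fun g => ?_, tn ▸ (ψ t).2, fun g e => ?_,
    orderOf_eq_prime s7 fun e => xQ ((kr _).1 (congrArg Subtype.val e :)), mt (φe w wQ).1 wz, fix⟩, d7,
    zQ h h0 (mem_zpowers d), centralizer_zpowers d ▸ h.QK.trans h0.cK.le, h.Q7, φm, φe, φs, nQ, nd h h0, φc, kr,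
    fun m => ⟨fun ⟨g, e⟩ => ⟨_, centralizer_zpowers d ▸ h0.cK.le g.2, e⟩, fun ⟨g, hg, e⟩ =>
      ⟨⟨g, h0.cK.ge ((centralizer_zpowers d).ge hg)⟩, e⟩⟩⟩, rfl, rfl, z2, ⟨x, h.KN (h0.SK hx)⟩, hx, rfl⟩
  · obtain ⟨y, e⟩ := D.surj σ (Equiv.Perm.mem_alternatingGroup.1 σ.2)
    exact ⟨ψ y, Subtype.ext (by simpa [π'] using e)⟩
  · obtain ⟨y, rfl⟩ := ψ.surjective g
    rw [pk, ← tn]
    refine ⟨fun e => (D.ker y e).imp (fun e => by simp [e]) fun e => by rw [e], ?_⟩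
    rintro (e | e)
    · rw [ψ.map_eq_one_iff.1 (Subtype.ext e), map_one]
    · rw [ψ.injective (Subtype.ext e), D.πt]
  · obtain ⟨y, rfl⟩ := ψ.surjective g
    rw [← map_pow, ψ.map_eq_one_iff, pow_two] at e
    have h1 := D.card_support e
    have h2 : (π y).support.card ≤ 7 := (Finset.card_le_univ _).trans (by simp)
    exact (pk y).2 (Equiv.Perm.card_support_eq_zero.1 (by omega))

end B1

theorem Hy.b1 {G : Type*} [Group G] [Finite G] {S : Sylow 7 G} {Z₁ Z₂ Q K A₂ A₃ A₅ : Subgroup G}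
    (h : Hy S Z₁ Z₂ Q K A₂ A₃ A₅) (h0 : H0 S Z₁ Z₂ Q K A₅) : ∃ L : Lo G, Tie L S Z₁ Z₂ Q := by
  obtain ⟨d, hd, d1⟩ := B0.exd h
  obtain rfl := B0.eq_zp h.c1 hd d1
  exact B1.main h h0

end CF.Sv
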