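import Cfsg.Agent.Sv.B1

/-! S3024: the second local subgroup and the element `c`. -/

set_option autoImplicit false
set_option linter.unusedSectionVars false

namespace CF.Sv

open Cfsg Subgroup CF.Loc
open scoped commutatorElement

theorem P7.eq_one {X : Type*} [Group X] {x : X} (h : P7 x) {n : ℕ} (c : n.Coprime 7) (e : x ^ n = 1) : x = 1 :=
  h.elim fun k e' => orderOf_eq_one_iff.1 (Nat.eq_one_of_dvd_coprimes (c.pow_right k) (orderOf_dvd_of_pow_eq_one e)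
    (orderOf_dvd_of_pow_eq_one e'))

theorem P7.map {X Y : Type*} [Group X] [Group Y] {x : X} (h : P7 x) (f : X →* Y) : P7 (f x) :=
  h.imp fun k e => by rw [← map_pow, e, map_one]

theorem P7.sub {X : Type*} [Group X] {x : X} (h : P7 x) {H : Subgroup X} (hx : x ∈ H) : P7 (⟨x, hx⟩ : H) :=
  h.elim fun k e => ⟨k, Subtype.ext e⟩

/-- A 7-element normalizing a subgroup of order 7 centralizes it. -/
theorem P7.cent {G : Type*} [Group G] {c y : G} (h : P7 y) (hc : orderOf c = 7) (n : y ∈ 𝐍(zpowers c)) : y ∈ 𝐜(c) := by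
  have z := (Nat.card_zpowers c).trans hc
  haveI : Finite (zpowers c) := Nat.finite_of_card_ne_zero (by rw [z]; decide)
  have a : Nat.card (MulAut (zpowers c)) = 6 := by rw [IsCyclic.card_mulAut, z]; rfl
  have e := ((h.sub n).map (normalizerMonoidHom _)).eq_one (n := 6) (by decide) (a ▸ pow_card_eq_one')
  exact mem_centralizer_singleton_iff.2
    (mul_inv_eq_iff_eq_mul.1 (congrArg (fun t : MulAut (zpowers c) => (t ⟨_, mem_zpowers _⟩ : G)) e))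

namespace B2

theorem part {X Y : Type*} [Group X] [Finite X] [Group Y] (f : X →* Y) {y : X} (h : P7 (f y)) :
    ∃ m : ℕ, P7 (y ^ m) ∧ f (y ^ m) = f y := by
  obtain ⟨k, e⟩ := h
  obtain ⟨a, o, n, q⟩ := Nat.exists_eq_pow_mul_and_not_dvd (orderOf_pos y).ne' 7 (by decide)
  obtain ⟨m, m1, m2⟩ := Nat.chineseRemainder (((Nat.Prime.coprime_iff_not_dvd fact7.out).2 n).pow_left k) 1 0
  refine ⟨m, ⟨a, ?_⟩, ?_⟩
  · rw [← pow_mul, ← orderOf_dvd_iff_pow_eq_one, q, mul_comm m]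
    exact mul_dvd_mul_left _ ((Nat.modEq_zero_iff_dvd).1 m2)
  · rw [map_pow]
    exact (pow_eq_pow_iff_modEq.2 (m1.of_dvd (orderOf_dvd_of_pow_eq_one e))).trans (pow_one _)

variable {G : Type*} [Group G] [Finite G] {S : Sylow 7 G} {L : Lo G} {Z₂ K A₂ A₃ A₅ : Subgroup G}
  (h : Hy S (zpowers L.d) Z₂ L.Q K A₂ A₃ A₅) (h0 : H0 S (zpowers L.d) Z₂ L.Q K A₅)
  (T : Tie L S (zpowers L.d) Z₂ L.Q)
include h h0 T

theorem mem_s {g : 𝐍(zpowers L.d)} (hg : (g : G) ∈ S) : L.ρ g ∈ zpowers (L.s : GV) := by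
  obtain ⟨x, hx, e⟩ := T.s
  have xQ : (x : G) ∉ L.Q := fun q => by
    have := L.li.s7
    rw [show L.s = 1 from Subtype.ext (e.symm.trans ((L.ker x).2 q)), orderOf_one] at this
    omega
  have sp : L.Q ⊔ zpowers (x : G) = S := B0.eq_of_lt h.cQ h0.cS (le_sup_left.lt_of_not_ge fun e =>
    xQ (e (mem_sup_right (mem_zpowers _)))) (sup_le h0.QS (zpowers_le.2 hx))
  have : L.Q ⊔ zpowers (x : G) ≤ ((zpowers (L.s : GV)).comap L.ρ).map (Subgroup.subtype _) :=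
    sup_le (fun z hz => ⟨⟨z, L.cN (L.Qc hz)⟩, by
      change L.ρ _ ∈ zpowers _
      rw [(L.ker ⟨z, _⟩).2 hz]; exact one_mem _, rfl⟩) (zpowers_le.2 ⟨x, e ▸ mem_zpowers _, rfl⟩)
  obtain ⟨z, k, q⟩ := this (sp.ge hg)
  rwa [← show z = g from Subtype.ext q]

theorem o7 : orderOf (L.s : GV) = 7 := (orderOf_coe _).trans L.li.s7

theorem p7 {g : 𝐍(zpowers L.d)} (hg : (g : G) ∈ S) : L.ρ g ^ 7 = 1 :=
  orderOf_dvd_iff_pow_eq_one.1 ((orderOf_dvd_of_mem_zpowers (mem_s h h0 T hg)).trans (o7 h h0 T).dvd)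

theorem fixS {g : 𝐍(zpowers L.d)} (hg : (g : G) ∈ S) (n : (g : G) ∉ L.Q) (v : V) :
    L.ρ g v = v ↔ ∃ a : ZMod 7, v = a • L.e := by
  have e := B0.eq_zp ((Nat.card_zpowers _).trans (o7 h h0 T)) (mem_s h h0 T hg) (mt (L.ker g).1 n)
  rw [← L.li.fix, ← LinearEquiv.smul_def, ← LinearEquiv.smul_def, ← MulAction.mem_stabilizer_iff,
    ← MulAction.mem_stabilizer_iff, ← zpowers_le, ← zpowers_le, e]

theorem a5S : A₅ ≤ S := h0.a5.le.trans inf_le_left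
theorem a5C : A₅ ≤ 𝐂(Z₂) := h0.a5.le.trans inf_le_right
theorem N3 : 𝐍(Z₂) ≤ 𝐍(A₃) := (normal_subgroupOf_iff_le_normalizer (h.h35.le.trans h.h5)).1 h.a3

theorem a2 : A₂ = Z₂ := by
  have n : 𝐍(Z₂) ≤ 𝐍(A₂) := (normal_subgroupOf_iff_le_normalizer (h.h23.le.trans (h.h35.le.trans h.h5))).1 h.a2
  have le := h.h23.le.trans (h.h35.le.trans (a5S h h0 T))
  obtain ⟨b, hb, b1, k⟩ := B0.step S.2 (A := ⊥) (B := A₂) (bot_lt_iff_ne_bot.2 fun e => by simpa [e] using h.k2) le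
    le_normalizer_of_normal ((B0.SN2 h).trans n)
  exact (eq_of_le_of_card_ge (B0.all h n (h0.z12 (h.z1.ge ⟨le hb, fun x hx =>
    (commutatorElement_eq_one_iff_mul_comm.1 (k x hx)).symm⟩)) b1 hb) (by rw [h.k2, h.c2]; decide)).symm

theorem gen3 {b : G} (hb : b ∈ A₃) (n : b ∉ Z₂) : Z₂ ⊔ zpowers b = A₃ :=
  B0.eq_of_lt (p := 7) (n := 2) h.c2 h.k3 (le_sup_left.lt_of_not_ge fun e => n (e (mem_sup_right (mem_zpowers _))))
    (sup_le (a2 h h0 T ▸ h.h23.le) (zpowers_le.2 hb))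

theorem dec3 {b a : G} (hb : b ∈ A₃) (n : b ∉ Z₂) (ha : a ∈ A₃) : ∃ u ∈ Z₂, ∃ k : ℕ, a = u * b ^ k := by
  obtain ⟨u, hu, v, hv, rfl⟩ := (mem_sup_of_le_normalizer (zpowers_le.2 (h.h5 (h.h35.le hb)))).1
    ((gen3 h h0 T hb n).ge ha)
  obtain ⟨k, rfl⟩ := mem_powers_iff_mem_zpowers.2 hv
  exact ⟨u, hu, k, rfl⟩

theorem mv {g : 𝐍(zpowers L.d)} {a : G} (ha : a ∈ L.Q) (k : ⁅(g : G), a⁆ ∈ Z₂) :
    ∃ m : ZMod 7, L.ρ g (L.φ a) - L.φ a = m • L.e := by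
  obtain ⟨m, e⟩ := (T.z2 _ (h0.z2Q k)).1 k
  rw [commutatorElement_def, L.φ_mul _ (L.nQ _ g.2 _ ha) _ (inv_mem ha), L.φ_cj g a ha, L.φ_inv ha] at e
  exact ⟨m, (sub_eq_add_neg _ _).trans e⟩

theorem exb : ∃ b ∈ A₃, b ∉ Z₂ ∧ b ∈ L.Q ∧ ∀ x ∈ S, ⁅x, b⁆ ∈ Z₂ := by
  have le := h.h35.le.trans (a5S h h0 T)
  obtain ⟨b, hb, n, k⟩ := B0.step S.2 (a2 h h0 T ▸ h.h23) le (B0.SN2 h) ((B0.SN2 h).trans (N3 h h0 T))
  refine ⟨b, hb, n, by_contra fun q => ?_, fun x hx => commutatorElement_inv b x ▸ inv_mem (k x hx)⟩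
  let g : 𝐍(zpowers L.d) := ⟨b, B0.SN h (le hb)⟩
  let N : V →ₗ[ZMod 7] V := (L.ρ g).toLinearMap - LinearMap.id
  have f : Module.finrank (ZMod 7) (Submodule.span (ZMod 7) {L.e}) = 1 := finrank_span_singleton L.li.e0
  have k1 : LinearMap.ker N ≤ Submodule.span (ZMod 7) {L.e} := fun v hv =>
    Submodule.mem_span_singleton.2 (((fixS h h0 T (g := g) (le hb) q v).1 (sub_eq_zero.1 hv)).imp fun _ => Eq.symm)
  have k2 : LinearMap.range N ≤ Submodule.span (ZMod 7) {L.e} := by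
    rintro _ ⟨v, rfl⟩
    obtain ⟨a, ha, rfl⟩ := L.φ_sj v
    exact Submodule.mem_span_singleton.2 ((mv h h0 T (g := g) ha (k a (h0.QS ha))).imp fun _ => Eq.symm)
  have := N.finrank_range_add_finrank_ker
  have a1 := Submodule.finrank_mono k1
  have a2 := Submodule.finrank_mono k2
  rw [Module.finrank_fin_fun] at this
  omega

theorem a3Q : A₃ ≤ L.Q := by
  obtain ⟨b, hb, n, q, -⟩ := exb h h0 T
  exact (gen3 h h0 T hb n).ge.trans (sup_le h0.z2Q (zpowers_le.2 q))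

theorem a3c {a b : G} (ha : a ∈ A₃) (hb : b ∈ A₃) : a * b = b * a := by
  obtain ⟨x, hx, n, -⟩ := exb h h0 T
  have c : ∀ y ∈ A₃, ∀ u ∈ Z₂, Commute u y := fun y hy u hu => a5C h h0 T (h.h35.le hy) u hu
  obtain ⟨u, hu, k, e⟩ := dec3 h h0 T hx n ha
  obtain ⟨v, hv, l, e'⟩ := dec3 h h0 T hx n hb
  rw [e]
  refine ((c b hb u hu).mul_left (Commute.pow_left ?_ k)).eq
  rw [e']
  exact (c x hx v hv).symm.mul_right ((Commute.refl x).pow_right l)

theorem ext : ∃ t ∈ 𝐍(Z₂), t * t = 1 ∧ (∀ n ∈ 𝐍(Z₂), t⁻¹ * (n * t * n⁻¹) ∈ A₅) ∧ ∀ u ∈ Z₂, t * u * t⁻¹ = u⁻¹ := by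
  obtain ⟨_, ⟨e⟩⟩ := h.gl
  let g := e.toMonoidHom.comp (QuotientGroup.mk' (A₅.subgroupOf 𝐍(Z₂)))
  have s : Function.Surjective g := e.surjective.comp (QuotientGroup.mk'_surjective _)
  have k : ∀ x, g x = 1 ↔ (x : G) ∈ A₅ := fun x => e.map_eq_one_iff.trans (QuotientGroup.eq_one_iff _)
  obtain ⟨t0, e0⟩ := s (-1)
  obtain ⟨t, gt, tt⟩ : ∃ t, g t = -1 ∧ t * t = 1 := by
    refine ⟨t0 ^ 7 ^ 5, by rw [map_pow, e0, Odd.neg_one_pow (by decide)], ?_⟩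
    have := (k (t0 * t0)).1 (by rw [map_mul, e0]; simp)
    rw [← (Commute.refl t0).mul_pow, ← h.k5]
    exact Subtype.ext (congrArg A₅.subtype (pow_card_eq_one' (x := (⟨_, this⟩ : A₅))) :)
  have c : ∀ n ∈ 𝐍(Z₂), (t : G)⁻¹ * (n * t * n⁻¹) ∈ A₅ := fun n hn =>
    (k (t⁻¹ * (⟨n, hn⟩ * t * ⟨n, hn⟩⁻¹))).1 (by simp only [map_mul, map_inv, gt]; simp)
  have t2 : (t : G) * t = 1 := congrArg Subtype.val tt
  refine ⟨t, t.2, t2, c, fun u hu => by_contra fun q => ?_⟩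
  have tu := conj_mem_of_mem_normalizer t.2 hu
  have z2 : Z₂ ≤ A₅ := a2 h h0 T ▸ h.h23.le.trans h.h35.le
  have al : Z₂ ≤ 𝐜((t : G)) ⊓ Z₂ := by
    refine B0.all h (fun n hn => mem_normalizer_of_conj_mem fun v hv => ⟨mem_centralizer_singleton_iff.2 ?_,
      conj_mem_of_mem_normalizer hn hv.2⟩) (mul_mem hu tu) (fun e => q (eq_inv_of_mul_eq_one_right e))
      ⟨mem_centralizer_singleton_iff.2 ?_, mul_mem hu tu⟩
    · have a := a5C h h0 T (c _ (inv_mem hn)) v hv.2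
      have b := mem_centralizer_singleton_iff.1 hv.1
      calc n * v * n⁻¹ * t = n * (v * t) * ((t : G)⁻¹ * (n⁻¹ * t * n⁻¹⁻¹)) * n⁻¹ := by group
        _ = n * t * (v * ((t : G)⁻¹ * (n⁻¹ * t * n⁻¹⁻¹))) * n⁻¹ := by rw [b]; group
        _ = _ := by rw [a]; group
    · have a := a5C h h0 T (z2 tu) u hu
      have i : (t : G)⁻¹ = t := inv_eq_of_mul_eq_one_right t2
      rw [i] at a ⊢
      calc u * (t * u * t) * t = u * t * u * (t * t) := by group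
        _ = t * t * (u * t * u) * (t * t) := by rw [t2, one_mul]
        _ = t * (t * u * t * u) * (t * t) := by group
        _ = _ := by rw [← a, t2, mul_one]
  let D : 𝐍(Z₂) →* (ZMod 7)ˣ := Matrix.GeneralLinearGroup.det.comp g
  have sD : Function.Surjective D := (Matrix.GeneralLinearGroup.det_surjective (n := Fin 2)).comp s
  have cP : Nat.card D.ker = 7 ^ 5 * 336 := by
    have a := card_mul_index D.ker
    have b := card_mul_index g.ker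
    rw [index_ker, MonoidHom.range_eq_top.2 sD, card_top,
      Nat.card_units, Nat.card_zmod] at a
    rw [index_ker, MonoidHom.range_eq_top.2 s, card_top, Matrix.card_GL_field, show g.ker = A₅.subgroupOf _ from
      Subgroup.ext k, Nat.card_congr (subgroupOfEquivOfLe h.h5).toEquiv, h.k5] at b
    simp only [Fin.prod_univ_two, ZMod.card] at b
    change _ * 2016 = _ at b
    omega
  letI : MulAction D.ker G := MulAction.compHom G (MulAut.conj.comp ((Subgroup.subtype _).comp D.ker.subtype))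
  have d1 : L.d ≠ 1 := fun e => by simpa [e] using L.d7
  have dZ := h0.z12 (mem_zpowers L.d)
  have o : MulAction.orbit D.ker L.d = (Z₂ : Set G) \ {1} := by
    ext v
    constructor
    · rintro ⟨x, rfl⟩
      exact ⟨conj_mem_of_mem_normalizer x.1.2 dZ, fun e => d1 (conj_eq_one_iff.1 e)⟩
    · intro hv
      obtain ⟨x, hx, rfl⟩ := h0.tr _ dZ v hv.1 d1 hv.2
      have : closure {x | x ∈ 𝐍(Z₂) ∧ P7 x} ≤ D.ker.map (Subgroup.subtype _) := (closure_le _).2 fun y hy =>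
        ⟨⟨y, hy.1⟩, ((hy.2.sub hy.1).map D).eq_one (n := 6) (by decide)
          (by have := pow_card_eq_one' (x := D ⟨y, hy.1⟩); rwa [Nat.card_units, Nat.card_zmod] at this), rfl⟩
      obtain ⟨y, hy, rfl⟩ := this hx
      exact ⟨⟨y, hy⟩, rfl⟩
  have a := card_mul_index (MulAction.stabilizer D.ker L.d)
  rw [MulAction.index_stabilizer, o, Set.ncard_sdiff_singleton_of_mem (one_mem Z₂), ← Nat.card_coe_set_eq, cP] at a
  change _ * (Nat.card Z₂ - 1) = _ at a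
  rw [h.c2] at a
  have tD : t ∈ D.ker := by
    change Matrix.GeneralLinearGroup.det (g t) = 1
    rw [gt]; exact Units.ext (by simp [Matrix.det_neg])
  have b : orderOf (⟨t, tD⟩ : D.ker) = 2 := orderOf_eq_prime (by rw [pow_two]; exact Subtype.ext tt) fun e => by
    have : g t = 1 := by rw [show t = 1 from congrArg Subtype.val e, map_one]
    rw [gt] at this
    exact absurd (congrArg (fun m : GL (Fin 2) (ZMod 7) => m.1 0 0) this) (by decide)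
  have := b ▸ orderOf_dvd_natCard (MulAction.stabilizer D.ker L.d) (x := ⟨t, tD⟩)
    (mul_inv_eq_iff_eq_mul.2 (mem_centralizer_singleton_iff.1 (al dZ).1).symm)
  omega

theorem main : Nonempty (Bs G) := by
  obtain ⟨w, wQ, we⟩ := L.φ_sj L.e
  have wZ : w ∈ Z₂ := (T.z2 w wQ).2 ⟨1, by rw [we, one_smul]⟩
  have wz : w ∉ zpowers L.d := fun e => L.li.e0 (we ▸ (L.φ_eq w wQ).2 e)
  have dZ := h0.z12 (mem_zpowers L.d)
  have cl : closure {L.d, w} = Z₂ := B0.eq_of_lt (p := 7) (n := 1) h.c1 h.c2 ((zpowers_le.2 (subset_closure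
    (by simp))).lt_of_not_ge fun e => wz (e (subset_closure (by simp)))) ((closure_le _).2 (by
      rintro _ (rfl | rfl); exacts [dZ, wZ]))
  obtain ⟨t, tN, t2, tc, ti⟩ := ext h h0 T
  have i : t⁻¹ = t := inv_eq_of_mul_eq_one_right t2
  have sq : ∀ u ∈ Z₂, t * u * t⁻¹ = u → u = 1 := fun u hu e =>
    P7.eq_one ⟨1, L.Q7 u (h0.z2Q hu)⟩ (n := 2) (by decide) (by
      rw [pow_two]; exact mul_eq_one_iff_eq_inv.2 (e.symm.trans (ti u hu)))
  have q5 : A₅ ⊓ L.Q = L.Q ⊓ 𝐜(w) := by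
    rw [h0.a5, ← cl]
    refine le_antisymm (fun x hx => ⟨hx.2, mem_centralizer_singleton_iff.2 (hx.1.2 w (subset_closure (by simp))).symm⟩)
      fun x hx => ⟨⟨h0.QS hx.1, le_centralizer_iff.1 ((closure_le _).2 ?_) (mem_zpowers x)⟩, hx.1⟩
    rintro _ (rfl | rfl) <;> rw [SetLike.mem_coe, centralizer_zpowers, mem_centralizer_singleton_iff]
    exacts [(mem_centralizer_singleton_iff.1 (L.Qc hx.1)).symm, (mem_centralizer_singleton_iff.1 hx.2).symm]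
  have c5 := q5 ▸ L.cardC wQ wz
  obtain ⟨b, hb, bZ, bQ, bS⟩ := exb h h0 T
  have tb := conj_mem_of_mem_normalizer (N3 h h0 T tN) hb
  have c3 := mul_mem hb tb
  have ct : t * (b * (t * b * t⁻¹)) * t⁻¹ = b * (t * b * t⁻¹) := by
    calc _ = t * b * t⁻¹ * (t * t * b * (t * t)⁻¹) := by group
      _ = _ := by rw [t2, a3c h h0 T hb tb]; simp
  have cZ : b * (t * b * t⁻¹) ∉ Z₂ := fun e => by
    have e1 := eq_inv_of_mul_eq_one_right (sq _ e ct)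
    have n1 : t ∈ 𝐍(zpowers L.d) := mem_normalizer_of_cj_le (by
      rw [cj_zpowers, ti _ dZ, zpowers_inv])
    let τ : 𝐍(zpowers L.d) := ⟨t, n1⟩
    have ττ : τ * τ = 1 := Subtype.ext t2
    have τe : L.ρ τ L.e = -L.e := by rw [← we, ← L.φ_cj τ w wQ, ← L.φ_inv wQ, ← ti w wZ]
    have τb : L.ρ τ (L.φ b) = -L.φ b := by rw [← L.φ_cj τ b bQ, ← L.φ_inv bQ, ← e1]
    obtain ⟨x, hx, xQ⟩ : ∃ x ∈ A₅, x ∉ L.Q := by
      by_contra q; push Not at q
      rw [inf_eq_left.2 q, h.k5] at c5; omega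
    have xS := a5S h h0 T hx
    let ξ : 𝐍(zpowers L.d) := ⟨x, B0.SN h xS⟩
    obtain ⟨m, hm⟩ := mv h h0 T (g := ξ) bQ (bS x xS)
    have yS : ((ξ⁻¹ * (τ * ξ * τ) : 𝐍(zpowers L.d)) : G) ∈ S :=
      mul_mem (inv_mem xS) (a5S h h0 T (i ▸ conj_mem_of_mem_normalizer (B0.N5 h tN) hx :))
    have yQ : ((ξ⁻¹ * (τ * ξ * τ) : 𝐍(zpowers L.d)) : G) ∈ L.Q := by
      by_contra q
      refine bZ ((T.z2 b bQ).2 ((fixS h h0 T yS q _).1 ?_))
      rw [map_mul, map_mul, map_mul, map_inv, LinearEquiv.mul_apply, LinearEquiv.mul_apply, LinearEquiv.mul_apply, τb,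
        map_neg, sub_eq_iff_eq_add.1 hm, map_neg, map_add, map_smul, τe, τb, smul_neg, ← neg_add, neg_neg,
        ← sub_eq_iff_eq_add.1 hm, ← LinearEquiv.mul_apply, inv_mul_cancel]
      rfl
    have cm : L.ρ τ * L.ρ ξ = L.ρ ξ * L.ρ τ := by
      have := (L.ker _).2 yQ
      rw [map_mul, map_inv, inv_mul_eq_one] at this
      nth_rewrite 2 [this]
      rw [← map_mul, ← map_mul, mul_assoc, ττ, mul_one]
    rcases inv_comm (p7 h h0 T (g := ξ) xS) (fixS h h0 T (g := ξ) xS xQ) (by rw [← map_mul, ττ, map_one]) cm with k | k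
    · rw [k] at τe
      have : (2 : ZMod 7) • L.e = 0 := by rw [two_smul]; exact add_eq_zero_iff_eq_neg.2 τe
      exact L.li.e0 ((smul_eq_zero_iff_right two_ne).1 this)
    · obtain ⟨z, zc, -, e⟩ := L.exz
      have := L.Qc ((L.ker (τ * z)).1 (by rw [map_mul, k, e, ng_mul]))
      have := mem_centralizer_singleton_iff.1 ((mul_mem_cancel_right zc).1 this)
      have := sq _ dZ (mul_inv_eq_iff_eq_mul.2 this)
      simpa [this] using L.d7
  generalize b * (t * b * t⁻¹) = c at c3 ct cZ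
  have cQ := a3Q h h0 T c3
  have c7 : orderOf c = 7 := orderOf_eq_prime (L.Q7 c cQ) fun e => cZ (e ▸ one_mem _)
  have k1 : ∀ y ∈ 𝐍(Z₂), y ∈ 𝐜(t) → P7 y → y ∈ 𝐜(c) := fun y hy yt p => by
    refine p.cent c7 (mem_normalizer_of_cj_le ?_)
    obtain ⟨u, hu, k, e⟩ := dec3 h h0 T c3 cZ (conj_mem_of_mem_normalizer (N3 h h0 T hy) c3)
    have yt : Commute t y := (mem_centralizer_singleton_iff.1 yt).symm
    have tc : Commute t c := mul_inv_eq_iff_eq_mul.1 ct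
    have : u = 1 := sq u hu (mul_inv_eq_iff_eq_mul.2 (by
      rw [← mul_inv_eq_iff_eq_mul.2 e]
      exact (((yt.mul_right tc).mul_right yt.inv_right).mul_right (tc.pow_right k).inv_right).eq))
    rw [cj_zpowers, e, this, one_mul]
    exact zpowers_le.2 (npow_mem_zpowers c k)
  have k2 : ∀ n ∈ 𝐍(Z₂), P7 n → ∃ y, (y ∈ 𝐜(c) ∧ y ∈ 𝐍(Z₂) ∧ P7 y) ∧ n⁻¹ * y ∈ A₅ := fun n hn p => by
    obtain ⟨_, -⟩ := h.gl
    obtain ⟨a, ha, e⟩ : ∃ a ∈ A₅, n * t * n⁻¹ = t * a := ⟨_, tc n hn, by group⟩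
    have ta : t * a * t⁻¹ = a⁻¹ := by
      rw [i, eq_inv_iff_mul_eq_one, mul_assoc, ← e]
      calc _ = n * (t * t) * n⁻¹ := by group
        _ = 1 := by rw [t2]; group
    have a7 : a ^ 16807 = 1 := congrArg A₅.subtype (show (⟨a, ha⟩ : A₅) ^ 7 ^ 5 = 1 from h.k5 ▸ pow_card_eq_one')
    have yt : a ^ 8404 * n ∈ 𝐜(t) := mem_centralizer_singleton_iff.2 (mul_inv_eq_iff_eq_mul.1 (by
      have : t * a ^ 8404 * t⁻¹ = (a ^ 8404)⁻¹ := by rw [← conj_pow, ta, inv_pow]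
      generalize hr : a ^ 8404 = r at this
      have rr : r * r = a := by rw [← hr, ← pow_add, show 8404 + 8404 = 16807 + 1 from rfl, pow_succ, a7, one_mul]
      calc r * n * t * (r * n)⁻¹ = r * (n * t * n⁻¹) * r⁻¹ := by group
        _ = r * (t * r * t⁻¹) * t := by rw [e, ← rr]; group
        _ = t := by rw [this]; group))
    have yN : a ^ 8404 * n ∈ 𝐍(Z₂) := mul_mem (pow_mem (h.h5 ha) _) hn
    let f := QuotientGroup.mk' (A₅.subgroupOf 𝐍(Z₂))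
    have fy : f ⟨_, yN⟩ = f ⟨n, hn⟩ := by
      rw [show (⟨_, yN⟩ : 𝐍(Z₂)) = ⟨a ^ 8404, pow_mem (h.h5 ha) _⟩ * ⟨n, hn⟩ from rfl, map_mul,
        show f ⟨a ^ 8404, _⟩ = 1 from (QuotientGroup.eq_one_iff _).2 (pow_mem ha 8404), one_mul]
    obtain ⟨m, pm, em⟩ := part f (fy ▸ (p.sub hn).map f)
    have pm' : P7 ((a ^ 8404 * n) ^ m) := pm.map (Subgroup.subtype _)
    exact ⟨_, ⟨k1 _ (pow_mem yN m) (pow_mem yt m) pm', pow_mem yN m, pm'⟩, 
      (QuotientGroup.eq (s := A₅.subgroupOf 𝐍(Z₂))).1 (em.trans fy).symm⟩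
  obtain ⟨x, hx, xs⟩ := T.s
  refine ⟨⟨L, w, c, wQ, we, cQ, fun a e => cZ ((T.z2 c cQ).2 ⟨a, e⟩), ?_, ?_, ?_, fun e => ?_⟩⟩
  · obtain ⟨u, hu, k, rfl⟩ := dec3 h h0 T hb bZ c3
    obtain ⟨m, hm⟩ := mv h h0 T bQ (bS x hx)
    obtain ⟨l, hl⟩ := (T.z2 u (h0.z2Q hu)).1 hu
    refine ⟨k * m, ?_⟩
    rw [L.φ_mul _ (h0.z2Q hu) _ (pow_mem bQ k), L.φ_pow bQ, hl, map_add, (L.li.fix _).2 ⟨l, rfl⟩, map_smul, ← xs,
      mul_smul, ← hm]
    module
  · rw [cl]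
    intro u hu v hv u1 v1
    obtain ⟨g, hg, rfl⟩ := h0.tr u hu v hv u1 v1
    have l : closure {x | x ∈ 𝐜(c) ∧ x ∈ 𝐍(Z₂) ∧ P7 x} ≤ 𝐍(Z₂) := (closure_le _).2 fun _ e => e.2.1
    suffices ∃ g' ∈ closure {x | x ∈ 𝐜(c) ∧ x ∈ 𝐍(Z₂) ∧ P7 x}, ∀ u ∈ Z₂, g' * u * g'⁻¹ = g * u * g⁻¹ from
      this.imp fun _ e => ⟨e.1, e.2 u hu⟩
    clear hv v1
    induction hg using closure_induction with
    | mem n hn =>
      obtain ⟨y, hy, e⟩ := k2 n hn.1 hn.2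
      refine ⟨y, subset_closure hy, fun u hu => ?_⟩
      calc y * u * y⁻¹ = n * (n⁻¹ * y * u) * y⁻¹ := by group
        _ = _ := by rw [← a5C h h0 T e u hu]; group
    | one => exact ⟨1, one_mem _, fun _ _ => rfl⟩
    | mul a b _ _ ha hb =>
      obtain ⟨a', ha', ea⟩ := ha
      obtain ⟨b', hb', eb⟩ := hb
      refine ⟨a' * b', mul_mem ha' hb', fun u hu => ?_⟩
      calc _ = a' * (b' * u * b'⁻¹) * a'⁻¹ := by group
        _ = _ := by rw [ea _ (conj_mem_of_mem_normalizer (l hb') hu), eb u hu]; group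
    | inv a _ ha =>
      obtain ⟨a', ha', ea⟩ := ha
      refine ⟨a'⁻¹, inv_mem ha', fun u hu => ?_⟩
      have := ea _ (conj_mem_of_mem_normalizer' (l ha') hu)
      calc _ = a⁻¹ * (a * (a'⁻¹ * u * a') * a⁻¹) * a := by group
        _ = _ := by rw [← this]; group
  · by_contra q; push Not at q
    have n : 𝐍(Z₂) ≤ 𝐍(A₅ ⊓ L.Q) := fun n hn => mem_normalizer_of_conj_mem fun a ha => by
      have := conj_mem_of_mem_normalizer (B0.N5 h hn) ha.1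
      exact ⟨this, q a ha.2 n (centralizer_zpowers L.d ▸ h0.cK.le (h0.SK (a5S h h0 T this)))⟩
    have le : ⁅A₅ ⊓ L.Q, A₅ ⊓ L.Q⁆ ≤ zpowers L.d := commutator_le.2 fun a ha b hb => L.cm ha.2 hb.2
    obtain ⟨⟨u, hu⟩, u1⟩ := (ne_bot_iff_exists_ne_one (H := ⁅A₅ ⊓ L.Q, A₅ ⊓ L.Q⁆)).1 fun e => by
      have := L.ab inf_le_right (commutator_eq_bot_iff_le_centralizer'.1 e)
      omega
    exact wz (le (B0.all h (le_normalizer_commutator n n) (h0.z12 (le hu)) (fun e => u1 (Subtype.ext e)) hu wZ))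
  · have := S.pow_dvd_card_of_pow_dvd_card e
    rw [h0.cS] at this
    exact absurd this (by decide)

end B2

theorem Hy.b2 {G : Type*} [Group G] [Finite G] {S : Sylow 7 G} {Z₁ Z₂ Q K A₂ A₃ A₅ : Subgroup G}
    (h : Hy S Z₁ Z₂ Q K A₂ A₃ A₅) (h0 : H0 S Z₁ Z₂ Q K A₅) {L : Lo G} (t : Tie L S Z₁ Z₂ Q) : Nonempty (Bs G) := by
  obtain rfl := t.q
  obtain rfl := t.z
  exact B2.main h h0 t

end CF.Sv
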