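import Cfsg.Agent.Sv.B
import Cfsg.Agent.Sv.B0
import Cfsg.Agent.Even.Extra

/-! The centralizers of the elements of `E`. -/

set_option autoImplicit false

namespace CF.Sv.C1

open Cfsg Subgroup CF.Loc

theorem cen7 {σ τ : A7} (h : orderOf σ = 7) (c : τ * σ = σ * τ) : τ ∈ zpowers σ := by
  have h1 : orderOf σ.1 = Fintype.card (Fin 7) := by simpa using h
  have h2 := Equiv.Perm.isCycle_of_prime_order'' (by simp; norm_num) h1
  have h3 : ∀ x, σ.1 x ≠ x := fun x => Equiv.Perm.mem_support.1 (by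
    rw [Finset.eq_univ_of_card _ (h2.orderOf.symm.trans h1)]; exact Finset.mem_univ x)
  obtain ⟨k, hk⟩ := h2.exists_zpow_eq (h3 0) (h3 (τ.1 0))
  have c' : Commute τ.1 σ.1 := congrArg Subtype.val c
  refine ⟨k, Subtype.ext (Equiv.ext fun x => ?_)⟩
  obtain ⟨j, rfl⟩ := h2.exists_zpow_eq (h3 0) (h3 x)
  change (σ.1 ^ k) _ = τ.1 _
  rw [← Equiv.Perm.mul_apply τ.1, (c'.zpow_right j).eq, Equiv.Perm.mul_apply, ← hk, ← Equiv.Perm.mul_apply,
    ← Equiv.Perm.mul_apply, zpow_mul_comm]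

variable {C : Type*} [Group C] [Finite C] {z g : C} {E : Subgroup C}

omit [Finite C] in
theorem sup_eq (z2 : orderOf z = 2) (c : Commute g z) (g7 : g ^ 7 = 1) : zpowers g ⊔ zpowers z = zpowers (g * z) := by
  have e : z ^ 2 = 1 := z2 ▸ pow_orderOf_eq_one z
  refine le_antisymm (sup_le (zpowers_le.2 ⟨8, ?_⟩) (zpowers_le.2 ⟨7, ?_⟩))
    (zpowers_le.2 (mul_mem_sup (mem_zpowers g) (mem_zpowers z)))
  · change (g * z) ^ ((8 : ℕ) : ℤ) = g
    rw [zpow_natCast, c.mul_pow, pow_succ g, g7, show 8 = 2 * 4 from rfl, pow_mul, e]; simp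
  · change (g * z) ^ ((7 : ℕ) : ℤ) = z
    rw [zpow_natCast, c.mul_pow, g7, show 7 = 2 * 3 + 1 from rfl, pow_succ, pow_mul, e]; simp

omit [Finite C] in
theorem o7 (h : Ce z E) (hg : g ∈ E) (g1 : g ≠ 1) : orderOf g = 7 := orderOf_eq_prime (h.ea.2 g hg) g1

omit [Finite C] in
theorem cz (h : Ce z E) (g : C) : Commute g z := mem_center_iff.1 h.zc g

omit [Finite C] in
theorem cm (h : Ce z E) {x : C} (hx : x ∈ E) (hg : g ∈ E) : x ∈ 𝐜(g) :=
  mem_centralizer_singleton_iff.2 (congrArg Subtype.val (h.ea.1.is_comm.comm ⟨x, hx⟩ ⟨g, hg⟩))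

theorem cardA {f : 𝐜(g) →* Spor.He} (g7 : orderOf g = 7) (k : ∀ h, f h = 1 ↔ (h : C) ∈ zpowers g)
    (D : Subgroup Spor.He) (hD : D ≤ f.range) : Nat.card (D.comap f) = 7 * Nat.card D := by
  have e : f.ker = (zpowers g).subgroupOf _ := Subgroup.ext k
  have e1 : f.ker ≤ D.comap f := ker_le_comap f D
  rw [← (f.ker.subgroupOf (D.comap f)).card_mul_index, ← relIndex, relIndex_ker, map_comap_eq_self hD,
    Nat.card_congr (subgroupOfEquivOfLe e1).toEquiv, e, Nat.card_congr (subgroupOfEquivOfLe (zpowers_le.2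
      (mem_centralizer_singleton_iff.2 rfl))).toEquiv, Nat.card_zpowers, g7]

theorem syl (he : ∀ t : Spor.He, orderOf t = 2 → ¬ 49 ∣ Nat.card 𝐜(t)) (h : Ce z E) : ¬ 343 ∣ Nat.card C := fun d => by
  have p7 : IsPGroup 7 E := .of_card (n := 2) h.e49
  obtain ⟨P, hP⟩ := p7.exists_le_sylow
  have lt : E < P := lt_of_le_of_ne hP fun e => by
    have := P.pow_dvd_card_of_pow_dvd_card (n := 3) d
    rw [← e, h.e49] at this; norm_num at this
  obtain ⟨x, x1, x2, x3⟩ : ∃ x ∈ (P : Subgroup C), x ∈ 𝐍(E) ∧ x ∉ E := by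
    have := P.2.isNilpotent
    obtain ⟨x, a, b⟩ := SetLike.exists_of_lt (normalizerCondition_of_isNilpotent (E.subgroupOf P) (lt_top_iff_ne_top.2
      fun e => lt.not_ge (subgroupOf_eq_top.1 e)))
    exact ⟨x, x.2, (subgroupOf_normalizer_eq hP).ge a, b⟩
  have q7 : IsPGroup 7 ↥((P : Subgroup C) ⊓ 𝐍(E)) := P.2.to_inf_left
  obtain ⟨b, b1, b2, b3⟩ := B0.step q7 (A := ⊥) (B := E) (bot_lt_iff_ne_bot.2 fun e => by
    have := h.e49; simp [e] at this) (le_inf hP le_normalizer) (by simp [normalizer_eq_top]) inf_le_right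
  have d1 : 343 ∣ Nat.card 𝐜(b) := by
    refine dvd_trans ?_ (card_dvd_of_le (H := (P : Subgroup C) ⊓ 𝐍(E)) fun y hy => mem_centralizer_singleton_iff.2
      (commutatorElement_eq_one_iff_mul_comm.1 (b3 y hy)).symm)
    obtain ⟨n, hn⟩ := q7.exists_card_eq
    exact hn ▸ pow_dvd_pow 7 (not_le.1 fun l : n ≤ 2 => x3 ((eq_of_le_of_card_ge (le_inf hP le_normalizer)
      (by rw [hn, h.e49]; exact Nat.pow_le_pow_right (by norm_num) l)).ge ⟨x1, x2⟩))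
  have b7 := o7 h b1 b2
  rcases h.ty b b1 b2 with ⟨π, s, k⟩ | ⟨t, f, t2, r, k, -⟩
  · have e : π.ker = (zpowers (b * z)).subgroupOf _ := Subgroup.ext fun x => by
      rw [← sup_eq h.z2 (cz h b) (h.ea.2 b b1)]; exact k x
    rw [← π.ker.card_mul_index, index_ker, MonoidHom.range_eq_top.2 s, card_top, card_A7, e,
      Nat.card_congr (subgroupOfEquivOfLe (zpowers_le.2 (mul_mem (cm h b1 b1)
        (mem_centralizer_singleton_iff.2 (cz h b).eq.symm)))).toEquiv, Nat.card_zpowers,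
      (cz h b).orderOf_mul_eq_mul_orderOf_of_coprime (by rw [b7, h.z2]; norm_num), b7, h.z2] at d1
    norm_num at d1
  · have := cardA b7 k _ le_rfl
    rw [show f.range.comap f = ⊤ from eq_top_iff.2 fun x _ => ⟨x, rfl⟩, card_top, r] at this
    exact he t t2 (Nat.dvd_of_mul_dvd_mul_left (k := 7) (by norm_num) (this ▸ d1))

theorem other (h : Ce z E) (hg : g ∈ E) (g1 : g ≠ 1) : ∃ x ∈ E, x ∉ zpowers g ∧ zpowers g ⊔ zpowers x = E := by
  have c : Nat.card (zpowers g) = 7 ^ 1 := by rw [Nat.card_zpowers, o7 h hg g1]; rfl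
  obtain ⟨x, a, b⟩ := SetLike.exists_of_lt (lt_of_le_of_ne (zpowers_le.2 hg) fun e => by
    rw [e, h.e49] at c; norm_num at c)
  exact ⟨x, a, b, B0.eq_of_lt c h.e49 (lt_of_le_of_ne le_sup_left fun e => b (e.ge (mem_sup_right (mem_zpowers x))))
    (sup_le (zpowers_le.2 hg) (zpowers_le.2 a))⟩

theorem cE (h : Ce z E) : 𝐂(E) ≤ E ⊔ zpowers z := fun c hc => by
  obtain ⟨y, y1, y2, π, -, k⟩ := h.ex
  obtain ⟨x, x1, x2, -⟩ := other h y1 y2
  have c1 : c ∈ 𝐜(y) := mem_centralizer_singleton_iff.2 (hc y y1).symm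
  obtain ⟨n, hn⟩ := cen7 (σ := π ⟨x, cm h x1 y1⟩) (τ := π ⟨c, c1⟩) (orderOf_eq_prime (by
    rw [← map_pow, ← map_one π]; exact congrArg π (Subtype.ext (h.ea.2 x x1))) fun e => by
      obtain ⟨m, hm⟩ := (sup_eq h.z2 (cz h y) (h.ea.2 y y1)).le ((k _).1 e)
      refine x2 ⟨8 * m, ?_⟩
      have e8 : (y * z) ^ (8 : ℤ) = y ^ (8 : ℤ) := by
        rw [(cz h y).mul_zpow, show (8 : ℤ) = (2 : ℕ) * 4 from rfl, zpow_mul z, zpow_natCast, ← h.z2, pow_orderOf_eq_one]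
        simp
      change y ^ (8 * m) = x
      change (y * z) ^ m = x at hm
      rw [zpow_mul, ← e8, ← zpow_mul, mul_comm, zpow_mul, hm]
      change x ^ ((7 + 1 : ℕ) : ℤ) = x
      rw [zpow_natCast, pow_succ, h.ea.2 x x1, one_mul]) (by
    rw [← map_mul, ← map_mul]; exact congrArg π (Subtype.ext (hc x x1).symm))
  have := (k ((⟨x, cm h x1 y1⟩ ^ n)⁻¹ * ⟨c, c1⟩)).1 (by rw [map_mul, map_inv, map_zpow, ← hn, inv_mul_cancel])
  exact (mul_mem_cancel_left (inv_mem (mem_sup_left (zpow_mem x1 n)))).1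
    (sup_le_sup_right (zpowers_le.2 y1) _ this)

theorem card_cE (h : Ce z E) : Nat.card 𝐂(E) ≤ 98 := by
  have : (zpowers z).Normal := ⟨fun a ha b => by rwa [mem_center_iff.1 (zpowers_le.2 h.zc ha) b, mul_inv_cancel_right]⟩
  refine (card_le_of_le (cE h)).trans ((Nat.card_le_card_of_surjective (fun x : E × zpowers z =>
    (⟨_, mul_mem_sup x.1.2 x.2.2⟩ : ↥(E ⊔ zpowers z))) fun ⟨x, hx⟩ => ?_).trans ?_)
  · obtain ⟨a, ha, b, hb, rfl⟩ := mem_sup_of_normal_right.1 hx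
    exact ⟨(⟨a, ha⟩, ⟨b, hb⟩), rfl⟩
  · rw [Nat.card_prod, h.e49, Nat.card_zpowers, h.z2]

theorem small (h : Ce z E) (s7 : ¬ 343 ∣ Nat.card C) (hg : g ∈ E) (g1 : g ≠ 1) {t : Spor.He} {f : 𝐜(g) →* Spor.He}
    (r : f.range = 𝐜(t)) (k : ∀ h, f h = 1 ↔ (h : C) ∈ zpowers g) :
    ∃ s, orderOf s = 7 ∧ Commute t s ∧ Nat.card ↥(𝐜(t) ⊓ 𝐜(s)) ≤ 14 := by
  obtain ⟨x, x1, x2, x3⟩ := other h hg g1
  set y : 𝐜(g) := ⟨x, cm h x1 hg⟩
  refine ⟨f y, orderOf_eq_prime (by rw [← map_pow, ← map_one f]; exact congrArg f (Subtype.ext (h.ea.2 x x1)))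
    fun e => x2 ((k _).1 e), (mem_centralizer_singleton_iff.1 (r.le ⟨y, rfl⟩)).symm, ?_⟩
  have c := cardA (o7 h hg g1) k (𝐜(t) ⊓ 𝐜(f y)) (r ▸ inf_le_left)
  set D := (𝐜(t) ⊓ 𝐜(f y)).comap f
  have m : ∀ d : D, (d.1 : C) * x * (d.1 : C)⁻¹ * x⁻¹ ∈ zpowers g := fun d => (k (d * y * d.1⁻¹ * y⁻¹)).1 (by
    simp [mem_centralizer_singleton_iff.1 d.2.2])
  let χ : D →* zpowers g := MonoidHom.mk' (fun d => ⟨_, m d⟩) fun a b => Subtype.ext (by
    obtain ⟨n, hn⟩ := m b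
    have e : Commute (a.1 : C) (g ^ n) := (Commute.zpow_right (mem_centralizer_singleton_iff.1 a.1.2) n)
    have e' : Commute x (g ^ n) := (Commute.zpow_right (mem_centralizer_singleton_iff.1 y.2) n)
    simp only at hn
    change (a.1 * b.1 : C) * x * (a.1 * b.1 : C)⁻¹ * x⁻¹ = a.1 * x * (a.1 : C)⁻¹ * x⁻¹ * (b.1 * x * (b.1 : C)⁻¹ * x⁻¹)
    calc _ = a.1 * ((b.1 * x * (b.1 : C)⁻¹ * x⁻¹) * (x * (a.1 : C)⁻¹ * x⁻¹)) := by group
      _ = _ := by rw [← hn, ← ((e'.mul_left e.inv_left).mul_left e'.inv_left).eq]; group)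
  have c7 : Nat.card (zpowers g) = 7 := by rw [Nat.card_zpowers, o7 h hg g1]
  have j : Function.Injective ((𝐜(g)).subtype.comp D.subtype) := Subtype.val_injective.comp Subtype.val_injective
  have l : E ≤ χ.ker.map ((𝐜(g)).subtype.comp D.subtype) := fun a ha =>
    ⟨⟨⟨a, cm h ha hg⟩, r.le ⟨_, rfl⟩, mem_centralizer_singleton_iff.2 (by
      rw [← map_mul, ← map_mul]; exact congrArg f (Subtype.ext (mem_centralizer_singleton_iff.1 (cm h ha x1))))⟩,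
      Subtype.ext (by simp [χ, mem_centralizer_singleton_iff.1 (cm h ha x1)]), rfl⟩
  have e : χ.ker = ⊤ := by
    rw [← index_eq_one, index_ker]
    refine ((Nat.dvd_prime (by norm_num)).1 (c7 ▸ χ.range.card_subgroup_dvd_card)).resolve_right fun e => s7 ?_
    refine dvd_trans ?_ (card_dvd_of_injective _ j)
    rw [← χ.ker.card_mul_index, index_ker, e, ← card_map_of_injective j]
    exact mul_dvd_mul_right (a := 49) (h.e49 ▸ card_dvd_of_le l) 7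
  have q : ∀ d : D, E ≤ 𝐜(d.1.1) := fun d => x3 ▸
    sup_le (zpowers_le.2 (mem_centralizer_singleton_iff.2 (mem_centralizer_singleton_iff.1 d.1.2).symm))
      (zpowers_le.2 (mem_centralizer_singleton_iff.2 (by
        have := congrArg Subtype.val (e.ge (mem_top d))
        exact (mul_inv_eq_iff_eq_mul.1 (mul_inv_eq_one.1 this)).symm)))
  have := (Nat.card_le_card_of_injective (fun d : D => (⟨d.1.1, fun a ha =>
    mem_centralizer_singleton_iff.1 (q d ha)⟩ : 𝐂(E))) fun a b e => j (Subtype.ext_iff.1 e :)).trans (card_cE h)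
  omega

theorem tyR (h : Ce z E) (hg : g ∈ E) (g1 : g ≠ 1) {t : Spor.He} {f : 𝐜(g) →* Spor.He}
    (r : f.range = 𝐜(t)) (k : ∀ h, f h = 1 ↔ (h : C) ∈ zpowers g) (ez : ∀ hz : z ∈ 𝐜(g), f ⟨z, hz⟩ = t)
    (c : Nat.card 𝐜(t) = 21504) {R : Subgroup Spor.He} (rx : Rx t R) (le : R ≤ 𝐜(t)) (nm : 𝐜(t) ≤ 𝐍(R))
    (sm : ∀ N, R ≤ N → N ≤ 𝐜(t) → 𝐜(t) ≤ 𝐍(N) → N = R ∨ N = 𝐜(t)) : ∃ R, TyR z g R := by
  have g7 := o7 h hg g1
  obtain ⟨P0, hP⟩ := Sylow.exists_subgroup_card_pow_prime (G := R.comap f) 2 (n := 7) (by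
    rw [cardA g7 k R (r ▸ le), rx.cd]; norm_num)
  set P := P0.map (R.comap f).subtype
  have cP : Nat.card P = 128 := (card_map_of_injective Subtype.val_injective).trans hP
  have lP : ∀ x ∈ P, f x ∈ R := map_subtype_le P0
  have one : ∀ x : 𝐜(g), x.1 ∈ zpowers g → x ^ 128 = 1 → x = 1 := fun x a b => by
    have : x ^ 7 = 1 := Subtype.ext (orderOf_dvd_iff_pow_eq_one.1 (g7 ▸ orderOf_dvd_of_mem_zpowers a))
    simpa using pow_gcd_eq_one.2 ⟨b, this⟩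
  have pw : ∀ x ∈ P, x ^ 128 = 1 := fun x hx => congrArg Subtype.val (cP ▸ pow_card_eq_one' (x := (⟨x, hx⟩ : P)))
  have : Finite R := Nat.finite_of_card_ne_zero (by rw [rx.cd]; norm_num)
  let e : P ≃* R := .ofBijective ((f.comp P.subtype).codRestrict R fun x => lP x x.2) ((Nat.bijective_iff_injective_and_card _).2
    ⟨(injective_iff_map_eq_one _).2 fun x a => Subtype.ext (one _ ((k _).1 (congrArg Subtype.val a)) (pw _ x.2)),
      cP.trans rx.cd.symm⟩)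
  have he : ∀ x : P, (e x : Spor.He) = f x := fun _ => rfl
  have dec : ∀ x, f x ∈ R → ∃ y ∈ P, ((y⁻¹ * x : 𝐜(g)) : C) ∈ zpowers g := fun x a =>
    ⟨_, (e.symm ⟨_, a⟩).2, (k _).1 (by rw [map_mul, map_inv, ← he, e.apply_symm_apply, inv_mul_cancel])⟩
  have mem : ∀ x, f x ∈ R → x ^ 128 = 1 → x ∈ P := fun x a b => by
    obtain ⟨y, y1, n, hn⟩ := dec x a
    have c : Commute y (y⁻¹ * x) := Subtype.ext (by
      change y.1 * _ = _ * y.1
      exact hn ▸ (Commute.zpow_right (mem_centralizer_singleton_iff.1 y.2) n).eq)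
    have := c.mul_pow 128
    rw [mul_inv_cancel_left, b, pw y y1, one_mul] at this
    exact inv_mul_eq_one.1 (one _ ⟨n, hn⟩ this.symm) ▸ y1
  have hz : z ∈ 𝐜(g) := mem_centralizer_singleton_iff.2 (cz h g).eq.symm
  have zP : (⟨z, hz⟩ : 𝐜(g)) ∈ P := mem _ (ez hz ▸ rx.zR) (Subtype.ext (orderOf_dvd_iff_pow_eq_one.1 (by
    rw [h.z2]; norm_num)))
  obtain ⟨A, a1, a2, a3, a4⟩ := rx.ab
  let j : R →* C := (𝐜(g)).subtype.comp (P.subtype.comp e.symm.toMonoidHom)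
  have ji : Function.Injective j := Subtype.val_injective.comp (Subtype.val_injective.comp e.symm.injective)
  refine ⟨P.map (𝐜(g)).subtype, ⟨Even.isExtraspecial_of_equiv rx.ex (e.symm.trans (equivMapOfInjective _ _
    Subtype.val_injective)), (card_map_of_injective Subtype.val_injective).trans cP, ⟨_, zP, rfl⟩,
      (A.subgroupOf R).map j, ?_, ⟨e ⟨_, zP⟩, (ez hz ▸ a2 : f _ ∈ A), by simp [j]⟩, ⟨?_, ?_⟩, ?_⟩,
    map_subtype_le _, fun x hx => mem_normalizer_fintype ?_, ?_, fun N n1 n2 n3 => ?_⟩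
  · rintro _ ⟨x, -, rfl⟩
    exact ⟨_, (e.symm x).2, rfl⟩
  · have := a3.1
    infer_instance
  · rintro _ ⟨x, hx, rfl⟩
    rw [← map_pow, show x ^ 2 = 1 from Subtype.ext (a3.2 x hx), map_one]
  · rwa [card_map_of_injective ji, Nat.card_congr (subgroupOfEquivOfLe a1).toEquiv]
  · rintro _ ⟨y, y1, rfl⟩
    refine ⟨⟨x, hx⟩ * y * ⟨x, hx⟩⁻¹, mem _ ?_ (by rw [conj_pow, pw y y1]; simp), rfl⟩
    rw [map_mul, map_mul, map_inv]
    exact (mem_normalizer_iff.1 (nm (r.le ⟨_, rfl⟩)) _).1 (lP y y1)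
  · have := cardA g7 k _ le_rfl
    rwa [show f.range.comap f = ⊤ from eq_top_iff.2 fun x _ => ⟨x, rfl⟩, card_top, r, c] at this
  have : Finite 𝐜(t) := Nat.finite_of_card_ne_zero (by rw [c]; norm_num)
  have l : (N.subgroupOf 𝐜(g)).map f ≤ 𝐜(t) := r ▸ map_le_range _ _
  have : Finite ((N.subgroupOf 𝐜(g)).map f) := Finite.of_injective _ (inclusion_injective l)
  refine (sm ((N.subgroupOf 𝐜(g)).map f) (fun y a => ⟨(e.symm ⟨y, a⟩).1, n1 (mem_sup_left ⟨_, (e.symm _).2, rfl⟩), by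
    rw [← he, e.apply_symm_apply]⟩) l fun y a => mem_normalizer_fintype ?_).imp (fun q => n1.antisymm' fun x hx => ?_)
      fun q => n2.antisymm fun x hx => ?_
  · obtain ⟨y, rfl⟩ := r.ge a
    rintro _ ⟨x, hx, rfl⟩
    exact ⟨y * x * y⁻¹, (mem_normalizer_iff.1 (n3 y.2) _).1 hx, by simp⟩
  · obtain ⟨y, y1, y2⟩ := dec ⟨x, n2 hx⟩ (q.le ⟨_, hx, rfl⟩)
    simpa using mul_mem_sup (S := P.map (𝐜(g)).subtype) ⟨y, y1, rfl⟩ y2
  · obtain ⟨y, y1, y2⟩ := q.ge (r.le ⟨⟨x, hx⟩, rfl⟩)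
    have := n1 (mem_sup_right ((k (y⁻¹ * ⟨x, hx⟩)).1 (by rw [map_mul, map_inv, y2, inv_mul_cancel])))
    simpa using mul_mem (show y.1 ∈ N from y1) this

theorem cf0 (he : ∀ t : Spor.He, orderOf t = 2 → ¬ 49 ∣ Nat.card 𝐜(t))
    (hi : ∀ {t s : Spor.He}, orderOf t = 2 → orderOf s = 7 → Commute t s → Nat.card ↥(𝐜(t) ⊓ 𝐜(s)) ≤ 14 →
      Nat.card 𝐜(t) = 21504 ∧ ∃ R, Rx t R ∧ R ≤ 𝐜(t) ∧ 𝐜(t) ≤ 𝐍(R) ∧
        ∀ N, R ≤ N → N ≤ 𝐜(t) → 𝐜(t) ≤ 𝐍(N) → N = R ∨ N = 𝐜(t)) (h : Ce z E) : Cf z E :=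
  ⟨h.kg, h.z2, h.zc, h.ea, h.e49, fun g hg g1 => (h.ty g hg g1).imp_right fun ⟨t, f, t2, r, k, ez⟩ => by
    obtain ⟨s, s1, s2, s3⟩ := small h (syl he h) hg g1 r k
    obtain ⟨c, R, rx, le, nm, sm⟩ := hi t2 s1 s2 s3
    exact tyR h hg g1 r k ez c rx le nm sm, h.ex, syl he h, cE h⟩

end CF.Sv.C1
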