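import Cfsg.Agent.Sv.B
import Cfsg.Agent.Solv.Cores

/-! S3024: counting in a group with a self-centralizing Sylow subgroup `7²`. -/

set_option autoImplicit false
set_option linter.style.haveILetI false

namespace CF.Sv

open Cfsg Subgroup CF.Loc MulAction

variable {C : Type*} [Group C] [Finite C] {E N H : Subgroup C} {a b g x : C}

namespace CL

instance fact7 : Fact (Nat.Prime 7) := ⟨by decide⟩

theorem orb_dvd {X : Set C} (h : ∀ n ∈ N, ∀ x ∈ X, n * x * n⁻¹ ∈ X) {j : ℕ}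
    (hs : ∀ x ∈ X, Nat.card ↥(N ⊓ 𝐜(x)) * j = Nat.card N) : j ∣ X.ncard := by
  classical
  letI : MulAction N X :=
    { smul := fun n x => ⟨n * x * (n : C)⁻¹, h n n.2 x x.2⟩
      one_smul := fun x => Subtype.ext (by change ((1 : N) : C) * x * ((1 : N) : C)⁻¹ = x; simp)
      mul_smul := fun m n x => Subtype.ext (by
        change ((m * n : N) : C) * x * ((m * n : N) : C)⁻¹ = m * (n * x * (n : C)⁻¹) * (m : C)⁻¹
        simp [mul_assoc]) }
  haveI := Fintype.ofFinite (orbitRel.Quotient N X)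
  rw [← Nat.card_coe_set_eq, Nat.card_congr (selfEquivSigmaOrbitsQuotientStabilizer N X), Nat.card_sigma]
  refine Finset.dvd_sum fun ω _ => dvd_of_eq ?_
  have e : stabilizer N ω.out = (N ⊓ 𝐜((ω.out : C))).subgroupOf N := Subgroup.ext fun n => by
    rw [mem_stabilizer_iff, mem_subgroupOf, mem_inf, mem_centralizer_singleton_iff, Subtype.ext_iff]
    exact mul_inv_eq_iff_eq_mul.trans ⟨fun e => ⟨n.2, e⟩, fun e => e.2⟩
  have := card_mul_index (stabilizer N ω.out)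
  rw [← hs _ ω.out.2, e, Nat.card_congr (subgroupOfEquivOfLe inf_le_left).toEquiv, ← e] at this
  exact (Nat.eq_of_mul_eq_mul_left Nat.card_pos this).symm

omit [Finite C] in
theorem card_cen (n g : C) : Nat.card 𝐜(n * g * n⁻¹) = Nat.card 𝐜(g) := by rw [← cj_centralizer_singleton, card_cj]

omit [Finite C] in
theorem ncard_ne (H : Subgroup C) : {x | x ∈ H ∧ x ≠ 1}.ncard = Nat.card H - 1 := by
  exact Set.ncard_diff_singleton_of_mem (s := (H : Set C)) (one_mem H)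

end CL

open CL

namespace Cb

variable (h : Cb E)
include h

omit [Finite C] in
theorem ord (hg : g ∈ E) (g1 : g ≠ 1) : orderOf g = 7 := orderOf_eq_prime (h.ea.2 g hg) g1

omit [Finite C] in
theorem cardz (hg : g ∈ E) (g1 : g ≠ 1) : Nat.card (zpowers g) = 7 := by rw [Nat.card_zpowers, h.ord hg g1]

omit [Finite C] in
theorem comm (ha : a ∈ E) (hb : b ∈ E) : a * b = b * a := congrArg Subtype.val (h.ea.1.is_comm.comm ⟨a, ha⟩ ⟨b, hb⟩)

omit [Finite C] in
theorem le_c (hg : g ∈ E) : E ≤ 𝐜(g) := fun _ hx => mem_centralizer_singleton_iff.2 (h.comm hx hg)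

theorem eq_sup (ha : a ∈ E) (a1 : a ≠ 1) (hb : b ∈ E) (n : b ∉ zpowers a) : zpowers a ⊔ zpowers b = E := by
  have l : zpowers a ⊔ zpowers b ≤ E := sup_le (zpowers_le.2 ha) (zpowers_le.2 hb)
  have d := card_dvd_of_le l
  have d' := card_dvd_of_le (le_sup_left : zpowers a ≤ zpowers a ⊔ zpowers b)
  rw [h.e49] at d
  rw [h.cardz ha a1] at d'
  refine eq_of_le_of_card_ge l (h.e49.trans_le (by_contra fun c => n ?_))
  obtain ⟨i, hi, e⟩ := (Nat.dvd_prime_pow (p := 7) (m := 2) (by decide)).1 d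
  have : Nat.card ↥(zpowers a ⊔ zpowers b) ≤ Nat.card (zpowers a) := by
    rw [h.cardz ha a1, e]; rw [e] at c; interval_cases i <;> simp_all
  exact (eq_of_le_of_card_ge le_sup_left this).ge (mem_sup_right (mem_zpowers b))

theorem zp_eq (hb : b ∈ E) (a1 : a ≠ 1) (ha : a ∈ zpowers b) : zpowers a = zpowers b := by
  have b1 : b ≠ 1 := by rintro rfl; simp [a1] at ha
  exact eq_of_le_of_card_ge (zpowers_le.2 ha) (by rw [h.cardz hb b1, h.cardz (zpowers_le.2 hb ha) a1])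

theorem mem_of (ha : a ∈ E) (a1 : a ≠ 1) (hb : b ∈ E) (n : b ∉ zpowers a) (h1 : x * a = a * x) (h2 : x * b = b * x) :
    x ∈ E := h.cE fun y hy => mem_centralizer_singleton_iff.1 ((h.eq_sup ha a1 hb n).ge.trans (sup_le
      (zpowers_le.2 (mem_centralizer_singleton_iff.2 h1.symm)) (zpowers_le.2 (mem_centralizer_singleton_iff.2 h2.symm))) hy)

theorem exS : ∃ S : Sylow 7 C, (S : Subgroup C) = E :=
  ⟨(IsPGroup.of_card (n := 2) h.e49).toSylow fun d => h.syl (by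
    rw [← card_mul_index E, h.e49]; exact mul_dvd_mul_left 49 d), rfl⟩

theorem conj (hx : x ^ 7 = 1) (hE : E ≤ H) (m : x ∈ H) : ∃ c ∈ H, c * x * c⁻¹ ∈ E := by
  obtain ⟨S, rfl⟩ := h.exS
  obtain ⟨k, -, hk⟩ := (Nat.dvd_prime_pow (p := 7) (m := 1) (by decide)).1
    (orderOf_dvd_of_pow_eq_one (x := (⟨x, m⟩ : H)) (Subtype.ext hx))
  have p : IsPGroup 7 (zpowers (⟨x, m⟩ : H)) := .of_card ((Nat.card_zpowers _).trans hk)
  obtain ⟨R, hR⟩ := p.exists_le_sylow
  obtain ⟨c, e⟩ := exists_smul_eq H R (S.subtype hE)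
  exact ⟨c, c.2, show c * ⟨x, m⟩ * c⁻¹ ∈ S.subtype hE from e ▸ conj_mem_cj c (hR (mem_zpowers _))⟩

theorem sylc (hE : E ≤ H) : Nat.card (Sylow 7 H) * Nat.card ↥(𝐍(E) ⊓ H) = Nat.card H := by
  obtain ⟨S, rfl⟩ := h.exS
  rw [← card_mul_index (𝐍(((S.subtype hE : Sylow 7 H) : Subgroup H))), mul_comm,
    Sylow.card_eq_index_normalizer (S.subtype hE)]
  congr 1
  rw [Sylow.coe_subtype, ← subgroupOf_normalizer_eq hE, ← inf_subgroupOf_right,
    Nat.card_congr (subgroupOfEquivOfLe inf_le_right).toEquiv]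

theorem nc (hg : g ∈ E) (g1 : g ≠ 1) : Nat.card ↥(𝐍(E) ⊓ 𝐜(g)) = 147 := by
  have l : E ≤ 𝐍(E) ⊓ 𝐜(g) := le_inf le_normalizer (h.le_c hg)
  obtain ⟨j, e⟩ := card_dvd_of_le l
  have d : j ∣ ((E : Set C) \ zpowers g).ncard := orb_dvd (N := 𝐍(E) ⊓ 𝐜(g)) (X := (E : Set C) \ zpowers g) (fun n hn x hx =>
    ⟨conj_mem_of_mem_normalizer hn.1 hx.1, fun c => hx.2 (by
      obtain ⟨k, q⟩ := c
      have : Commute n g := mem_centralizer_singleton_iff.1 hn.2
      refine ⟨k, ?_⟩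
      calc g ^ k = n⁻¹ * (g ^ k) * n := by rw [mul_assoc, ← (this.zpow_right k).eq, inv_mul_cancel_left]
        _ = x := by rw [show g ^ k = n * x * n⁻¹ from q]; group)⟩) fun x hx => by
    rw [e, le_antisymm (a := 𝐍(E) ⊓ 𝐜(g) ⊓ 𝐜(x)) (fun y hy => h.mem_of hg g1 hx.1 hx.2
      (mem_centralizer_singleton_iff.1 hy.1.2) (mem_centralizer_singleton_iff.1 hy.2)) (le_inf l (h.le_c hx.1))]
  rw [Set.ncard_diff (show (zpowers g : Set C) ⊆ E from zpowers_le.2 hg), ← Nat.card_coe_set_eq,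
    ← Nat.card_coe_set_eq, SetLike.coe_sort_coe, SetLike.coe_sort_coe, h.e49, h.cardz hg g1] at d
  have s := h.sylc (h.le_c hg)
  have m := card_sylow_modEq_one 7 𝐜(g)
  rw [e, h.e49] at s ⊢
  generalize Nat.card (Sylow 7 𝐜(g)) = n at s m
  have : j ≤ 42 := Nat.le_of_dvd (by decide) d
  have c := h.cc g hg g1
  rw [← s] at c
  unfold Nat.ModEq at m
  interval_cases j <;> omega

theorem τ : ∀ g ∈ E, g ≠ 1 → 3 ∣ Nat.card ↥(𝐍(E) ⊓ 𝐜(g)) := fun _ hg g1 => by rw [h.nc hg g1]; decide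

theorem fixc (hg : g ∈ E) (g1 : g ≠ 1) :
    Nat.card (fixedBy (Sylow 7 C) (⟨g, hg⟩ : E)) * 147 = Nat.card 𝐜(g) := by
  rw [← h.nc hg g1, ← h.sylc (h.le_c hg)]
  congr 1
  obtain ⟨S, rfl⟩ := h.exS
  have k : ∀ P ∈ fixedBy (Sylow 7 C) (⟨g, hg⟩ : S), (P : Subgroup C) ≤ 𝐜(g) := fun P hP => by
    have m : g ∈ P := ((IsPGroup.of_card (n := 1) (h.cardz hg g1)).inf_normalizer_sylow P).le
      ⟨mem_zpowers g, Sylow.smul_eq_iff_mem_normalizer.1 hP⟩ |>.2
    obtain ⟨c, rfl⟩ := exists_smul_eq C S P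
    intro y hy
    have := h.comm (mem_cj.1 hy) (mem_cj.1 m)
    exact mem_centralizer_singleton_iff.2 (by simpa [← mul_assoc] using (by simpa [mul_assoc] using this : y * (g * c) = g * (y * c)))
  refine Nat.card_eq_of_bijective (fun P => P.1.subtype (k _ P.2)) ⟨fun P Q e => Subtype.ext (Sylow.subtype_injective e),
    fun R => ?_⟩
  obtain ⟨c, rfl⟩ := exists_smul_eq 𝐜(g) (S.subtype (h.le_c hg)) R
  refine ⟨⟨c • S, Sylow.smul_eq_iff_mem_normalizer.2 (le_normalizer (mem_cj.2 ?_))⟩, (Sylow.smul_subtype _ c).symm⟩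
  rwa [mul_assoc, ← mem_centralizer_singleton_iff.1 c.2, inv_mul_cancel_left]

theorem burn {Y Y' : Set C} {k k' : ℕ} (e : ∀ x, x ∈ E ∧ x ≠ 1 ↔ x ∈ Y ∨ x ∈ Y') (d : Disjoint Y Y')
    (c : ∀ x ∈ Y, Nat.card 𝐜(x) = 147 * k) (c' : ∀ x ∈ Y', Nat.card 𝐜(x) = 147 * k') :
    49 ∣ Nat.card (Sylow 7 C) + (Y.ncard * k + Y'.ncard * k') := by
  classical
  haveI := Fintype.ofFinite C
  haveI := Fintype.ofFinite (Sylow 7 C)
  haveI := Fintype.ofFinite (Quotient (orbitRel E (Sylow 7 C)))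
  have := sum_card_fixedBy_eq_card_orbits_mul_card_group E (Sylow 7 C)
  rw [← Nat.card_eq_fintype_card (α := E), h.e49, ← Finset.add_sum_erase _ _ (Finset.mem_univ 1)] at this
  refine (Dvd.intro_left _ this.symm).trans (dvd_of_eq ?_)
  congr 1
  · rw [← Nat.card_eq_fintype_card, fixedBy_one_eq_univ, Nat.card_univ]
  have q : ∀ (Z : Set C) (m : ℕ), (∀ x ∈ Z, Nat.card 𝐜(x) = 147 * m) →
      Z.ncard * m = ∑ x ∈ Z.toFinset, Nat.card 𝐜(x) / 147 := fun Z m hZ => by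
    rw [Finset.sum_congr rfl fun x hx => (congrArg (· / 147) (hZ x (Set.mem_toFinset.1 hx))).trans
      (Nat.mul_div_cancel_left m (by decide)), Finset.sum_const, Set.ncard_eq_toFinset_card', smul_eq_mul]
  rw [q Y k c, q Y' k' c', ← Finset.sum_union (Set.disjoint_toFinset.2 d)]
  refine Finset.sum_bij (fun x _ => (x : C)) (fun x hx => ?_) (fun x _ y _ => Subtype.ext) (fun x hx => ?_)
    fun x hx => ?_
  · simpa [← e] using hx
  · have := (e x).2 (by simpa using hx)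
    exact ⟨⟨x, this.1⟩, by simpa using this.2, rfl⟩
  · rw [← h.fixc x.2 (by simpa using hx), Nat.mul_div_cancel _ (by decide), Nat.card_eq_fintype_card]

end Cb

end CF.Sv
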