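import Cfsg.Agent.Sv.A
import Cfsg.Agent.S0058
import Cfsg.Agent.Coprime.PGroup
import Cfsg.Agent.Fgs2.AutP
import Cfsg.Agent.Leech.Co1

/-! S3024: the normal 2-subgroup of the involution centralizer is extraspecial of order `2^25`. -/

set_option autoImplicit false

namespace CF.Sv

open Cfsg Subgroup CF.Loc
open scoped commutatorElement

variable {C : Type*} [Group C] [Finite C] {z : C} {E O F X Y : Subgroup C}

namespace OX

theorem modEq {p : ℕ} [Fact p.Prime] {H : Subgroup C} (k : IsPGroup p H) (n : H ≤ 𝐍(X)) :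
    Nat.card X ≡ Nat.card ↥(X ⊓ 𝐂(H)) [MOD p] := by
  let _ : MulAction H X :=
    { smul := fun h x => ⟨h * x * (h : C)⁻¹, conj_mem_of_mem_normalizer (n h.2) x.2⟩
      one_smul := fun x => Subtype.ext (by change (1 : C) * x * 1⁻¹ = x; group)
      mul_smul := fun g h x => Subtype.ext (by
        change (g : C) * h * x * ((g : C) * h)⁻¹ = g * (h * x * (h : C)⁻¹) * (g : C)⁻¹; group) }
  refine (k.card_modEq_card_fixedPoints X).trans ?_
  let e : MulAction.fixedPoints H X ≃ ↥(X ⊓ 𝐂(H)) := ⟨fun x => ⟨x.1, x.1.2, fun h hh =>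
    mul_inv_eq_iff_eq_mul.1 (congrArg Subtype.val (x.2 ⟨h, hh⟩))⟩, fun x => ⟨⟨x.1, x.2.1⟩, fun h =>
      Subtype.ext (mul_inv_eq_iff_eq_mul.2 (x.2.2 h h.2))⟩, fun _ => rfl, fun _ => rfl⟩
  rw [Nat.card_congr e]

omit [Finite C] in
theorem ea_sup (hX : IsElementaryAbelian 2 X) (hY : IsElementaryAbelian 2 Y) (c : X ≤ 𝐂(Y)) :
    IsElementaryAbelian 2 (X ⊔ Y) := by
  have cX : X ≤ 𝐂(X) := le_centralizer_iff_isMulCommutative.2 hX.1
  have cY : Y ≤ 𝐂(Y) := le_centralizer_iff_isMulCommutative.2 hY.1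
  refine ⟨le_centralizer_iff_isMulCommutative.1 (by
    rw [centralizer_sup]
    exact le_inf (sup_le cX (le_centralizer_iff.1 c)) (sup_le c cY)), fun a ha => ?_⟩
  obtain ⟨y, hy, x, hx, rfl⟩ := (mem_sup_of_le_normalizer (c.trans (centralizer_le_normalizer _))).1
    (sup_comm X Y ▸ ha)
  rw [Commute.mul_pow (c hx y hy), hX.2 x hx, hY.2 y hy, one_mul]

theorem not_dvd : ∀ r ≤ 12, ¬ 4157776806543360000 ∣ ∏ i ∈ Finset.range r, (2 ^ r - 2 ^ i) := by
  decide +kernel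

/-- The hypotheses. -/
structure St (O E : Subgroup C) (z : C) (x : Fin 4 → C) : Prop where
  o2 : IsPGroup 2 O
  z2 : orderOf z = 2
  zc : z ∈ center C
  ea : IsElementaryAbelian 7 E
  e49 : Nat.card E = 49
  fo : Fo E x
  rx : ∀ i, Rx z (O ⊓ 𝐜(x i))
  cE : O ⊓ 𝐂(E) ≤ zpowers z
  ot : ∀ g ∈ E, g ≠ 1 → O ⊓ 𝐜(g) ≤ zpowers z ∨ ∃ i, g ∈ zpowers (x i)

namespace St

variable {x : Fin 4 → C} {g : C} {i j : Fin 4} (h : St O E z x)
include h

local notation "R" i:max => O ⊓ 𝐜(x i)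
local notation "Z" => zpowers z

omit [Finite C] in
theorem o7 (hg : g ∈ E) (g1 : g ≠ 1) : orderOf g = 7 :=
  haveI : Fact (Nat.Prime 7) := ⟨by decide⟩
  orderOf_eq_prime (h.ea.2 g hg) g1

omit [Finite C] in
theorem c7 (i : Fin 4) : Nat.card (zpowers (x i)) = 7 := by
  rw [Nat.card_zpowers, h.o7 (h.fo.mem i) (h.fo.ne i)]

omit [Finite C] in
theorem cZ : Nat.card Z = 2 := by rw [Nat.card_zpowers, h.z2]

omit [Finite C] in
theorem ZC (X : Subgroup C) : Z ≤ 𝐂(X) := zpowers_le.2 fun a _ => mem_center_iff.1 h.zc a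

omit [Finite C] in
theorem ZR (i : Fin 4) : Z ≤ R i := zpowers_le.2 (h.rx i).zR

theorem cen_eq (hg : g ∈ zpowers (x i)) (g1 : g ≠ 1) : 𝐜(g) = 𝐜(x i) := by
  rw [← centralizer_zpowers, ← centralizer_zpowers, eq_of_le_of_card_ge (zpowers_le.2 hg) (by
    rw [h.c7, Nat.card_zpowers, h.o7 (zpowers_le.2 (h.fo.mem i) hg) g1])]

theorem cop (hF : F ≤ O) : (Nat.card E).Coprime (Nat.card F) := by
  obtain ⟨k, hk⟩ := (h.o2.to_le hF).exists_card_eq
  rw [h.e49, hk]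
  exact Nat.Coprime.pow_right k (by decide)

theorem gen (hF : F ≤ O) (n : E ≤ 𝐍(F)) (hz : Z ≤ Y) (k : ∀ i, F ⊓ 𝐜(x i) ≤ Y) : F ≤ Y := by
  have := h.ea.1
  rw [← Cfsg.Agent.S0058.result E F (fun c => by
    obtain ⟨g, hg⟩ := c.exists_ofOrder_eq_natCard
    have := orderOf_dvd_of_pow_eq_one (x := g) (n := 7) (Subtype.ext (h.ea.2 g g.2))
    rw [hg, h.e49] at this
    omega) n (h.cop hF)]
  refine iSup₂_le fun g hg => ?_
  rcases h.ot g hg.1 hg.2 with e | ⟨i, e⟩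
  · exact ((inf_le_inf_right _ hF).trans e).trans hz
  · exact h.cen_eq e hg.2 ▸ k i

theorem fix (ij : i ≠ j) : R i ⊓ 𝐂(zpowers (x j)) ≤ Z := by
  have l : zpowers (x i) ⊔ zpowers (x j) ≤ E :=
    sup_le (zpowers_le.2 (h.fo.mem i)) (zpowers_le.2 (h.fo.mem j))
  have e : zpowers (x i) ⊔ zpowers (x j) = E := eq_of_le_of_card_ge l (by
    have d1 := card_dvd_of_le l
    have d2 := card_dvd_of_le (le_sup_right : zpowers (x j) ≤ zpowers (x i) ⊔ zpowers (x j))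
    have d3 : ¬ Nat.card ↥(zpowers (x i) ⊔ zpowers (x j)) ≤ 7 := fun k => ij (h.fo.dis i j
      ((eq_of_le_of_card_ge le_sup_right (h.c7 j ▸ k)).ge (mem_sup_left (mem_zpowers _))))
    rw [h.e49] at d1 ⊢
    rw [h.c7] at d2
    obtain ⟨k, hk, q⟩ := (Nat.dvd_prime_pow (by decide : Nat.Prime 7) (m := 2)).1 d1
    rw [q] at d3 ⊢
    interval_cases k <;> simp_all)
  refine le_trans ?_ h.cE
  rw [← e, centralizer_sup, centralizer_zpowers (x i), inf_assoc]

theorem zR (i : Fin 4) : R i ⊓ 𝐂(R i) ≤ Z := fun a ha => by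
  have e : zpowers (⟨z, (h.rx i).zR⟩ : ↥(R i)) = center _ := eq_of_le_of_card_ge
    (zpowers_le.2 (mem_center_iff.2 fun b => Subtype.ext (mem_center_iff.1 h.zc b)))
    (by rw [(h.rx i).ex.2, Nat.card_zpowers, orderOf_mk, h.z2])
  obtain ⟨k, hk⟩ := e.ge (mem_center_iff.2 fun b => Subtype.ext (ha.2 b b.2) : (⟨a, ha.1⟩ : ↥(R i)) ∈ _)
  exact ⟨k, congrArg Subtype.val hk⟩

omit [Finite C] in
theorem nR (F : Subgroup C) [F.Normal] (i : Fin 4) : E ≤ 𝐍(F ⊓ 𝐜(x i)) :=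
  le_normalizer_inf le_normalizer_of_normal (le_trans (fun g hg => mem_centralizer_singleton_iff.2
    (congrArg Subtype.val (h.ea.1.1.1 ⟨g, hg⟩ ⟨_, h.fo.mem i⟩))) le_normalizer)

variable [O.Normal]

theorem cs (ij : i ≠ j) (hz : Z ≤ Y) (k : ⁅R i, zpowers (x j)⁆ ≤ Y) : R i ≤ Y := by
  have l := zpowers_le.2 (h.fo.mem j)
  rw [← CF.Coprime.commutator_sup_centralizer (zpowers (x j)) (R i) (l.trans (h.nR O i))
    ((h.cop inf_le_left).coprime_dvd_left (card_dvd_of_le l)) (.inl inferInstance)]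
  exact sup_le k ((h.fix ij).trans hz)

theorem zO : O ⊓ 𝐂(O) ≤ Z := h.gen inf_le_left le_normalizer_of_normal le_rfl fun i =>
  (le_inf (inf_le_inf_right _ inf_le_left) ((inf_le_left.trans inf_le_right).trans
    (centralizer_anti inf_le_left))).trans (h.zR i)

omit [O.Normal] in
theorem nZ (i : Fin 4) : ¬ R i ≤ Z := fun k => by
  have := card_le_of_le k
  rw [h.cZ, (h.rx i).cd] at this
  omega

omit h [Finite C] in
theorem sim (co : Spor.IsoCo1 (C ⧸ O)) (N : Subgroup C) [N.Normal] : N ≤ O ∨ N ⊔ O = ⊤ := by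
  obtain ⟨e⟩ := co
  have := CF.Leech.simple_Co1
  have := e.isSimpleGroup
  rcases (Normal.map inferInstance _ (QuotientGroup.mk'_surjective O) :
    (N.map (QuotientGroup.mk' O)).Normal).eq_bot_or_eq_top with k | k
  · exact .inl (by rwa [Subgroup.map_eq_bot_iff, QuotientGroup.ker_mk'] at k)
  · refine .inr ?_
    have := congrArg (comap (QuotientGroup.mk' O)) k
    rwa [comap_map_eq, QuotientGroup.ker_mk', comap_top] at this

omit [O.Normal] in
theorem card_mod [F.Normal] (hF : F ≤ O) (hz : Z ≤ F) (i : Fin 4) :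
    Nat.card ↥(F ⊓ 𝐜(x i)) = 2 ∨ 16 ≤ Nat.card ↥(F ⊓ 𝐜(x i)) := by
  have : Fact (Nat.Prime 7) := ⟨by decide⟩
  obtain ⟨j, ij⟩ := exists_ne i
  have m := modEq (IsPGroup.of_card (p := 7) (n := 1) (h.c7 j))
    ((zpowers_le.2 (h.fo.mem j)).trans (h.nR F i))
  rw [le_antisymm ((inf_le_inf_right _ (inf_le_inf_right _ hF)).trans (h.fix ij.symm))
    (le_inf (le_inf hz ((h.ZR i).trans inf_le_right)) (h.ZC _)), h.cZ] at m
  have d := card_dvd_of_le (inf_le_inf_right 𝐜(x i) hF)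
  rw [(h.rx i).cd] at d
  obtain ⟨k, hk, q⟩ := (Nat.dvd_prime_pow Nat.prime_two (m := 7)).1 d
  rw [q] at m ⊢
  revert m
  interval_cases k <;> decide

omit [O.Normal] in
theorem card_eq [F.Normal] (i j : Fin 4) : Nat.card ↥(F ⊓ 𝐜(x i)) = Nat.card ↥(F ⊓ 𝐜(x j)) := by
  obtain ⟨n, hn⟩ := h.fo.cj i j
  rw [← card_cj n, cj_inf, cj_normal, cj_centralizer_singleton,
    h.cen_eq hn (by simpa using h.fo.ne i)]

omit h [O.Normal] in
theorem grow {A : Subgroup C} {a b : ℕ} (n : A ≤ 𝐍(X)) (h1 : Nat.card A = a * b)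
    (h2 : b ≤ Nat.card ↥(A ⊓ X)) : Nat.card ↥(A ⊔ X) ≤ a * Nat.card X := by
  have := CF.Solv.card_sup_mul_card_inf_of_le_normalizer n
  refine Nat.le_of_mul_le_mul_right ?_ (Nat.card_pos (α := ↥(A ⊓ X)))
  rw [this, h1, mul_right_comm]
  exact Nat.mul_le_mul_left _ h2

theorem sup_eq (hz : Z ≤ Y) (hY : Y ≤ O) : R 3 ⊔ (R 2 ⊔ (R 1 ⊔ (R 0 ⊔ Y))) = O :=
  le_antisymm (sup_le inf_le_left (sup_le inf_le_left (sup_le inf_le_left (sup_le inf_le_left hY))))
    (h.gen le_rfl le_normalizer_of_normal (hz.trans (le_sup_of_le_right (le_sup_of_le_right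
      (le_sup_of_le_right le_sup_right)))) fun i => by
        fin_cases i
        exacts [le_sup_of_le_right (le_sup_of_le_right (le_sup_of_le_right le_sup_left)),
          le_sup_of_le_right (le_sup_of_le_right le_sup_left), le_sup_of_le_right le_sup_left,
          le_sup_left])

theorem small [F.Normal] (hF : F ≤ O) (hz : Z ≤ F) (c : ⁅O, O⁆ ≤ F)
    (k : ∀ i, 16 ≤ Nat.card ↥(F ⊓ 𝐜(x i))) : F.relIndex O ≤ 2 ^ 12 := by
  have s : ∀ i X, F ≤ X → X ≤ O → Nat.card ↥(R i ⊔ X) ≤ 8 * Nat.card X := fun i X h1 h2 =>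
    grow (b := 16) (le_normalizer_iff_commutator_le_left.2
      ((commutator_mono h2 inf_le_left).trans (c.trans h1))) (h.rx i).cd
      ((k i).trans (card_le_of_le (le_inf (inf_le_inf_right _ hF) (inf_le_left.trans h1))))
  have l0 : R 0 ⊔ F ≤ O := sup_le inf_le_left hF
  have l1 : R 1 ⊔ (R 0 ⊔ F) ≤ O := sup_le inf_le_left l0
  have s0 := s 0 F le_rfl hF
  have s1 := s 1 _ le_sup_right l0
  have s2 := s 2 _ (le_sup_of_le_right le_sup_right) l1
  have s3 := s 3 (R 2 ⊔ _) (le_sup_of_le_right (le_sup_of_le_right le_sup_right)) (sup_le inf_le_left l1)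
  rw [h.sup_eq hz hF, ← card_mul_index (F.subgroupOf O),
    Nat.card_congr (subgroupOfEquivOfLe hF).toEquiv] at s3
  refine Nat.le_of_mul_le_mul_left ?_ (Nat.card_pos (α := F))
  change _ * F.relIndex O ≤ _ at s3
  omega

theorem fr (co : Spor.IsoCo1 (C ⧸ O)) : CF.Coprime.frattiniOf O ≤ Z := by
  have : (Z).Normal := ⟨fun a ha g => by
    rwa [(h.ZC ⊤ ha g trivial : g * a = a * g), mul_inv_cancel_right]⟩
  obtain ⟨F, hF⟩ : ∃ F, F = CF.Coprime.frattiniOf O ⊔ Z := ⟨_, rfl⟩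
  have : F.Normal := hF ▸ inferInstance
  have l : F ≤ O := hF ▸ sup_le (CF.Coprime.frattiniOf_le O) ((h.ZR 0).trans inf_le_left)
  have hz : Z ≤ F := hF ▸ le_sup_right
  have l' : CF.Coprime.frattiniOf O ≤ F := hF ▸ le_sup_left
  have c : ⁅O, O⁆ ≤ F := (CF.Coprime.commutator_le_frattiniOf h.o2).trans l'
  rcases h.card_mod l hz 0 with k | k
  · exact l'.trans (h.gen l le_normalizer_of_normal le_rfl fun i => (eq_of_le_of_card_ge
      (le_inf hz ((h.ZR i).trans inf_le_right)) (by rw [h.cZ, h.card_eq i 0, k])).ge)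
  exfalso
  have b := h.small l hz c fun i => k.trans (h.card_eq 0 i).le
  let π := QuotientGroup.mk' F
  have : (O.map π).Normal := Normal.map inferInstance _ (QuotientGroup.mk'_surjective F)
  let f := (MulAut.conjNormal (H := O.map π)).comp π
  have hf : ∀ g, g ∈ f.ker ↔ ∀ a ∈ O, ⁅a, g⁆ ∈ F := fun g => by
    have : ∀ a, ⁅a, g⁆ ∈ F ↔ π g * π a * (π g)⁻¹ = π a := fun a => by
      rw [← QuotientGroup.eq_one_iff, mul_inv_eq_iff_eq_mul, eq_comm (a := π g * _),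
        ← commutatorElement_eq_one_iff_mul_comm, ← map_commutatorElement]
      rfl
    refine ⟨fun e a ha => (this a).2 (congrArg (fun t : MulAut (O.map π) =>
      (t ⟨_, mem_map_of_mem π ha⟩ : C ⧸ F)) e), fun e => MulEquiv.ext ?_⟩
    rintro ⟨_, a, ha, rfl⟩
    exact Subtype.ext ((this a).1 (e a ha))
  have l2 : O ≤ f.ker := fun g hg => (hf g).2 fun a ha => c (commutator_mem_commutator ha hg)
  rcases sim co f.ker with e | e
  · have d : f.ker.index ∣ Nat.card (MulAut (O.map π)) := index_ker f ▸ card_subgroup_dvd_card _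
    obtain ⟨r, hr⟩ := (h.o2.map π).exists_card_eq
    have : IsMulCommutative (O.map π) := ⟨⟨by
      rintro ⟨_, a, ha, rfl⟩ ⟨_, b, hb, rfl⟩
      exact Subtype.ext (commutatorElement_eq_one_iff_mul_comm.1 (by
        rw [← map_commutatorElement]
        exact (QuotientGroup.eq_one_iff _).2 (c (commutator_mem_commutator ha hb))))⟩⟩
    obtain ⟨φ⟩ := co
    rw [le_antisymm e l2, index, Nat.card_congr φ.toEquiv, CF.Leech.card_Co1,
      CF.Fgs2.card_mulAut_of_pow_eq_one (p := 2) (by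
        rintro ⟨_, a, ha, rfl⟩
        exact Subtype.ext ((map_pow π a 2).symm.trans ((QuotientGroup.eq_one_iff _).2
          (l' (CF.Coprime.pow_mem_frattiniOf h.o2 ha))))) hr] at d
    rw [← QuotientGroup.ker_mk' F, relIndex_ker, hr] at b
    exact not_dvd r ((Nat.pow_le_pow_iff_right (by decide)).1 b) d
  · rw [sup_eq_left.2 l2] at e
    have q : O ≤ F := h.gen le_rfl le_normalizer_of_normal hz fun i => by
      obtain ⟨j, ij⟩ := exists_ne i
      exact h.cs ij.symm hz (commutator_le.2 fun a ha g _ => (hf g).1 (e.ge trivial) a ha.1)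
    rw [hF, sup_comm] at q
    exact h.nZ 0 (inf_le_left.trans (CF.Coprime.eq_of_sup_frattiniOf
      ((h.ZR 0).trans inf_le_left) q).ge)

theorem cm (c : ⁅O, O⁆ ≤ Z) (ij : i ≠ j) : R i ≤ 𝐂(R j) := by
  refine h.cs ij (h.ZC _) (commutator_le.2 fun b hb y hy a ha => ?_)
  have h1 : y * a = a * y := (centralizer_zpowers (x j)).ge ha.2 y hy
  have h2 := h.ZC ⊤ (c (commutator_mem_commutator ha.1 hb.1)) (b * y * b⁻¹) trivial
  calc a * ⁅b, y⁆ = ⁅a, b⁆ * (b * (a * y * a⁻¹) * b⁻¹) * ⁅a, b⁆⁻¹ * (a * y * a⁻¹)⁻¹ * a := by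
        simp only [commutatorElement_def]; group
    _ = _ := by rw [← h1, mul_inv_cancel_right, ← h2, mul_inv_cancel_right, commutatorElement_def]

omit [O.Normal] in
theorem step {A : Subgroup C} (hA : A ≤ R i) (hz : z ∈ A) (hX : X ≤ 𝐂(R i)) (hz' : z ∈ X) :
    Nat.card ↥(A ⊔ X) * 2 = Nat.card A * Nat.card X := by
  rw [← CF.Solv.card_sup_mul_card_inf_of_le_normalizer ((hA.trans (le_centralizer_iff.1 hX)).trans
    (centralizer_le_normalizer _)), le_antisymm ((inf_le_inf hA hX).trans (h.zR i))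
    (zpowers_le.2 ⟨hz, hz'⟩), h.cZ]

theorem prod (c : ⁅O, O⁆ ≤ Z) {A : Fin 4 → Subgroup C} (hA : ∀ i, A i ≤ R i) (hz : ∀ i, z ∈ A i) :
    Nat.card ↥(A 3 ⊔ (A 2 ⊔ (A 1 ⊔ A 0))) * 8 =
      Nat.card (A 3) * (Nat.card (A 2) * (Nat.card (A 1) * Nat.card (A 0))) := by
  have k : ∀ i j, i ≠ j → A i ≤ 𝐂(R j) := fun i j ij => (hA i).trans (h.cm c ij)
  rw [← h.step (hA 1) (hz 1) (k 0 1 (by decide)) (hz 0), ← mul_assoc (Nat.card (A 2)),
    ← h.step (hA 2) (hz 2) (sup_le (k 1 2 (by decide)) (k 0 2 (by decide))) (mem_sup_left (hz 1)),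
    mul_assoc, ← mul_assoc (Nat.card (A 3)), ← h.step (hA 3) (hz 3) (sup_le (k 2 3 (by decide))
      (sup_le (k 1 3 (by decide)) (k 0 3 (by decide)))) (mem_sup_left (hz 2)), mul_assoc]
  rfl

theorem card (c : ⁅O, O⁆ ≤ Z) : Nat.card O = 2 ^ 25 := by
  have := h.prod c (fun _ => le_rfl) fun i => (h.rx i).zR
  have e := h.sup_eq le_rfl ((h.ZR 0).trans inf_le_left)
  rw [sup_eq_left.2 (h.ZR 0)] at e
  simp only [e, (h.rx _).cd] at this
  omega

theorem ab (c : ⁅O, O⁆ ≤ Z) : ∃ A : Subgroup O, IsElementaryAbelian 2 A ∧ Nat.card A = 2 ^ 13 := by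
  choose A hA hz ea cd using fun i => (h.rx i).ab
  have k : ∀ i j, i ≠ j → A i ≤ 𝐂(A j) := fun i j ij =>
    ((hA i).trans (h.cm c ij)).trans (centralizer_anti (hA j))
  have e := ea_sup (ea 3) (ea_sup (ea 2) (ea_sup (ea 1) (ea 0) (k 1 0 (by decide))) (by
    rw [centralizer_sup]; exact le_inf (k 2 1 (by decide)) (k 2 0 (by decide)))) (by
    rw [centralizer_sup, centralizer_sup]
    exact le_inf (k 3 2 (by decide)) (le_inf (k 3 1 (by decide)) (k 3 0 (by decide))))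
  have l : A 3 ⊔ (A 2 ⊔ (A 1 ⊔ A 0)) ≤ O := sup_le ((hA 3).trans inf_le_left) (sup_le
    ((hA 2).trans inf_le_left) (sup_le ((hA 1).trans inf_le_left) ((hA 0).trans inf_le_left)))
  have q := (Nat.mul_le_mul (cd 3) (Nat.mul_le_mul (cd 2) (Nat.mul_le_mul (cd 1) (cd 0)))).trans
    (h.prod c hA hz).ge
  generalize A 3 ⊔ (A 2 ⊔ (A 1 ⊔ A 0)) = B at e l q
  obtain ⟨r, hr⟩ := (h.o2.to_le l).exists_card_eq
  obtain ⟨D, hD⟩ := Sylow.exists_subgroup_card_pow_prime (G := B) 2 (n := 13) (hr ▸ pow_dvd_pow 2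
    ((Nat.pow_le_pow_iff_right (by decide : 1 < 2)).1 (by omega)))
  have := e.1
  refine ⟨D.map (inclusion l), ⟨inferInstance, ?_⟩, by
    rw [card_map_of_injective (inclusion_injective l), hD]⟩
  rintro _ ⟨a, -, rfl⟩
  exact Subtype.ext (e.2 a a.2)

theorem cen (co : Spor.IsoCo1 (C ⧸ O)) (c : ⁅O, O⁆ ≤ Z) : 𝐂(O) ≤ O := by
  refine (sim co _).resolve_right fun e => h.nZ 0 (h.cs (j := 1) (by decide) le_rfl
    (commutator_le.2 fun a ha g _ => ?_))
  obtain ⟨u, hu, v, hv, rfl⟩ := (mem_sup_of_le_normalizer' (centralizer_le_normalizer _)).1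
    (e.ge (mem_top g))
  have m := c (commutator_mem_commutator ha.1 hv)
  have h1 := hu _ (O.mul_mem (O.mul_mem hv (O.inv_mem ha.1)) (O.inv_mem hv))
  rwa [show ⁅a, u * v⁆ = ⁅a, v⁆ by
    calc ⁅a, u * v⁆ = a * (u * (v * a⁻¹ * v⁻¹)) * u⁻¹ := by simp only [commutatorElement_def]; group
      _ = _ := by rw [← h1, commutatorElement_def]; group]

theorem ex (f : CF.Coprime.frattiniOf O ≤ Z) : IsExtraspecial 2 O := by
  have zO : z ∈ O := (h.rx 0).zR.1
  have e : center O = zpowers ⟨z, zO⟩ := le_antisymm (fun a ha => by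
    obtain ⟨k, hk⟩ := h.zO ⟨a.2, fun b hb => congrArg Subtype.val (mem_center_iff.1 ha ⟨b, hb⟩)⟩
    exact ⟨k, Subtype.ext hk⟩)
    (zpowers_le.2 (mem_center_iff.2 fun b => Subtype.ext (mem_center_iff.1 h.zc b)))
  have c : Nat.card (center O) = 2 := by rw [e, Nat.card_zpowers, orderOf_mk, h.z2]
  have l : frattini O ≤ center O := fun a ha => by
    obtain ⟨k, hk⟩ := f ⟨a, ha, rfl⟩
    exact e.ge ⟨k, Subtype.ext hk⟩
  have l' := CF.Fgs1.commutator_le_frattini h.o2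
  have q : commutator O = center O := eq_of_le_of_card_ge (l'.trans l) (by
    rw [c]
    refine (one_lt_card_iff_ne_bot _).2 fun k => h.nZ 0 fun a ha => h.zR 0 ⟨ha, fun b hb => ?_⟩
    exact congrArg Subtype.val (commutatorElement_eq_one_iff_mul_comm.1 (k.le
      (commutator_mem_commutator (mem_top (⟨b, hb.1⟩ : O)) (mem_top (⟨a, ha.1⟩ : O))))))
  exact ⟨⟨h.o2, le_antisymm l (q.ge.trans l'), q⟩, c⟩

end St

end OX

theorem ox {O : Subgroup C} [O.Normal] (o2 : IsPGroup 2 O) (z2 : orderOf z = 2) (zc : z ∈ center C)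
    (co : Spor.IsoCo1 (C ⧸ O)) (ea : IsElementaryAbelian 7 E) (e49 : Nat.card E = 49) {x : Fin 4 → C} (fo : Fo E x)
    (rx : ∀ i, Rx z (O ⊓ 𝐜(x i))) (cE : O ⊓ 𝐂(E) ≤ zpowers z)
    (ot : ∀ g ∈ E, g ≠ 1 → O ⊓ 𝐜(g) ≤ zpowers z ∨ ∃ i, g ∈ zpowers (x i)) :
    IsExtraspecial 2 O ∧ Nat.card O = 2 ^ 25 ∧ (∃ A : Subgroup O, IsElementaryAbelian 2 A ∧ Nat.card A = 2 ^ 13) ∧
      𝐂(O) ≤ O := by
  have h : OX.St O E z x := ⟨o2, z2, zc, ea, e49, fo, rx, cE, ot⟩
  have f := h.fr co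
  have c := (CF.Coprime.commutator_le_frattiniOf o2).trans f
  exact ⟨h.ex f, h.card c, h.ab c, h.cen co c⟩

end CF.Sv
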