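import Cfsg.Agent.Sv.B1
import Cfsg.Agent.Sv.OX
import Cfsg.Agent.SolvStr.Prim
import Cfsg.Agent.Loc.Core
import Cfsg.Agent.Coprime.Abelian
import Cfsg.Agent.Solv.CyclicMax

/-! Reduction modulo the `7'`-core of the involution centralizer. -/

set_option autoImplicit false

namespace CF.Sv

open Cfsg Subgroup CF.Loc CF.Solv QuotientGroup
open scoped commutatorElement

variable {C : Type*} [Group C] [Finite C] {z g x : C} {E A R N O : Subgroup C}

namespace CQ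

theorem sep (hA : ∀ a ∈ A, a ^ 7 = 1) (c : R ≤ 𝐂(A)) (hx : x ∈ A ⊔ R) (o : (orderOf x).Coprime 7) : x ∈ R := by
  obtain ⟨a, ha, r, hr, rfl⟩ := (Loc.mem_sup_of_le_normalizer (c.trans (centralizer_le_normalizer _))).1 hx
  refine mem_of_pow_mem_of_coprime o ?_
  rw [Commute.mul_pow (c hr a ha), hA a ha, one_mul]
  exact pow_mem hr 7

theorem simp7 {π : 𝐜(g) →* A7} (s : Function.Surjective π) (n : 𝐜(g) ≤ 𝐍(N)) :
    (∀ h : 𝐜(g), (h : C) ∈ N → π h = 1) ∨ ∀ h : 𝐜(g), ∃ k : 𝐜(g), (k : C) ∈ N ∧ π k = π h := by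
  have : (N.subgroupOf 𝐜(g)).Normal := ⟨fun _ a k => mem_subgroupOf.2 (conj_mem_of_mem_normalizer (n k.2) a)⟩
  rcases (this.map π s).eq_bot_or_eq_top with e | e
  · exact .inl fun h m => mem_bot.1 (e.le ⟨h, m, rfl⟩)
  · exact .inr fun h => e.ge (mem_top (π h))

variable (h : Cf z E)
include h

theorem zc (X : Set C) : zpowers z ≤ centralizer X := zpowers_le.2 (center_le_centralizer _ h.zc)

theorem cz : Nat.card (zpowers z) = 2 := by rw [Nat.card_zpowers, h.z2]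

theorem p7 : IsPGroup 7 E := .of_card (n := 2) h.e49

theorem sol {X : Subgroup C} (l : X ≤ E) : Group.IsSolvable X :=
  have := ((p7 h).to_le l).isNilpotent
  inferInstance

theorem Ec (hg : g ∈ E) : E ≤ 𝐜(g) := fun a ha => mem_centralizer_singleton_iff.2 (isElemAb_le_centralizer h.ea hg a ha)

theorem o7 (hg : g ∈ E) (g1 : g ≠ 1) : Nat.card (zpowers g) = 7 := by
  rw [Nat.card_zpowers, orderOf_eq_prime (h.ea.2 g hg) g1]

theorem c14 (hg : g ∈ E) (g1 : g ≠ 1) : Nat.card ↥(zpowers g ⊔ zpowers z) = 14 := by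
  rw [sup_comm, card_sup_of_inf_eq_bot ((zc h _).trans (centralizer_le_normalizer _))
    (inf_eq_bot_of_coprime (by rw [cz h, o7 h hg g1]; decide)), cz h, o7 h hg g1]

theorem cardB (hg : g ∈ E) (g1 : g ≠ 1) (t : TyB z g) : Nat.card 𝐜(g) = 35280 := by
  obtain ⟨π, s, k⟩ := t
  rw [← π.ker.card_mul_index, index_ker, MonoidHom.range_eq_top.2 s, card_top, card_A7,
    show π.ker = (zpowers g ⊔ zpowers z).subgroupOf _ from ext k, Nat.card_congr (subgroupOfEquivOfLe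
      (sup_le ((zpowers_le.2 hg).trans (Ec h hg)) (zc h _))).toEquiv, c14 h hg g1]

theorem gen (hg : g ∈ E) (g1 : g ≠ 1) (e : E ≤ N) (hz : z ∈ N) (l : N ≤ 𝐜(g)) (n : 𝐜(g) ≤ 𝐍(N)) : N = 𝐜(g) := by
  rcases h.ty g hg g1 with ⟨π, s, k⟩ | ⟨R, t⟩
  · refine l.antisymm fun a ha => ?_
    rcases simp7 s n with q | q
    · have := card_dvd_of_le (show E ≤ zpowers g ⊔ zpowers z from fun b hb => (k ⟨b, Ec h hg hb⟩).1 (q _ (e hb)))
      rw [h.e49, c14 h hg g1] at this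
      exact absurd this (by decide)
    · obtain ⟨b, hb, q⟩ := q ⟨a, ha⟩
      exact (N.mul_mem_cancel_left (inv_mem hb)).1 (sup_le (zpowers_le.2 (e hg)) (zpowers_le.2 hz)
        ((k (b⁻¹ * ⟨a, ha⟩)).1 (by rw [map_mul, map_inv, q, inv_mul_cancel])))
  · have r : R ≤ N := by
      rw [← Coprime.commutator_sup_centralizer E R ((Ec h hg).trans t.nm) (by rw [h.e49, t.rx.cd]; decide)
        (.inl (sol h le_rfl))]
      exact sup_le ((commutator_mono le_rfl e).trans (commutator_le_right_of_le_normalizer (t.le.trans n)))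
        (inf_le_right.trans (h.cE.trans (sup_le e (zpowers_le.2 hz))))
    refine (t.sm N (sup_le r (zpowers_le.2 (e hg))) l n).resolve_left fun q => ?_
    have := (card_dvd_of_le (q ▸ e)).trans (card_sup_dvd_of_le_normalizer
      (t.le.trans ((centralizer_zpowers g).ge.trans (centralizer_le_normalizer _))))
    rw [h.e49, t.rx.cd, o7 h hg g1] at this
    exact absurd this (by decide)

variable [O.Normal] (o : (Nat.card O).Coprime 7)
include o

omit h in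
theorem ord (hx : x ∈ O) : (orderOf x).Coprime 7 := o.coprime_dvd_left (orderOf_dvd_natCard _ hx)

theorem cE : O ⊓ 𝐂(E) ≤ zpowers z := fun _ hx => sep h.ea.2 (zc h _) (h.cE hx.2) (ord o hx.1)

omit h o [Finite C] in
theorem nD : 𝐜(g) ≤ 𝐍(O ⊓ 𝐜(g)) := le_normalizer_inf le_normalizer_of_normal le_normalizer

theorem pw (hg : g ∈ E) : ∀ a ∈ zpowers g, a ^ 7 = 1 := fun a ha => h.ea.2 a (zpowers_le.2 hg ha)

theorem DB (hg : g ∈ E) (t : TyB z g) : O ⊓ 𝐜(g) ≤ zpowers z := fun a ha => by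
  obtain ⟨π, s, k⟩ := t
  rcases simp7 s (nD (O := O)) with q | q
  · exact sep (pw h o hg) (zc h _) ((k ⟨a, ha.2⟩).1 (q _ ha)) (ord o ha.1)
  · obtain ⟨u, hu⟩ := exists_prime_orderOf_dvd_card' (G := A7) 7 (by rw [card_A7]; decide)
    obtain ⟨v, rfl⟩ := s u
    obtain ⟨b, hb, q⟩ := q v
    have := (ord o hb.1).coprime_dvd_left ((orderOf_map_dvd π b).trans (orderOf_coe b).symm.dvd)
    rw [q, hu] at this
    exact absurd this (by decide)

theorem DR (hg : g ∈ E) (g1 : g ≠ 1) (t : TyR z g R) : O ⊓ 𝐜(g) ≤ R := fun a ha => by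
  have c : R ≤ 𝐂(zpowers g) := t.le.trans (centralizer_zpowers g).ge
  have l : R ⊔ zpowers g ≤ 𝐜(g) := sup_le t.le ((zpowers_le.2 hg).trans (Ec h hg))
  rcases t.sm (R ⊔ zpowers g ⊔ O ⊓ 𝐜(g)) le_sup_left (sup_le l inf_le_right) (le_normalizer_sup (le_normalizer_sup t.nm
    ((centralizer_zpowers g).ge.trans (centralizer_le_normalizer _))) nD) with q | q
  · exact sep (pw h o hg) c (sup_comm R _ ▸ q.le (mem_sup_right ha)) (ord o ha.1)
  · have := (card_sup_dvd_of_le_normalizer (l.trans (nD (O := O)))).trans (mul_dvd_mul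
      (card_sup_dvd_of_le_normalizer (c.trans (centralizer_le_normalizer _))) (card_dvd_of_le inf_le_left))
    rw [q, t.cd, t.rx.cd, o7 h hg g1] at this
    have := (o.symm.pow_left 2).dvd_of_dvd_mul_right ((by decide : 7 ^ 2 ∣ 7 * 21504).trans this)
    exact absurd this (by decide)

theorem D2 (hg : g ∈ E) (g1 : g ≠ 1) : IsPGroup 2 ↥(O ⊓ 𝐜(g)) := by
  rcases h.ty g hg g1 with t | ⟨R, t⟩
  · exact (IsPGroup.of_card (n := 1) (cz h)).to_le (DB h o hg t)
  · exact (IsPGroup.of_card (n := 7) t.rx.cd).to_le (DR h o hg g1 t)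

omit h in
theorem cop {X : Subgroup C} (p : IsPGroup 7 X) : (Nat.card X).Coprime (Nat.card O) := by
  obtain ⟨k, e⟩ := p.exists_card_eq
  exact e ▸ o.symm.pow_left k

theorem two : IsPGroup 2 O := by
  have := h.ea.1
  obtain ⟨S, hS⟩ := Coprime.exists_isSylowOf 2 O
  refine hS.isPGroup.to_le (Coprime.le_of_forall_isSylowOf fun r hr _ => ?_)
  by_cases e : r = 2
  · exact ⟨S, e ▸ hS, le_rfl⟩
  have := Fact.mk hr
  obtain ⟨P, hP, n⟩ := Coprime.exists_invariant_isSylowOf E O le_normalizer_of_normal (cop o (p7 h))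
    (.inl (sol h le_rfl)) r
  refine ⟨P, hP, ?_⟩
  rw [← Coprime.iSup_inf_centralizer_eq E P (not_isCyclic_of_isElementaryAbelian h.ea (by rw [h.e49]; decide)) n
    ((cop o (p7 h)).coprime_dvd_right (card_dvd_of_le hP.le))]
  exact iSup₂_le fun a ha => (IsPGroup.disjoint_of_ne r 2 e _ _ hP.isPGroup (D2 h o ha.1 ha.2)
    inf_le_left (inf_le_inf_right _ hP.le)).trans bot_le

theorem inj (hg : g ∈ E) (hx : x ∈ E) (e : mk' O g = mk' O x) : g = x :=
  inv_mul_eq_one.1 (eq_one_of_coprime_of_mem (p7 h) (mul_mem (inv_mem hg) hx) (ord o (QuotientGroup.eq.1 e)))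

theorem cen (hg : g ∈ E) : (𝐜(g)).map (mk' O) = 𝐜(mk' O g) := by
  rw [← centralizer_zpowers, ← centralizer_zpowers, ← MonoidHom.map_zpowers]
  exact Coprime.map_mk'_centralizer O _ (cop o ((p7 h).to_le (zpowers_le.2 hg))) (.inl inferInstance)

theorem mul (hg : g ∈ E) : Nat.card 𝐜(mk' O g) * Nat.card ↥(O ⊓ 𝐜(g)) = Nat.card 𝐜(g) := by
  rw [← cen h o hg, ← card_map_mul_card_inf_ker (mk' O) 𝐜(g), ker_mk']

variable (hz : z ∈ O)
include hz

theorem cB (hg : g ∈ E) (g1 : g ≠ 1) (t : TyB z g) : Nat.card 𝐜(mk' O g) = 17640 := by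
  have := mul h o hg
  rw [(DB h o hg t).antisymm (le_inf (zpowers_le.2 hz) (zc h _)), cz h, cardB h hg g1 t] at this
  omega

theorem cR (hg : g ∈ E) (g1 : g ≠ 1) (t : TyR z g R) : Nat.card 𝐜(mk' O g) = 1176 ∧ O ⊓ 𝐜(g) = R ∨
    Nat.card 𝐜(mk' O g) = 9408 ∨ Nat.card 𝐜(mk' O g) = 75264 := by
  have a := mul h o hg
  have b := SolvStr.card_modEq_card_inf_centralizer (p7 h) ((Ec h hg).trans (nD (O := O)))
  have l := DR h o hg g1 t
  rw [((inf_le_inf_right _ inf_le_left).trans (cE h o)).antisymm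
    (le_inf (le_inf (zpowers_le.2 hz) (zc h _)) (zc h _)), cz h] at b
  obtain ⟨k, k7, c⟩ := (Nat.dvd_prime_pow Nat.prime_two).1 (show _ ∣ 2 ^ 7 from t.rx.cd ▸ card_dvd_of_le l)
  rw [c] at b
  rw [c, t.cd] at a
  interval_cases k <;> first
    | exact absurd b (by decide)
    | exact .inl ⟨by omega, eq_of_le_of_card_ge l (by rw [c, t.rx.cd]; rfl)⟩
    | exact .inr (by omega)

end CQ

open CQ

theorem Cf.cb (h : Cf z E) {O : Subgroup C} [O.Normal] (hO : O = pPrimeCore 7 C) :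
    IsPGroup 2 O ∧ z ∈ O ∧ Cb (E.map (QuotientGroup.mk' O)) := by
  have o : (Nat.card O).Coprime 7 := hO ▸ pPrimeCore_coprime
  have nz : (zpowers z).Normal := ⟨fun a ha k => by
    rw [mem_center_iff.1 (zpowers_le.2 h.zc ha) k, mul_inv_cancel_right]; exact ha⟩
  have hz : z ∈ O := hO ▸ le_pPrimeCore (by rw [cz h]; decide) (mem_zpowers z)
  have z1 : mk' O z = 1 := (eq_one_iff z).2 hz
  have := h.ea.1
  refine ⟨two h o, hz, Even.IsKGroup.quotient h.kg O, fun N _ n => ?_, isElemAb_map _ h.ea, ?_,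
    fun e => h.syl (e.trans (card_quotient_dvd_card O)), ?_, ?_, ?_, ?_⟩
  · subst hO
    exact le_bot_iff.1 (pPrimeCore_quotient_pPrimeCore (p := 7) (G := C) ▸
      le_pPrimeCore ((Nat.Prime.coprime_iff_not_dvd (by decide)).2 n).symm)
  · have := card_map_mul_card_inf_ker (mk' O) E
    rwa [ker_mk', inf_eq_bot_of_coprime (cop o (p7 h)).symm, card_bot, mul_one, h.e49] at this
  · rw [← Coprime.map_mk'_centralizer O E (cop o (p7 h)) (.inl (sol h le_rfl))]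
    refine (map_mono h.cE).trans ?_
    rw [Subgroup.map_sup, MonoidHom.map_zpowers, z1, zpowers_one_eq_bot, sup_bot_eq]
  · rintro _ ⟨g, hg, rfl⟩ g1
    rcases h.ty g hg (fun e => g1 (e ▸ map_one _)) with t | ⟨R, t⟩
    · exact .inl (cB h o hz hg (fun e => g1 (e ▸ map_one _)) t)
    · exact .inr ((cR h o hz hg (fun e => g1 (e ▸ map_one _)) t).imp_left And.left)
  · rintro _ ⟨g, hg, rfl⟩ g1 N e l n
    have m : ∀ a ∈ 𝐜(g), mk' O a ∈ 𝐜(mk' O g) := fun a ha => (cen h o hg).le ⟨a, ha, rfl⟩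
    have q := gen h hg (fun e => g1 (e ▸ map_one _)) (N := N.comap (mk' O) ⊓ 𝐜(g))
      (le_inf (map_le_iff_le_comap.1 e) (Ec h hg)) ⟨mem_comap.2 (z1 ▸ one_mem _), CQ.zc h _ (mem_zpowers z)⟩ inf_le_right
      (le_normalizer_inf (fun a ha => mem_normalizer_of_conj_mem fun b hb => by
        simpa using conj_mem_of_mem_normalizer (n (m a ha)) hb) le_normalizer)
    exact l.antisymm ((cen h o hg).ge.trans (map_le_iff_le_comap.2 (q.ge.trans inf_le_left)))
  · obtain ⟨y, hy, y1, π, s, k⟩ := h.ex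
    let f : 𝐜(y) →* 𝐜(mk' O y) := ((mk' O).comp (Subgroup.subtype _)).codRestrict _ fun a => (cen h o hy).le ⟨a, a.2, rfl⟩
    have fs : Function.Surjective f := fun b => let ⟨a, ha, e⟩ := (cen h o hy).ge b.2; ⟨⟨a, ha⟩, Subtype.ext e⟩
    let π' := f.liftOfSurjective fs ⟨π, fun a ha => (k a).2 (mem_sup_right (DB h o hy ⟨π, s, k⟩
      ⟨(eq_one_iff _).1 (congrArg Subtype.val ha), a.2⟩))⟩
    have e : ∀ a, π' (f a) = π a := fun a => f.liftOfRightInverse_comp_apply _ _ _ a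
    refine ⟨_, ⟨y, hy, rfl⟩, fun q => y1 (inj h o hy (one_mem _) q), π', fun b => (s b).elim fun a q => ⟨f a, (e a).trans q⟩,
      fun b q => ?_⟩
    obtain ⟨a, rfl⟩ := fs b
    have := mem_map_of_mem (mk' O) ((k a).1 ((e a).symm.trans q))
    rwa [Subgroup.map_sup, MonoidHom.map_zpowers, MonoidHom.map_zpowers, z1, zpowers_one_eq_bot, sup_bot_eq] at this

theorem Cf.mc0 (h : Cf z E) (cl : ∀ (O : Subgroup C) [O.Normal] (E : Subgroup (C ⧸ O)), Cb E →
    Spor.IsoCo1 (C ⧸ O) ∧ ∃ x, Fo E x ∧ (∀ i, Nat.card 𝐜(x i) = 1176) ∧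
      ∀ g ∈ E, g ≠ 1 → Nat.card 𝐜(g) = 17640 ∨ ∃ i, g ∈ zpowers (x i)) : ∃ (O : Subgroup C) (_ : O.Normal), IsExtraspecial 2 O ∧ Nat.card O = 2 ^ 25 ∧
    (∃ A : Subgroup O, IsElementaryAbelian 2 A ∧ Nat.card A = 2 ^ 13) ∧ 𝐂(O) ≤ O ∧ Spor.IsoCo1 (C ⧸ O) := by
  obtain ⟨O, hO⟩ : ∃ O, O = pPrimeCore 7 C := ⟨_, rfl⟩
  have : O.Normal := hO ▸ inferInstance
  have o : (Nat.card O).Coprime 7 := hO ▸ pPrimeCore_coprime
  obtain ⟨o2, hz, b⟩ := h.cb hO
  obtain ⟨co, y, fo, c1, c2⟩ := cl O _ b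
  choose x hx e using fo.mem
  obtain rfl : y = fun i => mk' O (x i) := funext fun i => (e i).symm
  have x1 : ∀ i, x i ≠ 1 := fun i q => fo.ne i (by rw [q, map_one])
  refine ⟨O, this, (fun q => ⟨q.1, q.2.1, q.2.2.1, q.2.2.2, co⟩) (ox o2 h.z2 h.zc co h.ea h.e49 (x := x)
    ⟨hx, x1, fun i j ⟨k, q⟩ => fo.dis i j ⟨k, (map_zpow _ _ _).symm.trans (congrArg (mk' O) q)⟩, fun i j => ?_⟩
    (fun i => ?_) (CQ.cE h o) fun g hg g1 => ?_)⟩
  · obtain ⟨n, q⟩ := fo.cj i j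
    obtain ⟨n, rfl⟩ := mk'_surjective O n
    rw [← map_inv, ← map_mul, ← map_mul, ← MonoidHom.map_zpowers, ← mem_comap, comap_map_eq, ker_mk'] at q
    obtain ⟨P, hP, l⟩ := Coprime.exists_isSylowOf_ge (zpowers_le.2 q)
      (cj_zpowers n (x i) ▸ isPGroup_cj n ((p7 h).to_le (zpowers_le.2 (hx i))))
    have d : (zpowers (x j)).relIndex (zpowers (x j) ⊔ O) ∣ Nat.card O := by
      have := card_sup_dvd (zpowers (x j)) O
      rwa [← card_mul_index ((zpowers (x j)).subgroupOf _), Nat.card_congr (subgroupOfEquivOfLe le_sup_left).toEquiv,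
        mul_dvd_mul_iff_left Nat.card_pos.ne'] at this
    obtain ⟨k, -, r⟩ := hP.conj (Q := zpowers (x j)) ⟨le_sup_left, (p7 h).to_le (zpowers_le.2 (hx j)), fun q =>
      (Nat.Prime.coprime_iff_not_dvd (by decide)).1 o.symm (q.trans d)⟩
    exact ⟨k * n, by simpa [mul_assoc] using r.le (conj_mem_cj k (l (mem_zpowers _)))⟩
  · have : Nat.card 𝐜(mk' O (x i)) = 1176 := c1 i
    rcases h.ty _ (hx i) (x1 i) with t | ⟨R, t⟩
    · have := cB h o hz (hx i) (x1 i) t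
      omega
    · rcases cR h o hz (hx i) (x1 i) t with q | q
      · exact q.2 ▸ t.rx
      · omega
  · rcases c2 _ ⟨g, hg, rfl⟩ (fun q => g1 (inj h o hg (one_mem _) q)) with q | ⟨i, k, q⟩
    · rcases h.ty g hg g1 with t | ⟨R, t⟩
      · exact .inl (DB h o hg t)
      · have := cR h o hz hg g1 t
        omega
    · exact .inr ⟨i, k, inj h o (zpow_mem (hx i) k) hg ((map_zpow _ _ _).trans q)⟩

end CF.Sv
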