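import Cfsg.Agent.Sv.B

/-! S3024: the involution `t` and the subgroup `E = 7²` of its centralizer. -/

set_option autoImplicit false

namespace CF.Sv

open Cfsg Subgroup CF.Loc
open scoped commutatorElement

namespace EE

variable {G : Type*} [Group G]

theorem kgroup (hK : IsCompositionKProper G) {H : Subgroup G} (h : H ≠ ⊤) : IsKGroup H := fun A N _ hs hn => by
  let f := (QuotientGroup.mk' N).comp (((A.equivMapOfInjective _ H.subtype_injective).symm.toMonoidHom).comp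
    (⊤ : Subgroup (A.map H.subtype)).subtype)
  have sj : Function.Surjective f := (QuotientGroup.mk'_surjective N).comp
    ((A.equivMapOfInjective _ H.subtype_injective).symm.surjective.comp fun x => ⟨⟨x, trivial⟩, rfl⟩)
  have e := QuotientGroup.quotientKerEquivOfSurjective f sj
  exact Even.known_of_equiv e.symm (hK _ (fun c => h (top_le_iff.1 (c.ge.trans (map_subtype_le A)))) ⊤ .top f.ker
    (Even.isSimpleGroup_of_equiv e.symm hs) fun c => hn (Even.isMulCommutative_of_equiv e c))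

/-- `C / Z` is the Held group. -/
def Xh (C Z : Subgroup G) : Prop := ∃ f : C →* Spor.He, Function.Surjective f ∧ ∀ g, f g = 1 ↔ (g : G) ∈ Z

theorem Xh.cj {c : G} (h : Xh 𝐜(c) (zpowers c)) (n : G) : Xh 𝐜(n * c * n⁻¹) (zpowers (n * c * n⁻¹)) := by
  obtain ⟨f, f1, f2⟩ := h
  have k : ∀ x, x ∈ 𝐜(n * c * n⁻¹) ↔ n⁻¹ * x * n ∈ 𝐜(c) := fun x => by
    simp only [mem_centralizer_singleton_iff]
    rw [← (MulAut.conj n).injective.eq_iff (a := _ * c)]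
    simp [mul_assoc]
  let j : 𝐜(n * c * n⁻¹) →* 𝐜(c) := .mk' (fun x => ⟨n⁻¹ * x * n, (k _).1 x.2⟩) fun x y => Subtype.ext (by
    simp [mul_assoc])
  have j1 : Function.Surjective j := fun x =>
    ⟨⟨n * x * n⁻¹, (k _).2 (by simp [mul_assoc])⟩, Subtype.ext (by simp [j, mul_assoc])⟩
  refine ⟨f.comp j, f1.comp j1, fun g => ?_⟩
  rw [MonoidHom.comp_apply, f2]
  change n⁻¹ * g * n ∈ _ ↔ _
  exact ⟨fun ⟨j, e⟩ => ⟨j, by simp only [conj_zpow, e]; simp [mul_assoc]⟩,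
    fun ⟨j, e⟩ => ⟨j, by simp only [conj_zpow] at e; simp [← e, mul_assoc]⟩⟩

theorem Xh.of_eq {c g : G} (h : Xh 𝐜(c) (zpowers c)) (e : zpowers g = zpowers c) : Xh 𝐜(g) (zpowers g) := by
  rwa [← centralizer_closure, ← zpowers_eq_closure, e, zpowers_eq_closure, centralizer_closure, ← zpowers_eq_closure]

variable {t : G} (ht : t ∈ 𝐜(t)) (g : 𝐜(t))

/-- the centralizer of `g` in `C(t)` -/
def jj : 𝐜(g) →* ↥(𝐜((g : G)) ⊓ 𝐜(t)) where
  toFun h := ⟨h.1, mem_centralizer_singleton_iff.2 (congrArg Subtype.val (mem_centralizer_singleton_iff.1 h.2)), h.1.2⟩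
  map_one' := rfl
  map_mul' _ _ := rfl

theorem jj_sj : Function.Surjective (jj g) := fun h =>
  ⟨⟨⟨h, h.2.2⟩, mem_centralizer_singleton_iff.2 (Subtype.ext (mem_centralizer_singleton_iff.1 h.2.1))⟩, rfl⟩

theorem tyB (h : ∃ π : ↥(𝐜((g : G)) ⊓ 𝐜(t)) →* A7, Function.Surjective π ∧
    ∀ x, π x = 1 ↔ (x : G) ∈ zpowers (g : G) ⊔ zpowers t) : TyB ⟨t, ht⟩ g :=
  let ⟨π, p1, p2⟩ := h
  ⟨π.comp (jj g), p1.comp (jj_sj g), fun x => by
    rw [MonoidHom.comp_apply, p2, ← mem_map_iff_mem (𝐜(t)).subtype_injective, Subgroup.map_sup, MonoidHom.map_zpowers,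
      MonoidHom.map_zpowers]
    rfl⟩

theorem eq_one {g u : G} (g7 : g ^ 7 = 1) (hu : u ∈ zpowers g) (e : u * u = 1) : u = 1 := by
  obtain ⟨k, rfl⟩ := hu
  have e7 : (g ^ k) ^ 7 = 1 := by rw [← zpow_natCast, ← zpow_mul, mul_comm, zpow_mul, zpow_natCast, g7, one_zpow]
  rwa [show (g ^ k) ^ 7 = (g ^ k * g ^ k) ^ 3 * g ^ k by group, e, one_pow, one_mul] at e7

theorem tyA (t2 : orderOf t = 2) (g7 : (g : G) ^ 7 = 1) (h : Xh 𝐜((g : G)) (zpowers (g : G))) : TyA ⟨t, ht⟩ g := by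
  obtain ⟨f, f1, f2⟩ := h
  have c : (g : G) * t = t * g := mem_centralizer_singleton_iff.1 g.2
  have m : t ∈ 𝐜((g : G)) := mem_centralizer_singleton_iff.2 c.symm
  have tt : t * t = 1 := by rw [← sq, ← t2, pow_orderOf_eq_one]
  refine ⟨f ⟨t, m⟩, f.comp ((inclusion inf_le_left).comp (jj g)), orderOf_eq_prime ?_ fun e => ?_,
    le_antisymm ?_ fun r hr => ?_, fun x => ?_, fun _ => rfl⟩
  · rw [← map_pow, sq, show (⟨t, m⟩ * ⟨t, m⟩ : 𝐜((g : G))) = 1 from Subtype.ext tt, map_one]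
  · rw [eq_one (u := t) g7 ((f2 _).1 e) tt, orderOf_one] at t2
    omega
  · rintro _ ⟨x, rfl⟩
    rw [mem_centralizer_singleton_iff, MonoidHom.comp_apply, ← map_mul, ← map_mul]
    exact congrArg f (Subtype.ext (mem_centralizer_singleton_iff.1 x.1.2))
  · obtain ⟨x, rfl⟩ := f1 r
    have u := (f2 (x * ⟨t, m⟩ * x⁻¹ * ⟨t, m⟩⁻¹)).1 (by
      rw [map_mul, map_mul, map_mul, mem_centralizer_singleton_iff.1 hr, map_inv, map_inv]; group)
    obtain ⟨k, e⟩ := id u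
    have c' : Commute ((g : G) ^ k) t := (show Commute (g : G) t from c).zpow_left k
    have e1 : (x : G) * t * (x : G)⁻¹ = (g : G) ^ k * t := eq_mul_of_mul_inv_eq e.symm
    have e2 := eq_one g7 u (by
      have : ((x : G) * t * (x : G)⁻¹) ^ 2 = 1 := by rw [conj_pow, sq, tt]; group
      rw [e1, c'.mul_pow, sq t, tt, mul_one, sq] at this
      rw [← e]; exact this)
    obtain ⟨y, q⟩ := jj_sj g ⟨x, x.2, mem_centralizer_singleton_iff.2 (by
      rw [← mul_inv_eq_iff_eq_mul, ← mul_inv_eq_one]; exact e2)⟩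
    exact ⟨y, by rw [MonoidHom.comp_apply, MonoidHom.comp_apply, q]; rfl⟩
  · rw [MonoidHom.comp_apply, f2, ← mem_map_iff_mem (𝐜(t)).subtype_injective, MonoidHom.map_zpowers]
    rfl

variable (L : Lo G)

theorem cm_zpow {a b b' : G} (ha : a ∈ L.Q) (hb : b ∈ L.Q) (hb' : b' ∈ L.Q) {k : ℤ}
    (e : L.φ b' = (k : ZMod 7) • L.φ b) : ⁅a, b'⁆ = ⁅a, b⁆ ^ k := by
  obtain ⟨u, hu, q⟩ := L.φ_inj (zpow_mem hb k) hb' (by rw [L.φ_zpow hb, e])
  have := congrArg Subtype.val (map_mul (L.ch ha) (⟨b, hb⟩ ^ k) ⟨u, L.zQ hu⟩)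
  rw [map_zpow] at this
  rw [q]
  refine this.trans (mul_eq_left.2 ?_)
  exact commutatorElement_eq_one_iff_mul_comm.2 (L.cz (L.Qc ha) hu)

theorem conj_of {x y : G} (hx : x ∈ L.Q) (hy : y ∈ L.Q) (y0 : L.φ y ≠ 0) (h : Bp L.M (L.φ x) (L.φ y)) :
    ∃ (n : G) (k : ℕ), k.gcd 7 = 1 ∧ n * x ^ k * n⁻¹ = y := by
  obtain ⟨m, hm, a, a0, e⟩ := h
  obtain ⟨n, -, rfl⟩ := (L.mem_M m).1 hm
  have q := L.nQ n n.2 _ (pow_mem hx a.val)
  have e1 : L.φ (n * x ^ a.val * (n : G)⁻¹) = L.φ y := by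
    rw [L.φ_cj n _ (pow_mem hx _), L.φ_pow hx, map_smul, ZMod.natCast_zmod_val, e]
  obtain ⟨u, hu, rfl⟩ := L.φ_inj q hy e1
  obtain ⟨b, -, e2⟩ := L.cj_mul q (fun c => y0 (e1 ▸ (L.φ_eq _ q).2 c)) hu
  exact ⟨b * n, a.val, by revert a0; generalize a = a; revert a; decide, by rw [← e2]; group⟩

variable {L} {t : 𝐍(zpowers L.d)} (i : (t : G) * L.d * (t : G)⁻¹ = L.d⁻¹)
include i

theorem inv_z {u : G} (hu : u ∈ zpowers L.d) : (t : G) * u * (t : G)⁻¹ = u⁻¹ := by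
  obtain ⟨k, rfl⟩ := hu
  rw [← conj_zpow, i, inv_zpow]

theorem card_eig {k : ℤ} (k2 : k * k = 1) (W : AddSubgroup V) (hW : ∀ v ∈ W, L.ρ t v = (k : ZMod 7) • v) :
    Nat.card W ≤ 49 := by
  have s : Function.Surjective L.φh := fun v => by
    obtain ⟨a, ha, e⟩ := L.φ_sj v.toAdd
    exact ⟨⟨a, ha⟩, congrArg Multiplicative.ofAdd e⟩
  have e1 := card_mul_index (W.toSubgroup.comap L.φh)
  have e2 := W.card_mul_index
  rw [index_comap_of_surjective _ s, AddSubgroup.index_toSubgroup, L.cardQ,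
    ← card_map_of_injective L.Q.subtype_injective] at e1
  have := L.ab (map_subtype_le (W.toSubgroup.comap L.φh)) (by
    rintro _ ⟨a, ha, rfl⟩ _ ⟨b, hb, rfl⟩
    have m := L.cm b.2 a.2
    have q := inv_z i m
    have n := fun x : L.Q => L.nQ t t.2 x x.2
    rw [conjugate_commutatorElement, cm_zpow L (n b) a.2 (n a) ((L.φ_cj t _ a.2).trans (hW _ ha)),
      ← commutatorElement_inv, cm_zpow L a.2 b.2 (n b) ((L.φ_cj t _ b.2).trans (hW _ hb)), ← inv_zpow,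
      commutatorElement_inv, ← zpow_mul, k2, zpow_one] at q
    exact commutatorElement_eq_one_iff_mul_comm.1 (eq_one (L.Q7 _ L.dQ) m (mul_eq_one_iff_eq_inv.2 q)))
  rw [card_V] at e2
  by_contra c
  have i0 : 0 < W.index := Nat.pos_of_ne_zero fun c => by simp [c] at e2
  nlinarith

theorem not_z {a : G} (c : a ∈ 𝐜((t : G))) (h : a ∈ zpowers L.d) : a = 1 := eq_one (L.Q7 _ L.dQ) h (by
  rw [mul_eq_one_iff_eq_inv, ← inv_z i h, ← mem_centralizer_singleton_iff.1 c, mul_inv_cancel_right])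

theorem card_E (tt : t * t = 1) : Nat.card (L.Q.subgroupOf 𝐜((t : G))) = 49 := by
  have bb : ∀ v, L.ρ t (L.ρ t v) = v := fun v => by
    rw [← LinearEquiv.mul_apply, ← map_mul, tt, map_one]; rfl
  let W : ℤ → AddSubgroup V := fun k => (LinearMap.ker ((L.ρ t).toLinearMap - (k : ZMod 7) • 1)).toAddSubgroup
  have m : ∀ k v, v ∈ W k ↔ L.ρ t v = (k : ZMod 7) • v := fun k v =>
    LinearMap.mem_ker.trans (sub_eq_zero (a := L.ρ t v) (b := (k : ZMod 7) • v))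
  have l1 := card_eig i (k := 1) rfl _ fun v => (m 1 v).1
  have l2 := card_eig i (k := -1) rfl _ fun v => (m (-1) v).1
  have l3 := Nat.card_le_card_of_injective (fun v : V => ((⟨v + L.ρ t v, (m 1 _).2 (by simp [bb, add_comm])⟩ : W 1),
    (⟨v - L.ρ t v, (m (-1) _).2 (by simp [bb])⟩ : W (-1)))) fun v w e => by
      simp only [Prod.mk.injEq, Subtype.mk.injEq] at e
      haveI : Fact (Nat.Prime 7) := ⟨by decide⟩
      exact smul_right_injective _ two_ne (by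
        simp only [two_smul]; linear_combination e.1 + e.2)
  rw [card_V, Nat.card_prod] at l3
  rw [show 49 = Nat.card (W 1) by nlinarith]
  refine Nat.card_eq_of_bijective (fun a => ⟨L.φ a.1, (m 1 _).2 (by
    rw [← L.φ_cj t a.1 a.2, ← mem_centralizer_singleton_iff.1 a.1.2]; simp)⟩) ⟨fun a b e => ?_, fun v => ?_⟩
  · obtain ⟨u, hu, q⟩ := L.φ_inj a.2 b.2 (congrArg Subtype.val e)
    rw [not_z i (a := u) ((mul_mem_cancel_left a.1.2).1 (q ▸ b.1.2)) hu, mul_one] at q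
    exact Subtype.ext (Subtype.ext q.symm)
  · obtain ⟨a, ha, e⟩ := L.φ_sj v
    obtain ⟨u, hu, q⟩ := L.φ_inj ha (L.nQ t t.2 a ha) (by rw [L.φ_cj t a ha, e, (m 1 _).1 v.2]; simp)
    have h4 := pow_mem hu 4
    refine ⟨⟨⟨a * u ^ 4, mem_centralizer_singleton_iff.2 (Eq.symm (eq_mul_of_mul_inv_eq ?_))⟩,
      mem_subgroupOf.2 (mul_mem ha (L.zQ h4))⟩, Subtype.ext ?_⟩
    · rw [← conj_mul, q, inv_z i h4, mul_assoc, mul_right_inj, mul_inv_eq_iff_eq_mul, ← pow_add, pow_succ',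
        L.Q7 u (L.zQ hu), mul_one]
    · exact (L.φ_mul _ ha _ (L.zQ h4)).trans (by rw [(L.φ_eq _ (L.zQ h4)).2 h4, add_zero, e])

omit i

theorem ex_t (B : Bs G) : ∃ t y : G, orderOf t = 2 ∧ t * B.d * t⁻¹ = B.d⁻¹ ∧ y ∈ B.Q ∧ IsConj B.d y ∧ Commute y t := by
  haveI : Fact (Nat.Prime 7) := ⟨by decide⟩
  obtain ⟨z, z1, z2, z3⟩ := B.exz
  have zz : (z : G) * z = 1 := by rw [← sq, ← z2, pow_orderOf_eq_one]
  have q := B.nQ z z.2 _ B.wQ
  have e : B.φ (z * B.w * (z : G)⁻¹) = -B.e := by rw [B.φ_cj z _ B.wQ, z3, B.we]; rfl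
  obtain ⟨u, hu, e1⟩ := B.φ_inj (inv_mem B.wQ) q (by rw [e, B.φ_inv B.wQ, B.we])
  have md : B.d ∈ closure {B.d, B.w} := subset_closure (by simp)
  have mw : B.w ∈ closure {B.d, B.w} := subset_closure (by simp)
  have d1 : B.d ≠ 1 := fun c => by simpa [c] using B.d7
  obtain ⟨h, h1, h2⟩ := B.hH (B.w * (z * B.w * (z : G)⁻¹)⁻¹)
    (mul_mem mw (inv_mem (e1 ▸ mul_mem (inv_mem mw) (zpowers_le.2 md hu)))) _ md (fun c => by
      have := congrArg B.φ c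
      rw [B.φ_mul _ B.wQ _ (inv_mem q), B.φ_inv q, e, B.we, B.φ_one, neg_neg, ← two_smul (ZMod 7),
        smul_eq_zero_iff_right two_ne] at this
      exact B.li.e0 this) d1
  have hn : h ∈ 𝐍(closure {B.d, B.w}) := (closure_le _).2 (fun x hx => hx.2.1) h1
  refine ⟨h * z * h⁻¹, h * B.d * h⁻¹, by rw [← z2]; exact (MulAut.conj h).orderOf_eq _, ?_,
    (closure_le _).2 (by simp [Set.insert_subset_iff, B.dQ, B.wQ]) ((mem_normalizer_iff.1 hn _).1 md),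
    isConj_iff.2 ⟨h, rfl⟩, ?_⟩
  · generalize (z : G) = z at zz h2
    rw [← h2]
    calc _ = h * (z * B.w * z⁻¹ * (z * z) * B.w⁻¹ * (z * z)⁻¹) * h⁻¹ := by group
      _ = _ := by rw [zz]; group
  · rw [Commute, SemiconjBy, conj_mul, conj_mul, mem_centralizer_singleton_iff.1 z1]

theorem ee0 [Finite G] (B : Bs G) (hK : IsCompositionKProper G)
    (cb : ∀ {y t : G}, IsConj B.d y → orderOf t = 2 → Commute y t → ∃ π : ↥(𝐜(y) ⊓ 𝐜(t)) →* A7,
      Function.Surjective π ∧ ∀ g, π g = 1 ↔ (g : G) ∈ zpowers y ⊔ zpowers t)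
    (xh : Xh 𝐜(B.c) (zpowers B.c)) (orb : ∀ {v : V}, v ≠ 0 → Bp B.M B.e v ∨ Bp B.M (B.φ B.c) v) :
    ∃ (t : G) (ht : t ∈ 𝐜(t)) (E : Subgroup 𝐜(t)), Ce ⟨t, ht⟩ E := by
  obtain ⟨t, y, t2, i, y1, y2, y3⟩ := ex_t B
  have ht : t ∈ 𝐜(t) := mem_centralizer_singleton_iff.2 rfl
  have tt : t * t = 1 := by rw [← sq, ← t2, pow_orderOf_eq_one]
  have d1 : B.d ≠ 1 := fun c => by simpa [c] using B.d7
  have k : ∀ u ∈ zpowers B.d, t * u * t⁻¹ ∈ zpowers B.d := by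
    rintro _ ⟨k, rfl⟩
    rw [← conj_zpow, i]; exact zpow_mem (inv_mem (mem_zpowers _)) k
  have tn : t ∈ 𝐍(zpowers B.d) := mem_normalizer_iff.2 fun u => ⟨k u, fun hu => by
    have := k _ hu
    rwa [show t * (t * u * t⁻¹) * t⁻¹ = t * t * u * (t * t)⁻¹ by group, tt, one_mul, inv_one, mul_one] at this⟩
  have nz := fun a => not_z (L := B.toLo) (t := ⟨t, tn⟩) i (a := a)
  refine ⟨t, ht, B.Q.subgroupOf _, kgroup hK fun c => d1 (nz _ (c.ge trivial) (mem_zpowers _)),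
    by rw [← t2]; exact (orderOf_coe _).symm,
    mem_center_iff.2 fun g => Subtype.ext (mem_centralizer_singleton_iff.1 g.2),
    ⟨⟨⟨fun a b => Subtype.ext (Subtype.ext (commutatorElement_eq_one_iff_mul_comm.1
      (nz _ ⁅a.1, b.1⁆.2 (B.cm a.2 b.2))))⟩⟩, fun a ha => Subtype.ext (B.Q7 _ ha)⟩,
    card_E (L := B.toLo) (t := ⟨t, tn⟩) i (Subtype.ext tt), fun g hg g1 => ?_,
    ⟨y, mem_centralizer_singleton_iff.2 y3⟩, y1, fun c => d1 ?_, tyB ht _ (cb y2 t2 y3)⟩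
  · replace hg : (g : G) ∈ B.Q := hg
    have g0 : B.φ g ≠ 0 := fun c => g1 (Subtype.ext (nz _ g.2 ((B.φ_eq _ hg).1 c)))
    rcases orb g0 with o | o
    · obtain ⟨n, j, -, e⟩ := conj_of B.toLo B.wQ hg g0 (B.we ▸ o)
      obtain ⟨h, -, e'⟩ := B.hH B.d (subset_closure (by simp)) (B.w ^ j) (pow_mem (subset_closure (by simp)) j) d1
        fun c => g1 (Subtype.ext (by rw [← e, c]; simp))
      exact .inl (tyB ht g (cb (isConj_iff.2 ⟨n * h, by rw [← e, ← e']; group⟩) t2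
        (mem_centralizer_singleton_iff.1 g.2)))
    · obtain ⟨n, j, j7, e⟩ := conj_of B.toLo B.cQ hg g0 o
      have o7 : orderOf (n * B.c * n⁻¹) ∣ 7 := orderOf_dvd_of_pow_eq_one (by rw [conj_pow, B.Q7 _ B.cQ]; simp)
      refine .inr (tyA ht g t2 (B.Q7 _ hg) ((xh.cj n).of_eq ?_))
      rw [← e, ← conj_pow]
      exact le_antisymm (zpowers_le.2 (pow_mem (mem_zpowers _) j))
        (zpowers_le.2 (mem_zpowers_pow_iff.2 (Nat.Coprime.coprime_dvd_right o7 j7)))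
  · obtain ⟨n, e⟩ := isConj_iff.1 y2
    simpa [← e] using congrArg Subtype.val c

end EE

end CF.Sv
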