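import Cfsg.Agent.Sv.B

/-! S3024: the normalizer of a regular unipotent element of `GL₄(7)`. -/

set_option autoImplicit false

namespace CF.Sv.LA

open Cfsg Subgroup CF.Loc Module

instance : Fact (Nat.Prime 7) := ⟨by decide⟩

theorem ex_cube {D : End (ZMod 7) V} {e : V} (k : ∀ v, D v = 0 → ∃ a : ZMod 7, v = a • e)
    (h : D ^ 3 = 0) : False := by
  have k1 : finrank (ZMod 7) (LinearMap.ker D) ≤ 1 :=
    (Submodule.finrank_mono (t := Submodule.span _ {e}) fun v hv => by
      obtain ⟨a, rfl⟩ := k v hv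
      exact Submodule.smul_mem _ _ (Submodule.mem_span_singleton_self e)).trans
      ((finrank_span_le_card _).trans (by simp))
  have k2 : ∀ S : Submodule (ZMod 7) V, finrank (ZMod 7) S ≤ finrank (ZMod 7) (S.map D) + 1 := fun S => by
    have := LinearMap.finrank_range_add_finrank_ker (D.domRestrict S)
    rw [LinearMap.range_domRestrict, LinearMap.ker_domRestrict, ← Submodule.finrank_map_subtype_eq S,
      Submodule.map_comap_subtype] at this
    have := Submodule.finrank_mono (inf_le_right : S ⊓ LinearMap.ker D ≤ _)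
    omega
  have a1 := k2 ⊤
  have a2 := k2 (Submodule.map D ⊤)
  have a3 := k2 (Submodule.map D (Submodule.map D ⊤))
  have a4 : Submodule.map D (Submodule.map D (Submodule.map D ⊤)) = ⊥ := by
    rw [eq_bot_iff]
    rintro _ ⟨_, ⟨_, ⟨v, -, rfl⟩, rfl⟩, rfl⟩
    exact congrArg (fun f : End (ZMod 7) V => f v) h
  rw [a4, finrank_bot] at a3
  rw [finrank_top, finrank_fin_fun] at a1
  omega

theorem eig {D T : End (ZMod 7) V} {e : V} (e0 : e ≠ 0) (k : ∀ v, D v = 0 ↔ ∃ a : ZMod 7, v = a • e)
    (h4 : D ^ 4 = 0) (h : ∀ v, T (D v) = (2 : ZMod 7) • D (T v)) (h3 : ∀ v, T (T (T v)) = v)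
    (hd : LinearMap.det T = 1) : T e = e := by
  have h4' : ∀ v, D (D (D (D v))) = 0 := fun v => congrArg (fun f : End (ZMod 7) V => f v) h4
  obtain ⟨μ, hμ⟩ := (k (T e)).1 (by
    have := h e
    rw [(k e).2 ⟨1, (one_smul _ _).symm⟩, map_zero, eq_comm, smul_eq_zero_iff_right two_ne] at this
    exact this)
  have m3 : μ * μ * μ = 1 := by
    have := h3 e
    simp only [hμ, map_smul, smul_smul] at this
    exact smul_left_injective _ e0 (this.trans (one_smul _ e).symm)
  obtain ⟨v, hv⟩ : ∃ v, D (D (D v)) ≠ 0 := by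
    by_contra c
    push Not at c
    exact ex_cube (fun v => (k v).1) (LinearMap.ext c)
  have t3 : ∀ y, D (D (D (T y))) = μ • D (D (D y)) := fun y => by
    obtain ⟨a, ha⟩ := (k _).1 (h4' y)
    have := congrArg T ha
    simp only [h, map_smul, smul_smul, hμ] at this
    rw [show (2 * (2 * 2) : ZMod 7) = 1 from rfl, one_smul] at this
    rw [this, ha, smul_smul, mul_comm]
  obtain ⟨x, hx, x0⟩ : ∃ x, T x = μ • x ∧ D (D (D x)) ≠ 0 := by
    refine ⟨v + (μ * μ) • T v + μ • T (T v), ?_, ?_⟩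
    · simp only [map_add, map_smul, h3, smul_add, smul_smul]
      rw [← mul_assoc, m3, one_smul]; abel
    · simp only [map_add, map_smul, t3, smul_smul]
      rw [← mul_assoc, m3, ← one_smul (ZMod 7) (D (D (D v))), smul_smul, ← add_smul, ← add_smul]
      exact smul_ne_zero (by decide) hv
  have li : LinearIndependent (ZMod 7) ![x, D x, D (D x), D (D (D x))] := by
    refine Fintype.linearIndependent_iff.2 fun g hg => ?_
    simp only [Fin.sum_univ_four, Matrix.cons_val_zero, Matrix.cons_val_one, Matrix.cons_val] at hg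
    have g0 : g 0 = 0 := by simpa [h4', x0] using congrArg (fun y => D (D (D y))) hg
    have g1 : g 1 = 0 := by simpa [h4', x0, g0] using congrArg (fun y => D (D y)) hg
    have g2 : g 2 = 0 := by simpa [h4', x0, g0, g1] using congrArg (fun y => D y) hg
    have g3 : g 3 = 0 := by simpa [x0, g0, g1, g2] using hg
    intro i; fin_cases i <;> assumption
  let b := basisOfLinearIndependentOfCardEqFinrank li (by simp)
  have hb : ∀ i, T (b i) = ![μ, 2 * μ, 2 * (2 * μ), 2 * (2 * (2 * μ))] i • b i := fun i => by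
    rw [coe_basisOfLinearIndependentOfCardEqFinrank]
    fin_cases i <;> simp [h, hx, smul_smul]
  rw [← LinearMap.det_toMatrix b, show LinearMap.toMatrix b b T =
    Matrix.diagonal ![μ, 2 * μ, 2 * (2 * μ), 2 * (2 * (2 * μ))] by
      ext i j
      rw [LinearMap.toMatrix_apply, hb, map_smul, b.repr_self, Matrix.diagonal_apply]
      split_ifs with z <;> simp [z, Finsupp.single_apply, eq_comm], Matrix.det_diagonal] at hd
  simp only [Fin.prod_univ_four, Matrix.cons_val_zero, Matrix.cons_val_one, Matrix.cons_val] at hd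
  rw [hμ, (by decide : ∀ μ : ZMod 7, μ * μ * μ = 1 →
    μ * (2 * μ) * (2 * (2 * μ)) * (2 * (2 * (2 * μ))) = 1 → μ = 1) μ m3 hd, one_smul]

theorem tri {s σ : GV} {e c : V} (s7 : s ^ 7 = 1) (e0 : e ≠ 0)
    (fix : ∀ v, s v = v ↔ ∃ a : ZMod 7, v = a • e) (h3 : σ ^ 3 = 1) (hc : σ * s = s ^ 2 * σ)
    (hd : LinearMap.det σ.toLinearMap = 1) (c2 : ∃ a : ZMod 7, s c - c = a • e) :
    σ e = e ∧ ∃ y : ZMod 7, σ c = (4 : ZMod 7) • c + y • e := by
  let N : End (ZMod 7) V := s.toLinearMap - 1
  have hN : N ^ 7 = 0 := by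
    haveI : CharP (End (ZMod 7) V) 7 := charP_of_injective_algebraMap' (ZMod 7) 7
    rw [sub_pow_char_of_commute _ (Commute.one_right _), one_pow, sub_eq_zero]
    exact (map_pow LinearEquiv.automorphismGroup.toLinearMapMonoidHom s 7).symm.trans
      (congrArg LinearEquiv.toLinearMap s7)
  have h4 : N ^ 4 = 0 := by
    have := End.ker_pow_eq_ker_pow_finrank_of_le (f := N) (m := 7) (by simp)
    rw [hN, finrank_fin_fun, LinearMap.ker_zero] at this
    exact LinearMap.ker_eq_top.1 this.symm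
  have h4' : ∀ v, N (N (N (N v))) = 0 := fun v => congrArg (fun f : End (ZMod 7) V => f v) h4
  have hs : ∀ v, s v = N v + v := fun v => by simp [N]
  have kN : ∀ v, N v = 0 ↔ ∃ a : ZMod 7, v = a • e := fun v => by rw [← fix, hs, add_eq_right]
  have hσ : ∀ v, σ (N v) = (2 : ZMod 7) • N (σ v) + N (N (σ v)) := fun v => by
    have : σ (s v) = s (s (σ v)) := congrArg (fun f : GV => f v) hc
    rw [hs, hs, hs, map_add, map_add] at this
    rw [two_smul]
    linear_combination (norm := abel1) this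
  let D : End (ZMod 7) V := (6 : ZMod 7) • N - (3 : ZMod 7) • N ^ 2 + (2 : ZMod 7) • N ^ 3
  have hD : ∀ v, D v = (6 : ZMod 7) • N v - (3 : ZMod 7) • N (N v) + (2 : ZMod 7) • N (N (N v)) :=
    fun _ => rfl
  have kD : ∀ v, D v = 0 ↔ ∃ a : ZMod 7, v = a • e := fun v => by
    rw [← kN, hD]
    refine ⟨fun z => ?_, fun z => by simp [z]⟩
    have six : (6 : ZMod 7) ≠ 0 := by decide
    have z3 : N (N (N v)) = 0 := by simpa [h4', six] using congrArg (fun y => N (N y)) z
    have z2 : N (N v) = 0 := by simpa [z3, six] using congrArg (fun y => N y) z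
    simpa [z2, six] using z
  have tD : ∀ v, σ (D v) = (2 : ZMod 7) • D (σ v) := fun v => by
    simp only [hD, map_add, map_sub, map_smul, hσ, h4', map_zero]
    ext i
    simp only [Pi.add_apply, Pi.sub_apply, Pi.smul_apply, smul_eq_mul, Pi.zero_apply]
    ring_nf
  have d4 : D ^ 4 = 0 := LinearMap.ext fun v => by
    change D (D (D (D v))) = 0
    simp [hD, h4']
  have he : σ e = e := eig (D := D) (T := σ.toLinearMap) e0 kD d4 tD
    (fun v => congrArg (fun f : GV => f v) h3) hd
  obtain ⟨a, ha⟩ := c2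
  obtain ⟨b, hb⟩ := (kD (D c)).1 (by
    rw [hs, add_sub_cancel_right] at ha
    simp [hD, ha, (kN e).2 ⟨1, (one_smul _ _).symm⟩])
  obtain ⟨y, hy⟩ := (kD (σ c - (4 : ZMod 7) • c)).1 (by
    have := tD c
    rw [hb, map_smul, he, ← hb] at this
    rw [map_sub, map_smul, this, smul_smul, show (4 * 2 : ZMod 7) = 1 from rfl, one_smul, sub_self])
  exact ⟨he, y, by rw [← hy, add_sub_cancel]⟩

end CF.Sv.LA
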