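import Cfsg.Agent.Sv.LA1
import Cfsg.Agent.Sv.LA2

/-! S3024: the orbits of `2.A₇` on `F₇⁴`. -/

set_option autoImplicit false

namespace CF.Sv

open Cfsg Subgroup CF.Loc MulAction

variable {M : Subgroup GV} {π : M →* A7} {s : M} {e c v : V}

namespace LA

theorem mem_N {G : Type*} [Group G] [Finite G] {g x : G} :
    g ∈ 𝐍(zpowers x) ↔ ∃ k : ℕ, g * x * g⁻¹ = x ^ k := by
  refine ⟨fun h => ?_, fun ⟨k, hk⟩ => mem_normalizer_fintype ?_⟩
  · obtain ⟨k, hk⟩ := mem_powers_iff_mem_zpowers.2 ((mem_normalizer_iff.1 h x).1 (mem_zpowers x))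
    exact ⟨k, hk.symm⟩
  · rintro _ ⟨j, rfl⟩
    change g * x ^ j * g⁻¹ ∈ zpowers x
    rw [← conj_zpow, hk]
    exact zpow_mem (pow_mem (mem_zpowers x) k) j

instance act (M : Subgroup GV) : MulAction (M × (ZMod 7)ˣ) V where
  smul x v := (x.2 : ZMod 7) • (x.1 : GV) v
  one_smul v := one_smul (ZMod 7) v
  mul_smul x y v := by
    change ((x.2 : ZMod 7) * y.2) • (x.1 : GV) ((y.1 : GV) v) = (x.2 : ZMod 7) • (x.1 : GV) ((y.2 : ZMod 7) • _)
    rw [map_smul, smul_smul]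

theorem smul_eq (x : M × (ZMod 7)ˣ) (v : V) : x • v = (x.2 : ZMod 7) • (x.1 : GV) v := rfl

theorem mem_orb {u : V} : u ∈ orbit (M × (ZMod 7)ˣ) v ↔ Bp M v u :=
  ⟨fun ⟨x, hx⟩ => ⟨x.1, x.1.2, x.2, x.2.ne_zero, hx.symm⟩,
    fun ⟨g, hg, a, ha, k⟩ => ⟨(⟨g, hg⟩, Units.mk0 a ha), k.symm⟩⟩

/-- The stabilizer of a point, in `A₇`. -/
def AA (π : M →* A7) (v : V) : Subgroup A7 :=
  (stabilizer (M × (ZMod 7)ˣ) v).map (π.comp (MonoidHom.fst _ _))

theorem mem_AA (v0 : v ≠ 0) {g : M} {a : ZMod 7} (k : (g : GV) v = a • v) : π g ∈ AA π v := by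
  have a0 : a ≠ 0 := fun z => v0 (by simpa [z] using k)
  refine ⟨(g, (Units.mk0 a a0)⁻¹), ?_, rfl⟩
  rw [SetLike.mem_coe, mem_stabilizer_iff, smul_eq, k, smul_smul]
  simp [a0]

theorem of_AA {y : A7} (hy : y ∈ AA π v) : ∃ g : M, π g = y ∧ ∃ a : ZMod 7, (g : GV) v = a • v := by
  obtain ⟨x, hx, rfl⟩ := hy
  refine ⟨x.1, rfl, (x.2⁻¹ : (ZMod 7)ˣ), ?_⟩
  conv_rhs => rw [← show (x.2 : ZMod 7) • (x.1 : GV) v = v from hx]
  rw [smul_smul, Units.inv_mul, one_smul]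

theorem pow_eig {g : GV} {a : ZMod 7} (k : g v = a • v) (n : ℕ) : (g ^ n) v = a ^ n • v := by
  induction n with
  | zero => simp
  | succ n ih => rw [pow_succ, LinearEquiv.mul_apply, k, map_smul, ih, smul_smul, pow_succ']

variable (h : Li M π s e)
include h

theorem pi_ng : π ⟨ng, h.neg⟩ = 1 := (h.ker _).2 (.inr rfl)

theorem card_St (v0 : v ≠ 0) : Nat.card (stabilizer (M × (ZMod 7)ˣ) v) = 2 * Nat.card (AA π v) := by
  let f := (π.comp (MonoidHom.fst M (ZMod 7)ˣ)).comp (stabilizer (M × (ZMod 7)ˣ) v).subtype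
  let z : stabilizer (M × (ZMod 7)ˣ) v := ⟨(⟨ng, h.neg⟩, -1), by simp [mem_stabilizer_iff, smul_eq]⟩
  have k : f.ker = zpowers z := by
    refine le_antisymm (fun x hx => ?_) (zpowers_le.2 (pi_ng h))
    have h1 : (x.1.2 : ZMod 7) • (x.1.1 : GV) v = v := x.2
    rcases (h.ker x.1.1).1 hx with k | k <;> rw [k] at h1
    · rw [show x = 1 from Subtype.ext (Prod.ext (Subtype.ext k) (Units.ext
        (smul_left_injective _ v0 (h1.trans (one_smul _ v).symm))))]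
      exact one_mem _
    · rw [show x = z from Subtype.ext (Prod.ext (Subtype.ext k) (Units.ext
        (smul_left_injective _ v0 (by simpa [z, neg_eq_iff_eq_neg] using h1))))]
      exact mem_zpowers _
  have o : orderOf z = 2 := orderOf_eq_prime (by
    rw [pow_two]; exact Subtype.ext (Prod.ext (Subtype.ext ng_mul) (by simp [z])))
    fun k => ng_ne (congrArg (fun t : stabilizer (M × (ZMod 7)ˣ) v => (t.1.1 : GV)) k)
  rw [← card_mul_index f.ker, index_ker, k, Nat.card_zpowers, o, MonoidHom.range_comp, range_subtype, AA]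

theorem card_orb (v0 : v ≠ 0) : (orbit (M × (ZMod 7)ˣ) v).ncard * Nat.card (AA π v) = 15120 := by
  have := Nat.card_congr (orbitProdStabilizerEquivGroup (M × (ZMod 7)ˣ) v)
  rw [Nat.card_prod, Nat.card_prod, card_St h v0, h.card, Nat.card_coe_set_eq,
    show Nat.card (ZMod 7)ˣ = 6 by rw [Nat.card_eq_fintype_card]; rfl] at this
  linarith

theorem odd (v0 : v ≠ 0) : ¬ 2 ∣ Nat.card (AA π v) := fun d => by
  obtain ⟨y, hy⟩ := exists_prime_orderOf_dvd_card' 2 d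
  obtain ⟨g, hg, a, ha⟩ := of_AA y.2
  have h1 : π (g ^ 2) = 1 := by rw [map_pow, hg, ← hy, ← orderOf_coe, pow_orderOf_eq_one]
  rcases (h.ker _).1 h1 with k | k
  · rw [show y = 1 from Subtype.ext (hg.symm.trans (h.sq g (Subtype.ext k))), orderOf_one] at hy
    omega
  · have := pow_eig ha 2
    rw [← coe_pow, k, LinearEquiv.neg_apply, ← neg_one_smul (ZMod 7)] at this
    exact (by decide : ∀ a : ZMod 7, -1 ≠ a ^ 2) a (smul_left_injective _ v0 this)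

theorem lift {g : M} {n : ℕ} (hn : Odd n) (k : π g ^ n = 1) :
    ∃ g' : M, π g' = π g ∧ g' ^ n = 1 ∧ (g' = g ∨ g' = ⟨ng, h.neg⟩ * g) := by
  rcases (h.ker (g ^ n)).1 (by rw [map_pow, k]) with z | z
  · exact ⟨g, rfl, Subtype.ext z, .inl rfl⟩
  refine ⟨_, by rw [map_mul, pi_ng h, one_mul], Subtype.ext ?_, .inr rfl⟩
  obtain ⟨j, rfl⟩ := hn
  rw [coe_pow] at z
  rw [coe_pow, coe_mul, Commute.mul_pow (ng_comm _), z, pow_succ, pow_mul, pow_two, ng_mul]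
  simp [ng_mul]

theorem lift' {y : A7} (hy : y ∈ AA π v) {n : ℕ} (hn : Odd n) (k : y ^ n = 1) :
    ∃ g : M, π g = y ∧ g ^ n = 1 ∧ ∃ a : ZMod 7, (g : GV) v = a • v := by
  obtain ⟨g, rfl, a, ha⟩ := of_AA hy
  obtain ⟨g', h1, h2, rfl | rfl⟩ := lift h hn k
  · exact ⟨_, h1, h2, a, ha⟩
  · exact ⟨_, h1, h2, -a, by simp [ha]⟩

theorem se : (s : GV) e = e := (h.fix e).2 ⟨1, (one_smul _ _).symm⟩

theorem bp_of (v0 : v ≠ 0) (d : 7 ∣ Nat.card (AA π v)) : Bp M e v := by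
  obtain ⟨y, hy⟩ := exists_prime_orderOf_dvd_card' 7 d
  obtain ⟨g, h1, h2, a, ha⟩ := lift' h y.2 (n := 7) (by decide)
    (orderOf_dvd_iff_pow_eq_one.1 ((orderOf_coe y).trans hy).dvd)
  have h3 := pow_eig ha 7
  rw [← coe_pow, h2, ZMod.pow_card, ← ha] at h3
  have h4 : orderOf g = 7 := orderOf_eq_prime h2 fun z => by
    rw [show y = 1 from Subtype.ext (by rw [← h1, z, map_one]; rfl), orderOf_one] at hy
    omega
  have sy : ∀ x : M, orderOf x = 7 → ∃ P : Sylow 7 M, (P : Subgroup M) = zpowers x := fun x hx =>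
    ⟨Sylow.ofCard (zpowers x) (by rw [Nat.card_zpowers, hx, h.card]; decide +kernel), rfl⟩
  obtain ⟨P, hP⟩ := sy g h4
  obtain ⟨Q, hQ⟩ := sy s h.s7
  obtain ⟨k, rfl⟩ := exists_smul_eq M P Q
  have h5 : s ∈ ((k • P : Sylow 7 M) : Subgroup M) := hQ ▸ mem_zpowers s
  rw [Sylow.coe_subgroup_smul, mem_pointwise_smul_iff_inv_smul_mem, hP] at h5
  obtain ⟨j, hj⟩ := mem_powers_iff_mem_zpowers.2 h5
  have h6 : s * k = k * g ^ j := by simp [show g ^ j = _ from hj, mul_assoc]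
  obtain ⟨b, hb⟩ := (h.fix ((k : GV) v)).1 (by
    rw [← LinearEquiv.mul_apply, ← coe_mul, h6, coe_mul, coe_pow, LinearEquiv.mul_apply,
      pow_eig (h3.symm.trans (one_smul _ v).symm), one_pow, one_smul])
  refine ⟨(k⁻¹ : M), (k⁻¹).2, b, fun z => v0 (by simpa [z] using hb), ?_⟩
  rw [← map_smul, ← hb]
  simp

theorem p7 : s ^ 7 = 1 := orderOf_dvd_iff_pow_eq_one.1 h.s7.dvd

theorem ord_s : orderOf (π s) = 7 := orderOf_eq_prime (by rw [← map_pow, p7 h, map_one])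
  fun z => by
    have := h.s7
    rcases (h.ker s).1 z with k | k
    · rw [show s = 1 from Subtype.ext k, orderOf_one] at this; omega
    · have := this ▸ orderOf_dvd_of_pow_eq_one (x := s) (n := 2) (Subtype.ext (by rw [coe_pow, k, pow_two, ng_mul]; rfl))
      omega

theorem nrm {g : M} (hg : π g ∈ 𝐍(zpowers (π s))) : ∃ k < 7, g * s * g⁻¹ = s ^ k := by
  obtain ⟨k, hk⟩ := mem_N.1 hg
  refine ⟨k % 7, Nat.mod_lt _ (by decide), ?_⟩
  have s7 := p7 h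
  rw [← pow_eq_pow_mod k s7, ← mul_inv_eq_one]
  rcases (h.ker (g * s * g⁻¹ * (s ^ k)⁻¹)).1 (by simp [hk]) with z | z
  · exact Subtype.ext z
  have z1 : g * s * g⁻¹ = ⟨ng, h.neg⟩ * s ^ k := mul_inv_eq_iff_eq_mul.1 (Subtype.ext z)
  have z2 := congrArg (fun t : M => ((t ^ 7 : M) : GV)) z1
  simp only [conj_pow, s7, mul_one, mul_inv_cancel, coe_one, coe_pow, coe_mul] at z2
  rw [Commute.mul_pow (ng_comm _), ← pow_mul, mul_comm k, pow_mul, show (s : GV) ^ 7 = 1 from congrArg Subtype.val s7,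
    show ng ^ 7 = (ng * ng) ^ 3 * ng by rw [← pow_two, ← pow_mul, ← pow_succ], ng_mul] at z2
  exact absurd (by simpa using z2.symm) ng_ne

theorem card_e : Nat.card (AA π e) = 21 ∧ (∀ y ∈ AA π e, y ∈ 𝐍(zpowers (π s))) ∧
    ∃ t ∈ AA π e, orderOf t = 3 := by
  obtain ⟨t, ht, hn⟩ := ex3 (ord_s h)
  obtain ⟨g, rfl⟩ := h.sj t
  obtain ⟨k, -, hk⟩ := nrm h (g := g⁻¹) (map_inv π g ▸ inv_mem hn)
  obtain ⟨a, ha⟩ := (h.fix ((g : GV) e)).1 (by
    rw [← LinearEquiv.mul_apply, ← coe_mul, show s * g = g * s ^ k by simp [← hk, mul_assoc], coe_mul,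
      coe_pow, LinearEquiv.mul_apply, pow_eig ((se h).trans (one_smul _ e).symm), one_pow, one_smul])
  have m1 := mem_AA (π := π) h.e0 ha
  have m2 := mem_AA (π := π) h.e0 ((se h).trans (one_smul _ e).symm)
  obtain ⟨h1, h2⟩ := n21 (odd h h.e0) (x := ⟨_, m2⟩) (t := ⟨_, m1⟩) ((orderOf_mk _ _).trans (ord_s h))
    ((orderOf_mk _ _).trans ht) (mem_N.2 ((mem_N.1 hn).imp fun _ z => Subtype.ext z))
  exact ⟨h1, fun y hy => mem_N.2 ((mem_N.1 (h2 ⟨y, hy⟩)).imp fun _ z => congrArg Subtype.val z), _, m1, ht⟩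

theorem det_eq (g : M) : LinearMap.det (g : GV).toLinearMap = 1 := by
  haveI : IsSimpleGroup A7 := alternatingGroup.isSimpleGroup (by simp)
  let f : M →* (ZMod 7)ˣ := LinearEquiv.det.comp M.subtype
  have hf : ∀ g : M, f g = 1 ↔ LinearMap.det (g : GV).toLinearMap = 1 := fun g => by
    rw [← LinearEquiv.coe_det, Units.val_eq_one]; rfl
  have k : π.ker ≤ f.ker := fun g hg => by
    rw [MonoidHom.mem_ker, hf]
    rcases (h.ker g).1 hg with z | z <;> rw [z]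
    · exact map_one _
    · rw [show ng.toLinearMap = (-1 : ZMod 7) • (1 : Module.End (ZMod 7) V) by ext; simp, LinearMap.det_smul]
      simp; rfl
  rcases (f.normal_ker.map π h.sj).eq_bot_or_eq_top with z | z
  · have h1 := card_mul_index f.ker
    have h2 := card_mul_index π.ker
    have h3 : f.ker.index ≤ 6 := index_ker f ▸ (card_le_card_group f.range).trans
      (by rw [Nat.card_eq_fintype_card]; rfl)
    rw [index_ker, MonoidHom.range_eq_top.2 h.sj, card_top, card_A7, h.card,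
      ← le_antisymm ((Subgroup.map_eq_bot_iff _).1 z) k] at h2
    rw [h.card, show Nat.card f.ker = 2 by omega] at h1
    omega
  · obtain ⟨g', h1, h2⟩ : π g ∈ f.ker.map π := z ▸ mem_top _
    rw [← hf, ← MonoidHom.mem_ker, show g = g' * (g'⁻¹ * g) by simp]
    exact mul_mem h1 (k (by simp [MonoidHom.mem_ker, h2]))

theorem t3 (c2 : ∃ a : ZMod 7, (s : GV) c - c = a • e) {g : M} (h3 : g ^ 3 = 1) (h1 : g ≠ 1) {a : ZMod 7}
    (ha : (g : GV) e = a • e) : (g : GV) e = e ∧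
      ∃ y : ZMod 7, (g : GV) c = (4 : ZMod 7) • c + y • e ∨ (g : GV) c = (2 : ZMod 7) • c + y • e := by
  obtain ⟨k, k7, hk⟩ := nrm h ((card_e h).2.1 _ (mem_AA h.e0 ha))
  have s7 : (s : GV) ^ 7 = 1 := congrArg Subtype.val (p7 h)
  have k2 : g ^ 2 * s * (g ^ 2)⁻¹ = s ^ (k * k) := by
    rw [pow_mul, ← hk, conj_pow, ← hk, pow_two]; group
  have k3 : s ^ (k * k * k) = s ^ 1 := by
    rw [mul_comm, pow_mul, ← hk, conj_pow, ← k2, show g * (g ^ 2 * s * (g ^ 2)⁻¹) * g⁻¹ =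
      g ^ 3 * s * (g ^ 3)⁻¹ by group, h3]; simp
  rw [pow_eq_pow_iff_modEq, h.s7] at k3
  rcases (by decide : ∀ k < 7, k * k * k ≡ 1 [MOD 7] → k = 1 ∨ k = 2 ∨ k = 4) k k7 k3 with rfl | rfl | rfl
  · refine absurd ?_ (no_pq (p := 7) (q := 3) (by decide) (by decide) (by decide) (by decide) (by decide)
      (ord_s h) (y := π g) (orderOf_eq_prime (by rw [← map_pow, h3, map_one]) fun z => h1 ?_))
    · exact (Commute.map (mul_inv_eq_iff_eq_mul.1 (hk.trans (pow_one s))) π).symm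
    · have : g ^ 2 = 1 := Subtype.ext (by
        rcases (h.ker g).1 z with z | z <;> simp [z, pow_two, ng_mul])
      rw [pow_succ, this, one_mul] at h3
      exact h3
  · obtain ⟨h4, y, h5⟩ := tri s7 h.e0 h.fix (σ := g) (congrArg Subtype.val h3)
      (congrArg Subtype.val (mul_inv_eq_iff_eq_mul.1 hk)) (det_eq h g) c2
    exact ⟨h4, y, .inl h5⟩
  · rw [show s ^ (4 * 4) = s ^ 2 by rw [pow_eq_pow_iff_modEq, h.s7]; rfl] at k2
    obtain ⟨h4, y, h5⟩ := tri s7 h.e0 h.fix (σ := (g ^ 2 : M)) (by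
      rw [← coe_pow, ← pow_mul, mul_comm, pow_mul, h3, one_pow]; rfl)
      (congrArg Subtype.val (mul_inv_eq_iff_eq_mul.1 k2)) (det_eq h _) c2
    have h6 : ∀ v, (g : GV) v = ((g ^ 2 : M) : GV) (((g ^ 2 : M) : GV) v) := fun v => by
      rw [← LinearEquiv.mul_apply, ← coe_mul, ← pow_add, pow_succ, h3, one_mul]
    refine ⟨by rw [h6, h4, h4], 4 * y + y, .inr ?_⟩
    rw [h6, h5, map_add, map_smul, map_smul, h5, h4, smul_add, smul_smul, smul_smul, add_smul, add_assoc]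
    rfl

variable (c1 : ∀ a : ZMod 7, c ≠ a • e) (c2 : ∃ a : ZMod 7, (s : GV) c - c = a • e)
include c1 c2

theorem shift (y : ZMod 7) : ∃ g : M, (g : GV) c = c + y • e := by
  obtain ⟨a, ha⟩ := c2
  have a0 : a ≠ 0 := fun z => by
    obtain ⟨b, hb⟩ := (h.fix c).1 (by simpa [z, sub_eq_zero] using ha)
    exact c1 b hb
  have k : ∀ j : ℕ, ((s ^ j : M) : GV) c = c + ((j : ZMod 7) * a) • e := fun j => by
    induction j with
    | zero => simp
    | succ j ih =>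
      rw [pow_succ', coe_mul, LinearEquiv.mul_apply, ih, map_add, map_smul, se h, sub_eq_iff_eq_add'.1 ha,
        Nat.cast_succ, add_mul, one_mul, add_smul]
      abel
  exact ⟨_, by rw [k (y / a).val, ZMod.natCast_zmod_val, div_mul_cancel₀ _ a0]⟩

theorem ex_eig : ∃ g : M, g ^ 3 = 1 ∧ ((g : GV) c = (4 : ZMod 7) • c ∨ (g : GV) c = (2 : ZMod 7) • c) := by
  obtain ⟨-, -, t, ht, o⟩ := card_e h
  obtain ⟨g, rfl, h3, a, ha⟩ := lift' h ht (n := 3) (by decide) (o ▸ pow_orderOf_eq_one t)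
  obtain ⟨h4, y, h5⟩ := t3 h c2 h3 (fun z => by rw [z, map_one, orderOf_one] at o; omega) ha
  have k : ∀ b x : ZMod 7, (g : GV) c = b • c + y • e → y + x = b * x →
      ∃ g : M, g ^ 3 = 1 ∧ (g : GV) c = b • c := fun b x h5 h6 => by
    obtain ⟨u, hu⟩ := shift h c1 c2 x
    refine ⟨u⁻¹ * g * u⁻¹⁻¹, by rw [conj_pow, h3]; simp, ?_⟩
    rw [inv_inv, coe_mul, coe_mul, LinearEquiv.mul_apply, LinearEquiv.mul_apply, hu, map_add (g : GV), map_smul,
      h4, h5, add_assoc, ← add_smul, h6, ← smul_smul, ← smul_add, ← hu, map_smul]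
    simp
  rcases h5 with h5 | h5
  · exact (k 4 (5 * y) h5 ((by decide : ∀ y : ZMod 7, y + 5 * y = 4 * (5 * y)) y)).imp fun _ z => ⟨z.1, .inl z.2⟩
  · exact (k 2 y h5 (two_mul y).symm).imp fun _ z => ⟨z.1, .inr z.2⟩

theorem not_bp : ¬ Bp M e c := by
  rintro ⟨u, hu, a, a0, k⟩
  obtain ⟨g, h3, h4⟩ := ex_eig h c1 c2
  obtain ⟨b, b1, hb⟩ : ∃ b : ZMod 7, b ≠ 1 ∧ (g : GV) c = b • c :=
    h4.elim (fun z => ⟨4, by decide, z⟩) fun z => ⟨2, by decide, z⟩
  have h5 : (((⟨u, hu⟩ : M)⁻¹ * g * (⟨u, hu⟩ : M)⁻¹⁻¹ : M) : GV) e = b • e := by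
    rw [k, map_smul, smul_comm] at hb
    rw [inv_inv, coe_mul, coe_mul, LinearEquiv.mul_apply, LinearEquiv.mul_apply,
      smul_right_injective V a0 hb, map_smul]
    simp
  have h6 : b • e = (1 : ZMod 7) • e := by
    rw [← h5, one_smul]
    by_cases z : (⟨u, hu⟩ : M)⁻¹ * g * (⟨u, hu⟩ : M)⁻¹⁻¹ = 1
    · rw [z]; rfl
    · exact (t3 h c2 (by rw [conj_pow, h3]; simp) z h5).1
  exact b1 (smul_left_injective _ h.e0 h6)

omit c1 c2 in
theorem big (v0 : v ≠ 0) (hv : ¬ Bp M e v) : Nat.card (AA π v) = 9 ∧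
    ∀ u, u ≠ 0 → ¬ Bp M e u → Bp M v u := by
  have h1 := card_orb h h.e0
  have h2 := card_orb h v0
  have h3 := le_nine (odd h v0) fun d => hv (bp_of h v0 d)
  rw [(card_e h).1] at h1
  have z : ∀ w : V, w ≠ 0 → 0 ∉ orbit (M × (ZMod 7)ˣ) w := fun w w0 ⟨x, hx⟩ =>
    w0 (by simpa [smul_eq] using hx)
  have h4 : (insert 0 (orbit (M × (ZMod 7)ˣ) e))ᶜ.ncard = 1680 := by
    have := Set.ncard_add_ncard_compl (insert 0 (orbit (M × (ZMod 7)ˣ) e))
    rw [Set.ncard_insert_of_notMem (z e h.e0), card_V] at this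
    omega
  have h5 : orbit (M × (ZMod 7)ˣ) v ⊆ (insert 0 (orbit (M × (ZMod 7)ˣ) e))ᶜ := by
    rintro u hu (rfl | k)
    · exact z v v0 hu
    · exact hv (mem_orb.1 ((orbit_eq_iff.2 k).symm ▸ (orbit_eq_iff.2 hu).symm ▸ mem_orbit_self v))
  have h6 := Set.ncard_le_ncard h5
  have h7 : Nat.card (AA π v) = 9 := by nlinarith
  refine ⟨h7, fun u u0 hu => mem_orb.1 ((Set.eq_of_subset_of_ncard_le h5 (by rw [h7] at h2; omega)).ge ?_)⟩
  rintro (k | k)
  exacts [u0 k, hu (mem_orb.1 k)]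

omit h c2 in
theorem c0 : c ≠ 0 := fun z => c1 0 (by simp [z])

end LA

open LA

theorem Li.span (h : Li M π s e) (W : Submodule (ZMod 7) V) (hW : ∀ g ∈ M, g e ∈ W) : W = ⊤ := by
  by_contra k
  have h1 := card_orb h h.e0
  rw [(card_e h).1] at h1
  have h2 : (orbit (M × (ZMod 7)ˣ) e).ncard ≤ (W : Set V).ncard := Set.ncard_le_ncard (by
    rintro _ ⟨x, rfl⟩
    exact W.smul_mem _ (hW _ x.1.2))
  have h3 := Submodule.finrank_lt k
  rw [← Nat.card_coe_set_eq (W : Set V), SetLike.coe_sort_coe, Module.natCard_eq_pow_finrank (K := ZMod 7),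
    Nat.card_zmod] at h2
  rw [Module.finrank_fin_fun] at h3
  have := Nat.pow_le_pow_right (by decide : 0 < 7) (Nat.le_of_lt_succ h3)
  omega

theorem Li.orb (h : Li M π s e) (c1 : ∀ a : ZMod 7, c ≠ a • e) (c2 : ∃ a : ZMod 7, (s : GV) c - c = a • e)
    {v : V} (hv : v ≠ 0) : Bp M e v ∨ Bp M c v :=
  or_iff_not_imp_left.2 ((big h (c0 c1) (not_bp h c1 c2)).2 v hv)

theorem Li.stab (h : Li M π s e) (c1 : ∀ a : ZMod 7, c ≠ a • e) (c2 : ∃ a : ZMod 7, (s : GV) c - c = a • e) :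
    Nat.card (MulAction.stabilizer M c) = 3 := by
  let f := (MonoidHom.snd M (ZMod 7)ˣ).comp (stabilizer (M × (ZMod 7)ˣ) c).subtype
  have h1 := card_mul_index f.ker
  have h2 : Nat.card f.ker = Nat.card (MulAction.stabilizer M c) := Nat.card_congr
    ⟨fun x => ⟨x.1.1.1, by
        have a : (x.1.1.2 : ZMod 7) • (x.1.1.1 : GV) c = c := x.1.2
        rwa [show x.1.1.2 = 1 from x.2, Units.val_one, one_smul] at a⟩,
      fun g => ⟨⟨(g, 1), (one_smul (ZMod 7) _).trans g.2⟩, rfl⟩,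
      fun x => Subtype.ext (Subtype.ext (Prod.ext rfl (show x.1.1.2 = 1 from x.2).symm)), fun _ => rfl⟩
  have m : ∀ (g : M) (a : (ZMod 7)ˣ), (g : GV) c = (a : ZMod 7) • c → a ∈ f.range := fun g a k =>
    inv_mem_iff.1 ⟨⟨(g, a⁻¹), by
      rw [mem_stabilizer_iff, smul_eq, k, smul_smul, Units.inv_mul, one_smul]⟩, rfl⟩
  have m1 := m ⟨ng, h.neg⟩ (-1) (by simp)
  obtain ⟨g, -, hg⟩ := ex_eig h c1 c2
  have m2 : Units.mkOfMulEqOne (2 : ZMod 7) 4 rfl ∈ f.range := hg.elim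
    (fun z => inv_mem_iff.1 (m g _ z)) fun z => m g _ z
  have h3 : f.range = ⊤ := top_unique fun a _ => by
    obtain ⟨k, rfl⟩ := (by decide : ∀ a : (ZMod 7)ˣ, ∃ k : Fin 6,
      a = (-1 * Units.mkOfMulEqOne (2 : ZMod 7) 4 rfl) ^ k.1) a
    exact pow_mem (mul_mem m1 m2) _
  rw [index_ker, h3, card_top, card_St h (c0 c1), (big h (c0 c1) (not_bp h c1 c2)).1, h2,
    show Nat.card (ZMod 7)ˣ = 6 by rw [Nat.card_eq_fintype_card]; rfl] at h1
  omega

theorem Li.sig (h : Li M π s e) (c1 : ∀ a : ZMod 7, c ≠ a • e) (c2 : ∃ a : ZMod 7, (s : GV) c - c = a • e) :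
    ∃ g ∈ M, g c = c ∧ ∀ a b : ZMod 7, g e ≠ a • e + b • c := by
  haveI : Fact (Nat.Prime 3) := ⟨by decide⟩
  obtain ⟨g, hg⟩ := exists_prime_orderOf_dvd_card' 3 (h.stab c1 c2).symm.dvd
  have h0 : (g.1 : GV) c = c := g.2
  refine ⟨g.1, g.1.2, h0, fun a b k => ?_⟩
  by_cases b0 : b = 0
  · obtain ⟨-, y, z | z⟩ := t3 h c2 (g := g.1) (by rw [← hg, ← orderOf_coe, pow_orderOf_eq_one])
      (fun z => by rw [← orderOf_coe, z, orderOf_one] at hg; omega) (a := a) (by simpa [b0] using k)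
    · refine c1 (2 * y) ?_
      rw [h0] at z
      ext i
      have := congrFun z i
      simp only [Pi.add_apply, Pi.smul_apply, smul_eq_mul] at this ⊢
      linear_combination (exp := 1) 2 * this + (c i) * (by decide : (7 : ZMod 7) = 0)
    · refine c1 (-y) ?_
      rw [h0, two_smul, add_assoc, left_eq_add, add_eq_zero_iff_eq_neg] at z
      rw [z, neg_smul]
  · obtain ⟨u, hu⟩ := shift h c1 c2 (a / b)
    refine not_bp h c1 c2 ⟨(u⁻¹ * g.1 : M), (u⁻¹ * g.1).2, b⁻¹, inv_ne_zero b0, ?_⟩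
    rw [coe_mul, LinearEquiv.mul_apply, k, show a • e + b • c = b • (u : GV) c by
      rw [hu, smul_add, smul_smul, mul_div_cancel₀ _ b0, add_comm], map_smul, smul_smul, inv_mul_cancel₀ b0]
    simp

end CF.Sv
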