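import Cfsg.Agent.Sv.B0
import Cfsg.Agent.Sv.LA
import Cfsg.Agent.Loc.Syl
import Cfsg.Agent.S0058

/-! S3024: centralizers of an involution and a `7B`-element; simplicity of the group. -/

set_option autoImplicit false
set_option linter.style.haveILetI false
set_option linter.unusedSectionVars false

namespace CF.Sv

open Cfsg Subgroup CF.Loc
open scoped commutatorElement

variable {G : Type*} [Group G] [Finite G]

namespace GS

variable (L : Lo G)

/-- the action of `C(d)` on `V` -/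
def rK : 𝐜(L.d) →* GV := L.ρ.comp (inclusion L.cN)

theorem rK_mem (g : 𝐜(L.d)) : rK L g ∈ L.M := (L.mem_M _).2 ⟨_, g.2, rfl⟩

/-- the projection of `C(d)` onto `A₇` -/
def fK : 𝐜(L.d) →* A7 := L.π.comp ((rK L).codRestrict L.M (rK_mem L))

theorem rK_one (g : 𝐜(L.d)) : rK L g = 1 ↔ (g : G) ∈ L.Q := L.ker _

theorem fK_one (g : 𝐜(L.d)) : fK L g = 1 ↔ rK L g = 1 ∨ rK L g = ng := L.li.ker _

theorem rK_sj {m : GV} (h : m ∈ L.M) : ∃ g, rK L g = m :=
  let ⟨g, hg, e⟩ := (L.mem_M m).1 h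
  ⟨⟨g, hg⟩, e⟩

theorem fK_sj : Function.Surjective (fK L) := fun a => by
  obtain ⟨m, rfl⟩ := L.li.sj a
  obtain ⟨g, e⟩ := rK_sj L m.2
  exact ⟨g, congrArg L.π (Subtype.ext e)⟩

theorem sq_ng {g : 𝐜(L.d)} (h : fK L g ^ 2 = 1) (n : fK L g ≠ 1) : rK L (g ^ 2) = ng :=
  ((fK_one L _).1 ((map_pow _ _ _).trans h)).resolve_left fun e =>
    n (L.li.sq _ (Subtype.ext ((map_pow (rK L) g 2).symm.trans e)))

theorem cb0 {t : G} (ht : orderOf t = 2) (c : t ∈ 𝐜(L.d)) : ∃ π : ↥(𝐜(L.d) ⊓ 𝐜(t)) →* A7, Function.Surjective π ∧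
    ∀ g, π g = 1 ↔ (g : G) ∈ zpowers L.d ⊔ zpowers t := by
  have t2 : t * t = 1 := by rw [← pow_two, ← ht, pow_orderOf_eq_one]
  have f1 : fK L ⟨t, c⟩ = 1 := L.li.sq _ (Subtype.ext ((map_pow (rK L) _ 2).symm.trans
    ((congrArg _ (Subtype.ext ((pow_two t).trans t2))).trans (map_one _))))
  have r : rK L ⟨t, c⟩ = ng := ((fK_one L _).1 f1).resolve_left fun e =>
    absurd (ht ▸ orderOf_dvd_of_pow_eq_one (L.Q7 t ((rK_one L _).1 e))) (by decide)
  have k : ∀ g ∈ L.Q, g ∈ 𝐜(t) → g ∈ zpowers L.d := fun g hg h => (L.φ_eq g hg).1 (by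
    have := (L.φ_cj ⟨t, L.cN c⟩ g hg).trans (congrArg (fun m : GV => m (L.φ g)) r)
    rw [← mem_centralizer_singleton_iff.1 h, mul_inv_cancel_right, LinearEquiv.neg_apply, eq_neg_iff_add_eq_zero,
      ← two_smul (ZMod 7)] at this
    exact (smul_eq_zero.1 this).resolve_left two_ne)
  refine ⟨(fK L).comp (inclusion inf_le_left), fun a => ?_, fun g => ⟨fun h => ?_, fun h => ?_⟩⟩
  · obtain ⟨⟨x, hx⟩, rfl⟩ := fK_sj L a
    have q : x * t * x⁻¹ * t ∈ L.Q := (rK_one L (⟨x, hx⟩ * ⟨t, c⟩ * ⟨x, hx⟩⁻¹ * ⟨t, c⟩)).1 (by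
      rw [map_mul, map_mul, map_mul, r, ← ng_comm (rK L ⟨x, hx⟩), map_inv, mul_inv_cancel_right, ng_mul])
    obtain ⟨a, ha⟩ : ∃ a, a = x * t * x⁻¹ * t := ⟨_, rfl⟩
    rw [← ha] at q
    have i : t * a = a⁻¹ * t := by
      rw [eq_inv_mul_iff_mul_eq, ha]
      calc _ = x * t * x⁻¹ * (t * t) * x * t * x⁻¹ * t := by group
        _ = x * (t * t) * x⁻¹ * t := by rw [t2, mul_one, ← t2]; group
        _ = t := by rw [t2, mul_one, mul_inv_cancel, one_mul]
    have j : t * a ^ 4 = (a ^ 4)⁻¹ * t := by rw [← inv_pow]; exact (SemiconjBy.pow_right i 4).eq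
    have m := pow_mem (L.Qc q) 3
    refine ⟨⟨a ^ 3 * x, mul_mem m hx, mem_centralizer_singleton_iff.2 ?_⟩, ?_⟩
    · have e : a ^ 3 = (a ^ 4)⁻¹ := eq_inv_of_mul_eq_one_left (by rw [← pow_add]; exact L.Q7 a q)
      have e2 : x * t = a * t * x := by rw [ha, mul_assoc _ t t, t2]; group
      rw [mul_assoc, e2, ← mul_assoc, ← mul_assoc, ← mul_assoc, ← pow_succ, e, ← eq_mul_inv_of_mul_eq (show
        a ^ 4 * t * a ^ 4 = t by rw [mul_assoc, j, mul_inv_cancel_left])]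
    · show fK L (⟨a ^ 3, m⟩ * ⟨x, hx⟩) = _
      rw [map_mul, (fK_one L _).2 (.inl ((rK_one L _).2 (pow_mem q 3))), one_mul]
  · rcases (fK_one L _).1 h with e | e
    · exact mem_sup_left (k _ ((rK_one L _).1 e) g.2.2)
    · have := k (g * t) ((rK_one L (_ * ⟨t, c⟩)).1 (by rw [map_mul, e, r, ng_mul]))
        (mul_mem g.2.2 (mem_centralizer_singleton_iff.2 rfl))
      simpa using mul_mem (mem_sup_left this) (inv_mem (mem_sup_right (mem_zpowers t)))
  · obtain ⟨x, hx, e⟩ := (sup_le (zpowers_le.2 ⟨⟨_, L.Qc L.dQ⟩, (fK_one L _).2 (.inl ((rK_one L _).2 L.dQ)), rfl⟩)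
      (zpowers_le.2 ⟨_, f1, rfl⟩) : _ ≤ (fK L).ker.map (Subgroup.subtype _)) h
    exact (congrArg (fK L) (Subtype.ext e.symm)).trans hx

theorem simple0 (B : Bs G) (span : ∀ W : Submodule (ZMod 7) V, (∀ g ∈ B.M, g B.e ∈ W) → W = ⊤) : IsSimpleGroup G := by
  have d1 : B.d ≠ 1 := fun e => by simpa [e] using B.d7
  have wd : B.w ∉ zpowers B.d := fun h => B.li.e0 (B.we.symm.trans ((B.φ_eq _ B.wQ).2 h))
  have zq : closure {B.d, B.w} ≤ B.Q := (closure_le _).2 (by rintro _ (rfl | rfl); exacts [B.dQ, B.wQ])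
  have dz : B.d ∈ closure {B.d, B.w} := subset_closure (by simp)
  have q7 : IsPGroup 7 B.Q := .of_card B.toLo.cardQ
  haveI : Nontrivial G := ⟨_, _, d1⟩
  refine ⟨fun N hN => or_iff_not_imp_left.2 fun n0 => ?_⟩
  by_cases h7 : 7 ∣ Nat.card N
  swap
  · have co : ∀ X : Subgroup G, X ≤ B.Q → (Nat.card X).Coprime (Nat.card N) := fun X h =>
      (B.toLo.cardQ ▸ ((Nat.Prime.coprime_iff_not_dvd fact7.out).2 h7).pow_left 5).coprime_dvd_left (card_dvd_of_le h)
    have i : ∀ x ∈ B.Q, x ∈ N → x = 1 := fun x a b => disjoint_def.1 (disjoint_of_coprime_natCard (co _ le_rfl)) a b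
    haveI : IsMulCommutative (closure {B.d, B.w}) := isMulCommutative_closure (by
      have := mem_centralizer_singleton_iff.1 (B.Qc B.wQ)
      rintro _ (rfl | rfl) _ (rfl | rfl)
      exacts [rfl, this.symm, this, rfl])
    refine absurd ((Agent.S0058.result (closure {B.d, B.w}) N (fun h => wd ?_) (by simp [normalizer_eq_top])
      (co _ zq)).symm.trans (iSup₂_eq_bot.2 fun u hu => eq_bot_iff.2 fun x hx => ?_)) n0
    · obtain ⟨u, hu⟩ := h.exists_generator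
      refine (eq_of_le_of_card_ge (zpowers_le.2 dz) ?_).ge (subset_closure (by simp))
      rw [← orderOf_eq_card_of_forall_mem_zpowers hu, B.toLo.cardZ]
      exact orderOf_le_of_pow_eq_one (by decide) (Subtype.ext (B.Q7 _ (zq u.2)))
    · obtain ⟨h, -, e⟩ := B.hH _ dz u hu.1 d1 hu.2
      have m := hN.conj_mem' x hx.1 h
      have c : h⁻¹ * x * h ∈ 𝐜(B.d) := mem_centralizer_singleton_iff.2 (by
        have := mem_centralizer_singleton_iff.1 hx.2
        rw [← e] at this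
        calc _ = h⁻¹ * (x * (h * B.d * h⁻¹)) * h := by group
          _ = _ := by rw [this]; group)
      have := i _ (B.toLo.zQ (B.toLo.cQ_le fun a ha => ?_)) m
      · simpa [mul_inv_eq_one, inv_mul_eq_iff_eq_mul, mul_assoc] using this
      · have := i _ (mul_mem (B.nQ _ (B.toLo.cN c) a ha) (inv_mem ha)) (by
          simpa only [mul_assoc] using mul_mem m (hN.conj_mem _ (inv_mem m) a))
        rw [mul_inv_eq_one, mul_inv_eq_iff_eq_mul] at this
        exact this.symm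
  obtain ⟨S, QS⟩ := q7.exists_le_sylow
  have cS : 𝐂((S : Subgroup G)) ≤ zpowers B.d := (centralizer_le QS).trans B.toLo.cQ_le
  obtain ⟨x, hx, o⟩ := exists_orderOf_eq_of_dvd_card h7
  obtain ⟨T, hT⟩ := (isPGroup_zpowers_of_orderOf (k := 1) (p := 7) o).exists_le_sylow
  obtain ⟨g, rfl⟩ := MulAction.exists_smul_eq G S T
  obtain ⟨⟨z, ⟨zN, _⟩, zS⟩, z1⟩ := ne_bot_iff_exists_ne_one.1 (inf_centralizer_ne_bot (Q := N ⊓ S) (S.2.to_inf_right) S.2
    (fun s hs => mem_normalizer_of_conj_mem fun y hy => ⟨hN.conj_mem y hy.1 s, S.1.mul_mem (mul_mem hs hy.2) (inv_mem hs)⟩)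
    fun e => by
      have := mem_bot.1 (e.le ⟨hN.conj_mem' x hx g, mem_cj.1 (hT (mem_zpowers x))⟩)
      rw [mul_assoc, inv_mul_eq_one, eq_comm, mul_eq_right] at this
      simp [this] at o)
  have zd := (B0.eq_zp B.toLo.cardZ (cS zS) fun e => z1 (Subtype.ext e)).ge (mem_zpowers _)
  have dN : B.d ∈ N := zpowers_le.2 zN zd
  have wN : B.w ∈ N := by
    obtain ⟨h, -, e⟩ := B.hH _ dz B.w (subset_closure (by simp)) d1 fun e => wd (e ▸ one_mem _)
    exact e ▸ hN.conj_mem _ dN h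
  have QN : B.Q ≤ N := fun a ha => by
    let W : Submodule (ZMod 7) V := AddSubgroup.toZModSubmodule 7
      (((N.subgroupOf B.Q).map B.toLo.φh).toAddSubgroup')
    obtain ⟨b, hb, e⟩ := (span W fun m hm => by
      obtain ⟨k, -, rfl⟩ := (B.mem_M m).1 hm
      exact ⟨⟨_, B.nQ _ k.2 _ B.wQ⟩, hN.conj_mem _ wN k,
        congrArg Multiplicative.ofAdd ((B.φ_cj k _ B.wQ).trans (by rw [B.we]))⟩).ge (Submodule.mem_top (x := B.φ a))
    obtain ⟨u, hu, rfl⟩ := B.toLo.φ_inj b.2 ha (congrArg Multiplicative.toAdd e)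
    exact mul_mem hb (zpowers_le.2 dN hu)
  have KN : 𝐜(B.d) ≤ N := by
    obtain ⟨a, ha, y, c, n⟩ := B.hx
    haveI : IsSimpleGroup A7 := alternatingGroup.isSimpleGroup (by simp)
    have t := ((hN.subgroupOf 𝐜(B.d)).map _ (fK_sj B.toLo)).eq_bot_or_eq_top.resolve_left fun e => by
      rcases (fK_one _ _).1 (mem_bot.1 (e.le ⟨⟨_, c⟩, hN.conj_mem a (QN ha) y, rfl⟩)) with e | e
      · exact n ((rK_one _ _).1 e)
      · have := congrArg (· ^ 7) e
        simp only [← map_pow] at this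
        rw [show (⟨_, c⟩ : 𝐜(B.d)) ^ 7 = 1 from Subtype.ext (by simp [conj_pow, B.Q7 a ha]), map_one] at this
        exact ng_ne ((show ng ^ (2 * 3 + 1) = ng by rw [pow_succ, pow_mul, pow_two, ng_mul, one_pow, one_mul]).symm.trans
          this.symm)
    haveI : Fact (Nat.Prime 2) := ⟨by decide⟩
    obtain ⟨τ, o⟩ := exists_prime_orderOf_dvd_card' (G := A7) 2 (by rw [card_A7]; decide)
    obtain ⟨s, hs, rfl⟩ := t.ge (mem_top τ)
    have r := sq_ng _ (o ▸ pow_orderOf_eq_one _) fun e => by simp [e] at o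
    intro k hk
    obtain ⟨k', h, e⟩ := t.ge (mem_top (fK _ ⟨k, hk⟩))
    rcases (fK_one _ (k'⁻¹ * ⟨k, hk⟩)).1 (by rw [map_mul, map_inv, e, inv_mul_cancel]) with e | e
    · simpa using N.mul_mem h (QN ((rK_one _ _).1 e))
    · have : (k' : G)⁻¹ * k * ((s : G) ^ 2)⁻¹ ∈ N := QN ((rK_one _ (k'⁻¹ * ⟨k, hk⟩ * (s ^ 2)⁻¹)).1 (by
        rw [map_mul, map_inv, e, r, mul_inv_cancel]))
      simpa using N.mul_mem h (N.mul_mem this (N.pow_mem hs 2))
  have pN : ∀ x : G, P7 x → x ∈ N := fun x ⟨k, e⟩ => by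
    have c : (7 ^ k).Coprime N.index := ((Nat.Prime.coprime_iff_not_dvd fact7.out).2 fun h => B.o7 (by
      rw [← card_mul_index N, pow_succ]
      exact Nat.mul_dvd_mul ((show 7 ^ 6 ∣ _ by rw [B.toLo.cardK]; decide).trans (card_dvd_of_le KN)) h)).pow_left k
    exact (QuotientGroup.eq_one_iff x).1 (orderOf_eq_one_iff.1 (Nat.eq_one_of_dvd_coprimes c
      (orderOf_dvd_of_pow_eq_one (by rw [← QuotientGroup.mk_pow, e]; rfl)) (orderOf_dvd_natCard _)))
  rw [eq_top_iff, ← S.normalizer_sup_eq_top' (N := N) fun x hx => pN x (isPGroup_iff_forall.1 S.2 x hx), sup_le_iff]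
  refine ⟨fun n hn => ?_, le_rfl⟩
  have m : n * B.d * n⁻¹ ∈ zpowers B.d := cS fun s hs => by
    have := zpowers_le.2 zS zd _ ((mem_normalizer_iff''.1 hn s).1 hs)
    calc _ = n * (n⁻¹ * s * n * B.d) * n⁻¹ := by group
      _ = _ := by rw [this]; group
  obtain ⟨h, hh, e⟩ := B.hH _ dz _ (zpowers_le.2 dz m) d1 (by simpa using d1)
  have hN := (closure_le N).2 (fun x hx => pN x hx.2.2) hh
  simpa using mul_mem hN (KN (x := h⁻¹ * n) (mem_centralizer_singleton_iff.2 (by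
    calc _ = h⁻¹ * (n * B.d * n⁻¹) * n := by group
      _ = _ := by rw [← e]; group)))

end GS

theorem Bs.simple (B : Bs G) : IsSimpleGroup G := GS.simple0 B B.li.span

theorem Lo.cb (L : Lo G) {y t : G} (hy : IsConj L.d y) (ht : orderOf t = 2) (c : Commute y t) :
    ∃ π : ↥(𝐜(y) ⊓ 𝐜(t)) →* A7, Function.Surjective π ∧ ∀ g, π g = 1 ↔ (g : G) ∈ zpowers y ⊔ zpowers t := by
  obtain ⟨g, rfl⟩ := isConj_iff.1 hy
  obtain ⟨t, rfl⟩ : ∃ s, t = g * s * g⁻¹ := ⟨g⁻¹ * t * g, by group⟩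
  obtain ⟨π, s, k⟩ := GS.cb0 L (t := t) ((orderOf_injective (MulAut.conj g).toMonoidHom (MulAut.conj g).injective t).symm.trans ht)
    (mem_centralizer_singleton_iff.2 ((MulAut.conj g).injective (by rw [map_mul, map_mul]; exact c.symm)))
  rw [← cj_centralizer_singleton, ← cj_centralizer_singleton, ← cj_inf, ← cj_zpowers, ← cj_zpowers, ← cj_sup]
  let e := (𝐜(L.d) ⊓ 𝐜(t)).equivMapOfInjective (MulAut.conj g).toMonoidHom (MulAut.conj g).injective
  refine ⟨π.comp e.symm.toMonoidHom, s.comp e.symm.surjective, fun x => ?_⟩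
  obtain ⟨x, rfl⟩ := e.surjective x
  rw [MonoidHom.comp_apply, MulEquiv.coe_toMonoidHom, e.symm_apply_apply, k]
  exact conj_mem_cj_iff.symm

end CF.Sv
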