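import Cfsg.Agent.Sv.B
import Cfsg.Agent.BN.BaN
import Cfsg.Agent.Chev.LTA

/-! No group of Lie type in characteristic `r ≠ 7` has an element `y` of order `7` with `C(y) / ⟨y⟩ = A₇`. -/

set_option autoImplicit false
set_option linter.style.haveILetI false

namespace CF.Sv

namespace KL

section
open Subgroup Equiv

/-- a product of two transpositions -/
def sw (a b c d : Fin 7) (h : a ≠ b ∧ c ≠ d := by decide) : A7 :=
  ⟨swap a b * swap c d, by simp [Perm.mem_alternatingGroup, h]⟩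

/-- the elements `a ^ i * b ^ j` -/
def ls (a b : A7) (m n : ℕ) : List A7 := (List.range m).flatMap fun i => (List.range n).map fun j => a ^ i * b ^ j

/-- `l` lists a Sylow subgroup that meets a conjugate inside a point stabilizer trivially -/
def ok (r k : ℕ) (l : List A7) (g : A7) : Bool := 1 ∈ l && (l.all fun x => x⁻¹ ∈ l && l.all (x * · ∈ l)) &&
  l.Nodup && l.length = r ^ k && ¬ r ^ (k + 1) ∣ 2520 && g.1 6 = 6 &&
    l.all fun x => x.1 6 = 6 && (g * x * g⁻¹ ∈ l → x = 1)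

theorem key {r k : ℕ} [Fact r.Prime] {l : List A7} {g : A7} (h : ok r k l g = true)
    {P : Subgroup A7} (hP : IsPGroup r P) :
    ∃ (g : A7) (i : Fin 7), g.1 i = i ∧ ∀ x ∈ P, x.1 i = i ∧ (g * x * g⁻¹ ∈ P → x = 1) := by
  simp only [ok, Bool.and_eq_true, List.all_eq_true, decide_eq_true_eq] at h
  obtain ⟨⟨⟨⟨⟨⟨h1, h2⟩, h3⟩, h4⟩, h5⟩, h6⟩, h7⟩ := h
  let Q : Subgroup A7 := ⟨⟨⟨{x | x ∈ l}, fun a b => (h2 _ a).2 _ b⟩, h1⟩, fun a => (h2 _ a).1⟩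
  have c : Nat.card Q = r ^ k :=
    (Nat.subtype_card l.toFinset fun _ => List.mem_toFinset).trans ((List.toFinset_card_of_nodup h3).trans h4)
  obtain ⟨S, hS⟩ := hP.exists_le_sylow
  obtain ⟨c, e⟩ := MulAction.exists_smul_eq A7 S ((IsPGroup.of_card c).toSylow fun d => h5 (by
    rw [← card_A7, ← Q.card_mul_index, c, pow_succ]; exact Nat.mul_dvd_mul_left _ d))
  have m : ∀ x ∈ P, c * x * c⁻¹ ∈ l := fun x hx =>
    (congrArg Sylow.toSubgroup e).le (smul_mem_pointwise_smul _ (MulAut.conj c) _ (hS hx))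
  refine ⟨c⁻¹ * g * c, c⁻¹.1 6, by simp [h6], fun x hx => ⟨?_, fun q => ?_⟩⟩
  · have := (h7 _ (m x hx)).1
    exact c.1.injective (by simpa using this)
  · simpa using (h7 _ (m x hx)).2 (by simpa [mul_assoc] using m _ q)

theorem ok2 : ok 2 3 (ls (sw 0 1 1 2 * sw 2 3 4 5) (sw 0 2 4 5) 4 2) (sw 0 1 1 4) = true := by decide +kernel
theorem ok3 : ok 3 2 (ls (sw 0 1 1 2) (sw 3 4 4 5) 3 3) (sw 0 1 1 3) = true := by decide +kernel
theorem ok5 : ok 5 1 (ls (sw 0 1 1 2 * sw 2 3 3 4) 1 5 1) (sw 0 1 1 2) = true := by decide +kernel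

theorem a7 {r : ℕ} [Fact r.Prime] (hr : r ≠ 7) {P : Subgroup A7} (hP : IsPGroup r P) :
    ∃ (g : A7) (i : Fin 7), g.1 i = i ∧ ∀ x ∈ P, x.1 i = i ∧ (g * x * g⁻¹ ∈ P → x = 1) := by
  by_cases d : r ∣ 2520
  · have hp := (Fact.out : r.Prime)
    obtain rfl | rfl | rfl : r = 2 ∨ r = 3 ∨ r = 5 := by
      rw [show 2520 = 2 ^ 3 * (3 ^ 2 * (5 * 7)) from rfl] at d
      simp only [hp.dvd_mul, hp.prime.dvd_pow_iff_dvd, Nat.prime_dvd_prime_iff_eq hp, ne_eq, OfNat.ofNat_ne_zero,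
        not_false_eq_true, Nat.prime_two, Nat.prime_three, Nat.prime_five, Nat.prime_seven] at d
      omega
    exacts [key ok2 hP, key ok3 hP, key ok5 hP]
  · exact key (k := 0) (l := [1]) (g := 1) (by simpa [ok] using d) hP

end

open Cfsg Cfsg.Lie Cfsg.Agent CF.Chev CF.BN CF.KB CF.KI CF.KG CF.Loc CF.Sig CF.BN.Ba

variable {r : ℕ} [Fact r.Prime] {Y : Type*} [Group Y]

variable (r Y) in
/-- `Y` has a model in an adjoint algebraic group. -/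
def HS : Prop := ∃ (B ι : Type) (_ : Fintype B) (_ : DecidableEq B) (_ : Fintype ι) (_ : DecidableEq ι)
  (C : ChevBasis B ι), Nonempty B ∧ T3 C ∧ ∃ τ ε, Ba.HasSt C r Y τ ε

section

variable {B ι : Type} [Fintype B] [DecidableEq B] [Fintype ι] [DecidableEq ι] {C : ChevBasis B ι}
  {L : Type} [Field L] [Fintype L] [CharP L r] {X : Type} [Group X] {ρ : StRep C L X}
  (h0 : ρ.IsAdj) (h3 : T3 C)
include h0 h3

theorem hs_split [Nonempty B] (e : Y ≃* X) : HS r Y :=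
  (hasSt_split (r := r) h0).elim fun _ S => ⟨_, _, _, _, _, _, C, ‹_›, h3, _, _, S.equiv e⟩

variable {T : Tw ρ} {G1 : Subgroup X} {ω : ι → ℝ} (M : LT r T G1 ω)
include M

theorem hs_gr (hq : T.p ∈ C.Sym) {q N : ℕ} (hL : Fintype.card L = q ^ N) (hm : T.p ^ N = 1)
    (hφ : ∀ j t, T.φ (C.simple j) t = t ^ q) {v : Lˣ}
    (hv : ∀ j, T.φ (C.simple j) v = v * T.c (C.simple j)) (e : Y ≃* G1) : HS r Y :=
  (hasSt_gr h0 M hq hL hm hφ hv).elim fun _ S => ⟨_, _, _, _, _, _, C, M.ne, h3, _, _, S.equiv e⟩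

theorem hs_is {I : Isog C r} {θ : L →+* L} (hT : T.IsIs I θ) {m : ℕ}
    (hL : Fintype.card L = r ^ (2 * m + 1)) (hθ : ∀ t, θ t = t ^ r ^ m) (e : Y ≃* G1) : HS r Y :=
  (hasSt_is h0 M hT hL hθ).elim fun _ ⟨_, S⟩ => ⟨_, _, _, _, _, _, C, M.ne, h3, _, _, S.equiv e⟩

end

theorem hs_psl (h : IsPSLChar r Y) : HS r Y := by
  obtain ⟨K, _, _, _, n, h1, -, ⟨e⟩⟩ := h
  obtain ⟨n, rfl⟩ : ∃ m, n = m + 1 := ⟨n - 1, by omega⟩
  have : Nonempty (Fin n) := ⟨⟨0, by omega⟩⟩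
  exact hs_split (adj_quot (faithful_slRep n K (by omega)) (slRep_Gp n K)) (t3 sameLenA.n3) e

theorem hs_psp (h : IsPSpChar r Y) : HS r Y := by
  obtain ⟨F, _, _, _, m, hm, -, ⟨e⟩⟩ := h
  have : Nonempty (Fin m) := ⟨⟨0, by omega⟩⟩
  exact hs_split (adj_quot (faithful_spRep m F (by omega)) (spRep_Gp m F)) (t3 (BaseO.cb_n3 _)) e

theorem hs_odd (h : IsPOmegaOddChar r Y) : HS r Y := by
  obtain ⟨F, _, _, _, m, hm, ho, ⟨e⟩⟩ := h
  have : Nonempty (Fin m) := ⟨⟨0, by omega⟩⟩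
  have h4 : ∃ a : F, a ≠ 0 ∧ a ≠ 1 := Suz.exists_ne_zero_ne_one (by
    have := Fintype.one_lt_card (α := F); obtain ⟨k, hk⟩ := ho; omega)
  exact hs_split (adj_quot (faithful_omRepB (by omega) h4) (omRepB_Gp (by omega) h4)) (t3 (BaseO.cb_n3 _)) e

theorem hs_plus (h : IsPOmegaPlusChar r Y) : HS r Y := by
  obtain ⟨F, _, _, _, m, hm, ⟨e⟩⟩ := h
  have : Nonempty (Fin m) := ⟨⟨0, by omega⟩⟩
  have h4 : 3 ≤ m := by omega
  exact hs_split (adj_quot (faithful_omRepD F h4) (omRepD_Gp F h4)) (t3 (BaseO.cb_n3 _)) e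

theorem hs_minus (h : IsPOmegaMinusChar r Y) : HS r Y := by
  obtain ⟨F, _, _, _, m, a, b, hm, hab, ⟨e⟩⟩ := h
  obtain ⟨K, _, _, i, φ, w, h1, h2, h3, h4, h5, h6⟩ := exists_quadExt' hab
  have := charP_of_injective_ringHom i.injective r
  have := Fintype.ofFinite K
  have hQ (v) : Geom.qMinus (m - 1) K (-(w + φ w)) (w * φ w) (i ∘ v) =
      i (Geom.qMinus (m - 1) F a b v) := by rw [h4, h5, qMinus_comp]
  have hn : 2 ≤ m - 1 := by omega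
  obtain ⟨M0, h7⟩ := lt0O' h1 h2 hn hab h3 hQ (p := r)
  exact hs_gr (adj_quot (twO h1 h2 hn).faith (twO h1 h2 hn).top) (t3 (BaseO.cb_n3 _))
    (M0.quot (le_sup_of_le_left h7)) (pD_mem hn) (N := 2) (by simpa using h6)
    (Equiv.ext fun _ => Equiv.swap_apply_self _ _ _)
    (fun _ => invol_eq_pow h1 h3) (v := 1) (fun _ => (map_one φ).trans (mul_one _).symm)
    (e.trans (M0.nonempty_equiv (MonoidHom.ofInjective (omMap_injective hQ)).symm).some)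

theorem hs_psu (h : IsPSUChar r Y) : HS r Y := by
  obtain ⟨K, _, _, _, n, q, hK, hn, h32, ⟨e⟩⟩ := h
  obtain ⟨n, rfl⟩ : ∃ m, n = m + 1 := ⟨n - 1, by omega⟩
  obtain ⟨φ, h3, h4, h5⟩ := Geom.exists_conj hK
  have h6 : 1 ≤ n := by omega
  have L := lt0U h6 hK h3 h4 h5 (p := r)
  obtain ⟨u⟩ := nonempty_SU_equiv hK h3 h5 h6
  obtain ⟨w, hw⟩ := DFunLike.ne_iff.1 h4
  refine hs_gr (adj_quot (twU h6 φ).faith (twU h6 φ).top) (t3 sameLenA.n3)
    (L.quot (le_sup_of_le_left (genU h6 hK h3 h4 h5 (by omega) h32))) revA_mem hK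
    (Equiv.ext Fin.rev_rev) (fun _ => h3)
    (v := Units.mk0 _ (sub_ne_zero.2 hw)) (fun _ => ?_) (e.trans (L.nonempty_equiv u).some)
  change φ (φ w - w) = (φ w - w) * ((-1 : Kˣ) : K)
  simp [h5]

theorem hs_exc (h : IsExceptionalChevChar r Y) : HS r Y := by
  obtain ⟨K, _, _, _, ⟨-, ⟨e⟩⟩ | ⟨⟨e⟩⟩ | ⟨⟨e⟩⟩ | ⟨⟨e⟩⟩ | ⟨⟨e⟩⟩⟩ := h
  · exact hs_split (C := cG2) (linkG2.isAdj K) t3G2 e
  · exact hs_split (C := cF4) (linkF4.isAdj K) (t3 n3F4) e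
  · exact hs_split (C := cE6) (linkE6.isAdj K) (t3 sameLenE6.n3) e
  · have := goodE7.nonempty
    exact hs_split (linkE7.isAdj K) (t3 sameLenE7.n3) e
  · have := goodE8.nonempty
    exact hs_split (linkE8.isAdj K) (t3 sameLenE8.n3) e

theorem hs_tw (h : IsTwistedE6D4Char r Y) : HS r Y := by
  obtain ⟨K, _, _, _, q, hq, ⟨hK, ⟨e⟩⟩ | ⟨hK, ⟨e⟩⟩⟩ := h
  · obtain ⟨φ, hφ, h3⟩ := exists_frobE6 hq hK
    have h := isGr_twE6 φ
    have hp : (twE6 φ).p = symE6 := h.p_eq.trans (by decide)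
    exact hs_gr (C := cE6) (linkE6.isAdj K) (t3 sameLenE6.n3)
      (ltE6 (p := r) hφ h3) (mem_symE6.2 (.inr hp)) hK (by rw [hp]; decide)
      (fun _ => by rwa [h.φ_eq]) (v := 1) (by simp [h.c_eq]) (e.trans (packE6 hφ h3).e)
  obtain ⟨φ, hφ, h3⟩ := exists_frobD4 hq hK
  have h := isGr_twD4 φ
  have hp : (twD4 φ).p = pD4 := h.p_eq
  exact hs_gr (C := cD4) (linkD4.isAdj K) (t3 sameLenD4.n3) (ltD4 (p := r) hφ h3)
    (hp ▸ (mem_sym_iff carD4).2 (by decide +kernel)) hK (by rw [hp]; decide)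
    (fun _ => by rwa [h.φ_eq]) (v := 1) (by simp [h.c_eq]) (e.trans (packD4 hφ h3).e)

theorem hs_lie (h : IsLieTypeChar r Y) : HS r Y := by
  obtain h | h | h | h | h | h | h | h | ⟨rfl, K, _, _, m, hm, hK, ⟨e⟩⟩ |
    ⟨rfl, K, _, _, m, hm, hK, ⟨e⟩⟩ | ⟨rfl, K, _, _, m, hm, hK, ⟨e⟩⟩ := h
  · exact hs_psl h
  · exact hs_psp h
  · exact hs_psu h
  · exact hs_odd h
  · exact hs_plus h
  · exact hs_minus h
  · exact hs_exc h
  · exact hs_tw h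
  · obtain ⟨_, θ, h1, h2⟩ := exists_theta Nat.prime_two hK
    have h3 : 2 < Nat.card K := by
      have := Suz.eight_le_card hm hK; rw [Nat.card_eq_fintype_card]; omega
    obtain ⟨e', -⟩ := ((tits h2).lieData (e := 2 ^ (m + 1)) fun x => by
      simp [tits, frobenius_def, h1, pow_succ, pow_mul]).nonempty_equiv (nonempty_szData h2).some
    exact hs_is (C := cB2) (linkB2.isAdj K) (t3 n3B2) (ltB2 h2 h3) (isIs_twB2 θ) hK h1 (e.trans e')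
  · obtain ⟨_, φ, hφ, h2⟩ := exists_theta Nat.prime_two hK
    exact hs_is (C := cF4) (linkF4.isAdj K) (t3 n3F4) (ltF4 hφ h2) (isIs_twF4 φ) hK hφ (e.trans (packF4 hφ h2).e)
  · obtain ⟨_, φ, hφ, h2⟩ := exists_theta Nat.prime_three hK
    exact hs_is (C := cG2) (linkG2.isAdj K) t3G2 (ltG2 hφ h2) (isIs_twG2 φ) hK hφ (e.trans (packG2 hφ h2).e)

variable {B ι : Type} [Fintype B] [DecidableEq B] [Fintype ι] [DecidableEq ι] {C : ChevBasis B ι}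
  {K : Type*} [Field K] {G : Type*} [Group G] {ρ : StRep C K G}

omit [Fact r.Prime] in
/-- an element which moves the Sylow subgroup to an opposite one generates the group together with it -/
theorem two {T : Tw ρ} (F : T.Form T.Gen) {g : G} (hg : g ∈ T.Gen)
    (h : ∀ y ∈ ρ.Up ⊓ T.Gen, g * y * g⁻¹ ∈ ρ.Up → y = 1) {H : Subgroup G} (h1 : ρ.Up ⊓ T.Fix ≤ H) (h2 : g ∈ H) :
    T.Gen ≤ H := by
  obtain ⟨u, hu, n, h3, hn, u', hu', rfl⟩ := F.bruhat hg (mem_cell_lg F hg h)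
  have h4 : n ∈ H := by
    simpa [mul_assoc] using H.mul_mem (H.mul_mem (H.inv_mem (h1 hu)) h2) (H.inv_mem (h1 ⟨ρ.Uw_le_Up _ hu'.1, hu'.2⟩))
  refine sup_le h1 fun v hv => ?_
  simpa [mul_assoc] using H.mul_mem (H.mul_mem (H.inv_mem h4) (h1 ⟨(CF.BN.conj_Up_iff hn).2 hv.1,
    T.Fix.mul_mem (T.Fix.mul_mem (F.fix h3) hv.2) (T.Fix.inv_mem (F.fix h3))⟩)) h4

theorem no_tg {T : Tw ρ} (M : TG T r) (hr : r ≠ 7) (ψ : T.Gen →* A7) (hs : Function.Surjective ψ)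
    (hk : ∀ g, ψ g = 1 → (∃ n, g ^ r ^ n = 1) → g = 1) : False := by
  have hU : IsPGroup r (ρ.Up.subgroupOf T.Gen) := isPGroup_subgroupOf M.up
  obtain ⟨g, i, h1, h2⟩ := a7 hr (hU.map ψ)
  obtain ⟨g, rfl⟩ := hs g
  have := two M.form.toGen g.2 (fun y hy e => congrArg Subtype.val (hk ⟨y, hy.2⟩
      ((h2 _ ⟨_, hy.1, rfl⟩).2 ⟨g * ⟨y, hy.2⟩ * g⁻¹, e, by simp⟩) (isPGroup_iff_forall.1 hU _ hy.1)))
    (H := ((MulAction.stabilizer A7 i).comap ψ).map T.Gen.subtype)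
    (fun y hy => ⟨⟨y, M.form.toGen.Up_le hy⟩, (h2 _ ⟨_, hy.1, rfl⟩).1, rfl⟩) ⟨g, h1, rfl⟩
  obtain ⟨a, ha⟩ := (by decide +kernel : ∀ i : Fin 7, ∃ a ∈ [sw 0 1 2 3, sw 3 4 5 6], a.1 i ≠ i) i
  obtain ⟨x, rfl⟩ := hs a
  obtain ⟨y, hy, e⟩ := this x.2
  exact ha.2 (Subtype.ext e ▸ hy :)

theorem core [CharP K r] [IsAlgClosed K] [Nonempty B] {h : ρ.IsAdj} {F : MulAut G} {π : Equiv.Perm ι} {e : ι → ℕ}
    (D : FV r h F π e) (hK : Big K (2 * Fintype.card ι)) (hr : r ≠ 7) {c : B → Kˣ} (hS : StS C π (Ps C c))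
    (h7 : ∀ s, rv C c s ^ 7 = 1) {κ : Y →* G} (hi : Function.Injective κ) (hf : ∀ x, F (κ x) = κ x)
    (hu : ∀ g, F g = g → (∃ n, g ^ r ^ n = 1) → g ∈ κ.range) {y : Y} (hy : κ y = h.r3.tor c) (y7 : y ^ 7 = 1)
    (ψ : 𝐜(y) →* A7) (hs : Function.Surjective ψ) (hk : ∀ g, ψ g = 1 → (g : Y) ∈ Subgroup.zpowers y) : False := by
  haveI : Fact (Nat.Prime 7) := ⟨by norm_num⟩
  obtain ⟨B', ι', _, _, _, _, C', E, ρ', T, h1, -, M, hT, -⟩ := D.exists_sub hK (card_le le_rfl C) hS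
  have cm : ∀ x : 𝐜(y), Commute (κ x) (h.r3.tor c) := fun x =>
    hy ▸ (show Commute x.1 y from Subgroup.mem_centralizer_singleton_iff.1 x.2).map κ
  let j := κ.comp 𝐜(y).subtype
  have hj : Function.Injective j := hi.comp Subtype.val_injective
  have h2 : Gn ρ r F (Ps C c) ≤ j.range := (Subgroup.closure_le _).2 fun g ⟨a1, a2, a3⟩ => by
    obtain ⟨x, rfl⟩ := hu g a2 a3
    exact ⟨⟨x, Subgroup.mem_centralizer_singleton_iff.2 (hi (by
      rw [map_mul, map_mul, hy]; exact commute_tor_U h.r3 a1))⟩, rfl⟩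
  have h3 := map_Gen M hT
  let l : T.Gen →* 𝐜(y) := (MonoidHom.ofInjective hj).symm.toMonoidHom.comp
    (((ρ.U _).subtype.comp T.Gen.subtype).codRestrict j.range fun g => h2 (h3.le ⟨_, g.2, rfl⟩))
  have hl : ∀ g, j (l g) = g := fun g => MonoidHom.apply_ofInjective_symm hj _
  have k : ∀ g, ψ (l g) = 1 → (∃ n, g ^ r ^ n = 1) → g = 1 := fun g a ⟨n, b⟩ => by
    obtain ⟨m, a⟩ := hk _ a
    refine eq_one_of_pow ((Nat.coprime_primes (by norm_num) Fact.out).2 hr.symm |>.pow_right n) ?_ b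
    refine Subtype.ext (Subtype.ext ?_)
    change (g : G) ^ 7 = 1
    rw [← hl, ← map_pow]
    change κ ((l g : Y) ^ 7) = 1
    rw [← a, ← zpow_natCast, ← zpow_mul, mul_comm, zpow_mul, zpow_natCast, y7, one_zpow, map_one]
  have n : l.range.Normal := ⟨by
    rintro _ ⟨g, rfl⟩ x
    have : Gn ρ r F (Ps C c) ≤ (Gn ρ r F (Ps C c)).comap (MulAut.conj (j x)).toMonoidHom :=
      (Subgroup.closure_le _).2 fun g ⟨a1, a2, n, a3⟩ => Subgroup.subset_closure ⟨normalizes_U h (cm x) a1, by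
        simp [j, hf, a2], n, by simp [a3]⟩
    obtain ⟨g', a, b⟩ := h3.ge (this (h3.le ⟨_, g.2, rfl⟩))
    exact ⟨⟨g', a⟩, hj (by rw [hl, map_mul, map_mul, map_inv, hl]; exact b)⟩⟩
  haveI : IsSimpleGroup A7 := alternatingGroup.isSimpleGroup (by simp)
  rcases (n.map ψ hs).eq_bot_or_eq_top with q | q
  swap
  · exact no_tg M hr (ψ.comp l) (MonoidHom.range_eq_top.1 (by rw [MonoidHom.range_comp, q])) k
  rcases isEmpty_or_nonempty B' with _ | ⟨⟨i⟩⟩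
  · have h4 : Ps C c = ∅ := h1 ▸ Set.range_eq_empty_iff.2 ⟨fun s => C'.ht_ne_zero s (by simp [RootSys.ht_apply])⟩
    have h5 : ∀ x : 𝐜(y), j (x ^ 7) ∈ ρ.H := fun x => by
      have := pow_mem_C0 h (by norm_num) h7 (cm x)
      rwa [C0, h4, ρ.U_empty, bot_sup_eq, ← map_pow] at this
    obtain ⟨a, ha⟩ := hs (sw 0 1 1 2)
    obtain ⟨b, hb⟩ := hs (sw 1 2 2 3)
    obtain ⟨d, hd⟩ := h.r3.range_tor.ge (h5 b)
    have := congrArg ψ (hj (show j (a ^ 7 * b ^ 7) = j (b ^ 7 * a ^ 7) by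
      rw [map_mul, map_mul, ← hd]; exact commute_tor_H h.r3 (h5 a)))
    simp only [map_mul, map_pow, ha, hb] at this
    exact absurd this (by decide +kernel)
  · obtain ⟨u, a, b⟩ := M.form.exists_ne_one i
    have a' := ρ'.Uw_le_Up _ a.1
    obtain ⟨m, e⟩ := isPGroup_iff_forall.1 M.up _ a'
    exact b (congrArg Subtype.val (k ⟨u, M.form.toGen.Up_le ⟨a', a.2⟩⟩ (q.le ⟨_, ⟨_, rfl⟩, rfl⟩) ⟨m, Subtype.ext e⟩))

end KL

open Cfsg Subgroup CF.BN CF.BN.Ba in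
theorem kl_lie {Y : Type*} [Group Y] [Finite Y] {r : ℕ} [Fact r.Prime] (h : IsLieTypeChar r Y) (hr : r ≠ 7) {y : Y}
    (hy : orderOf y = 7) (π : centralizer ({y} : Set Y) →* alternatingGroup (Fin 7)) (hs : Function.Surjective π)
    (hk : ∀ g, π g = 1 → (g : Y) ∈ zpowers y) : False := by
  haveI : Fact (Nat.Prime 7) := ⟨by norm_num⟩
  obtain ⟨B, ι, _, _, _, _, C, _, h3, τ, ε, K, _, _, _, G, _, ρ, h, κ, F, hK, S⟩ := KL.hs_lie h
  obtain ⟨T, e, -, -, D, -⟩ := exists_fv hK (card_le le_rfl C) S.sf S.isFr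
  have y7 : y ^ 7 = 1 := hy ▸ pow_orderOf_eq_one y
  obtain ⟨F', w, -, c, z, D', hS, h7, q, R⟩ := D.nf hK le_rfl hr.symm h3 (S.fix y) (p := 7)
    (by rw [← map_pow, y7, map_one]) fun q => by simp [(map_eq_one_iff κ S.inj).1 q] at hy
  refine KL.core D' hK hr hS h7 (κ := (MulAut.conj z⁻¹).toMonoidHom.comp κ) ((MulAut.conj z⁻¹).injective.comp S.inj)
    (fun x => by simpa using fix_conj R (S.fix x)) (fun g a ⟨n, b⟩ => ?_) (by simp [q, mul_assoc]) y7 π hs hk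
  obtain ⟨x, hx⟩ := S.unip (z * g * z⁻¹) (by rw [R, a]) ⟨n, by simp [b]⟩
  exact ⟨x, by simp [hx, mul_assoc]⟩

end CF.Sv
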