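import Cfsg.Agent.Sv.B

/-! S3024: subgroups of odd order of `A₇`. -/

set_option autoImplicit false

namespace CF.Sv.LA

open Cfsg Subgroup CF.Loc

theorem no_pq {p q : ℕ} (hp : p.Prime) (hq : q.Prime) (h : q ≠ p) (h1 : 7 < p + q) (h2 : 7 < p * q)
    {x y : A7} (hx : orderOf x = p) (hy : orderOf y = q) : ¬ Commute x y := fun c => by
  have o : orderOf ((x * y : A7) : Equiv.Perm (Fin 7)) = p * q := by
    rw [orderOf_coe, c.orderOf_mul_eq_mul_orderOf_of_coprime (by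
      rw [hx, hy]; exact (Nat.coprime_primes hp hq).2 h.symm), hx, hy]
  generalize ((x * y : A7) : Equiv.Perm (Fin 7)) = g at o
  have k : ∀ r : ℕ, r.Prime → r ∣ p * q → ∃ m ∈ g.cycleType, r ∣ m := fun r hr e => by
    rw [← o, ← Equiv.Perm.lcm_cycleType] at e
    generalize g.cycleType = u at e
    induction u using Multiset.induction with
    | empty => exact absurd (Nat.dvd_one.1 (by simpa using e)) hr.ne_one
    | cons a s ih =>
      rw [Multiset.lcm_cons] at e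
      rcases (hr.dvd_mul).1 (e.trans (Nat.lcm_dvd_mul _ _)) with d | d
      · exact ⟨a, Multiset.mem_cons_self _ _, d⟩
      · obtain ⟨m, hm, d⟩ := ih d
        exact ⟨m, Multiset.mem_cons_of_mem hm, d⟩
  obtain ⟨m, hm, dm⟩ := k p hp (dvd_mul_right _ _)
  obtain ⟨n, hn, dn⟩ := k q hq (dvd_mul_left _ _)
  have s : g.cycleType.sum ≤ 7 := by simpa using g.sum_cycleType_le
  have m0 := Equiv.Perm.two_le_of_mem_cycleType hm
  have n0 := Equiv.Perm.two_le_of_mem_cycleType hn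
  by_cases e : m = n
  · subst e
    have := Nat.le_of_dvd (by omega) (((Nat.coprime_primes hp hq).2 h.symm).mul_dvd_of_dvd_of_dvd dm dn)
    have := Multiset.single_le_sum (fun _ _ => Nat.zero_le _) m hm
    omega
  · obtain ⟨t, ht⟩ := Multiset.exists_cons_of_mem hm
    rw [ht] at hn s
    have := Multiset.single_le_sum (fun _ _ => Nat.zero_le _) n ((Multiset.mem_cons.1 hn).resolve_left (Ne.symm e))
    have := Nat.le_of_dvd (by omega) dm
    have := Nat.le_of_dvd (by omega) dn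
    rw [Multiset.sum_cons] at s
    omega

theorem syl {A : Type*} [Group A] [Finite A] {p : ℕ} (hp : p.Prime) {x : A} (hx : orderOf x = p)
    (h2 : ¬ p ^ 2 ∣ Nat.card A)
    (hc : ∀ q : ℕ, q.Prime → q ≠ p → ∀ y : A, orderOf y = q → ¬ Commute x y) :
    ∃ k n, Nat.card 𝐍(zpowers x) = p * k ∧ k ∣ p - 1 ∧ Nat.card A = n * (p * k) ∧ n ≡ 1 [MOD p] := by
  haveI := Fact.mk hp
  have c : Nat.card (zpowers x) = p := by rw [Nat.card_zpowers, hx]
  have i : ¬ p ∣ (zpowers x).index := fun e => h2 (by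
    rw [← card_mul_index (zpowers x), c, pow_two]; exact mul_dvd_mul_left _ e)
  let P : Sylow p A := (IsPGroup.of_card (n := 1) (by rw [c, pow_one])).toSylow i
  have hC : Nat.card 𝐂(zpowers x) = p := by
    have le : zpowers x ≤ 𝐂(zpowers x) := le_centralizer _
    obtain ⟨j, hj⟩ := c ▸ card_dvd_of_le le
    by_contra e
    obtain ⟨q, hq, d⟩ := Nat.exists_prime_and_dvd (n := j) fun z => e (by rw [hj, z, mul_one])
    haveI := Fact.mk hq
    by_cases z : q = p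
    · exact h2 (((hj ▸ pow_two p ▸ mul_dvd_mul_left p (z ▸ d) : p ^ 2 ∣ _)).trans (card_subgroup_dvd_card _))
    obtain ⟨y, hy⟩ := exists_prime_orderOf_dvd_card' (G := 𝐂(zpowers x)) q (hj ▸ d.mul_left p)
    exact hc q hq z y ((orderOf_coe y).trans hy) (y.2 x (mem_zpowers x))
  let f := normalizerMonoidHom (zpowers x)
  refine ⟨f.ker.index, Nat.card (Sylow p A), ?_, ?_, ?_, card_sylow_modEq_one p A⟩
  · rw [← card_mul_index f.ker, normalizerMonoidHom_ker,
      Nat.card_congr (subgroupOfEquivOfLe (centralizer_le_normalizer _)).toEquiv, hC]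
  · rw [index_ker, ← Nat.totient_prime hp, ← c, ← IsCyclic.card_mulAut]
    exact card_subgroup_dvd_card _
  · have : Nat.card 𝐍(zpowers x) = p * f.ker.index := by
      rw [← card_mul_index f.ker, normalizerMonoidHom_ker,
        Nat.card_congr (subgroupOfEquivOfLe (centralizer_le_normalizer _)).toEquiv, hC]
    rw [← this, P.card_eq_index_normalizer, mul_comm]
    exact (card_mul_index _).symm

variable {A : Subgroup A7}

theorem hc_odd (o : ¬ 2 ∣ Nat.card A) {p : ℕ} (hp : p = 5 ∨ p = 7) {x : A} (hx : orderOf x = p) (q : ℕ)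
    (hq : q.Prime) (h : q ≠ p) (y : A) (hy : orderOf y = q) : ¬ Commute x y := fun c => by
  have : q ≠ 2 := fun e => o (e ▸ hy ▸ orderOf_dvd_natCard y)
  have := hq.two_le
  refine no_pq (by rcases hp with rfl | rfl <;> decide) hq h (by omega)
    (by rcases hp with rfl | rfl <;> omega) ((orderOf_coe x).trans hx) ((orderOf_coe y).trans hy)
    (congrArg Subtype.val c)

theorem dvd315 (o : ¬ 2 ∣ Nat.card A) : Nat.card A ∣ 315 :=
  (Nat.Coprime.pow_right 3 ((Nat.prime_two.coprime_iff_not_dvd).2 o).symm).dvd_of_dvd_mul_left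
    ((card_subgroup_dvd_card A).trans (by rw [card_A7]))

set_option synthInstance.maxSize 2000 in
theorem five (o : ¬ 2 ∣ Nat.card A) (h : 5 ∣ Nat.card A) : Nat.card A = 5 ∨ Nat.card A = 105 := by
  haveI : Fact (Nat.Prime 5) := ⟨by decide⟩
  obtain ⟨x, hx⟩ := exists_prime_orderOf_dvd_card' 5 h
  have d := dvd315 o
  obtain ⟨k, n, -, h1, h2, h3⟩ := syl (by decide) hx (fun e => absurd (e.trans d) (by decide))
    (hc_odd o (.inl rfl) hx)
  rw [h2] at o d ⊢
  have h4 : k ≤ 4 := Nat.le_of_dvd (by decide) h1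
  have h5 : n ≤ 315 := Nat.le_of_dvd (by decide) ((dvd_mul_right _ _).trans d)
  exact (by decide +kernel : ∀ k ≤ 4, ∀ n ≤ 315, n * (5 * k) ∣ 315 → ¬ 2 ∣ n * (5 * k) → k ∣ 5 - 1 →
    n ≡ 1 [MOD 5] → n * (5 * k) = 5 ∨ n * (5 * k) = 105) k h4 n h5 d o h1 h3

theorem le_nine (o : ¬ 2 ∣ Nat.card A) (h : ¬ 7 ∣ Nat.card A) : Nat.card A ≤ 9 := by
  have d := dvd315 o
  have f := five o
  exact (by decide +kernel : ∀ n ≤ 315, ¬ 7 ∣ n → n ∣ 315 → (5 ∣ n → n = 5 ∨ n = 105) → n ≤ 9) _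
    (Nat.le_of_dvd (by decide) d) h d f

set_option synthInstance.maxSize 2000 in
theorem n21 (o : ¬ 2 ∣ Nat.card A) {x t : A} (hx : orderOf x = 7) (ht : orderOf t = 3)
    (h : t ∈ 𝐍(zpowers x)) : Nat.card A = 21 ∧ ∀ g : A, g ∈ 𝐍(zpowers x) := by
  have d := dvd315 o
  have f := five o
  obtain ⟨k, n, h0, h1, h2, h3⟩ := syl (by decide) hx (fun e => absurd (e.trans d) (by decide))
    (hc_odd o (.inr rfl) hx)
  have h6 : 3 ∣ 7 * k := h0 ▸ ht ▸ (orderOf_mk t h ▸ orderOf_dvd_natCard (⟨t, h⟩ : 𝐍(zpowers x)))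
  have h4 : k ≤ 6 := Nat.le_of_dvd (by decide) h1
  have h5 : n ≤ 315 := Nat.le_of_dvd (by decide) ((dvd_mul_right _ _).trans (h2 ▸ d))
  have h7 : n = 1 ∧ k = 3 := by
    rw [h2] at o d f
    exact (by decide +kernel : ∀ k ≤ 6, ∀ n ≤ 315, (5 ∣ n * (7 * k) → n * (7 * k) = 5 ∨ n * (7 * k) = 105) →
      n * (7 * k) ∣ 315 → n ≡ 1 [MOD 7] → 3 ∣ 7 * k → n = 1 ∧ k = 3) k h4 n h5 f d h3 h6
  rw [h7.1, h7.2] at h2
  rw [h7.2] at h0
  exact ⟨h2, fun g => eq_top_of_card_eq _ (h0.trans h2.symm) ▸ mem_top g⟩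

theorem ex3 {x : A7} (hx : orderOf x = 7) : ∃ t, orderOf t = 3 ∧ t ∈ 𝐍(zpowers x) := by
  haveI : Fact (Nat.Prime 3) := ⟨by decide⟩
  obtain ⟨k, n, h0, h1, h2, h3⟩ := syl (by decide) hx (by rw [card_A7]; decide) fun q hq h y hy =>
    no_pq (by decide) hq h (by have := hq.pos; omega) (by have := hq.two_le; omega) hx hy
  rw [card_A7] at h2
  have h4 : k ≤ 6 := Nat.le_of_dvd (by decide) h1
  have h5 : n ≤ 2520 := Nat.le_of_dvd (by norm_num) ⟨_, h2⟩
  have h7 : k = 3 := (by decide +kernel : ∀ k ≤ 6, ∀ n ≤ 2520, k ∣ 7 - 1 → 2520 = n * (7 * k) →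
    n ≡ 1 [MOD 7] → k = 3) k h4 n h5 h1 h2 h3
  obtain ⟨t, ht⟩ := exists_prime_orderOf_dvd_card' (G := 𝐍(zpowers x)) 3 (by rw [h0, h7]; decide)
  exact ⟨t, (orderOf_coe t).trans ht, t.2⟩

end CF.Sv.LA
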