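import Cfsg.Agent.Sv.A

/-! Invariant unions of points of an elementary abelian Sylow subgroup of order `49`. -/

set_option autoImplicit false
set_option linter.style.haveILetI false
set_option linter.unusedSectionVars false

namespace CF.Sv

open Cfsg Subgroup CF.Loc

namespace PL

instance f7 : Fact (Nat.Prime 7) := ⟨by decide⟩

variable {C : Type*} [Group C] [Finite C] {E : Subgroup C}

abbrev W : Type := ZMod 7 × ZMod 7

/-- the linear map with the given columns -/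
def L (p q v : W) : W := v.1 • p + v.2 • q

theorem pz {x : C} (h : x ^ 7 = 1) (n : ℕ) : x ^ (n : ZMod 7).val = x ^ n := by
  rw [ZMod.val_natCast, ← pow_eq_pow_mod n h]

theorem pa {x : C} (h : x ^ 7 = 1) (a b : ZMod 7) : x ^ (a + b).val = x ^ a.val * x ^ b.val := by
  rw [← pow_add, ← pz h (a.val + b.val)]; simp

theorem pm {x : C} (h : x ^ 7 = 1) (a b : ZMod 7) : x ^ (a * b).val = (x ^ b.val) ^ a.val := by
  rw [← pow_mul, ← pz h (b.val * a.val), mul_comm a]; simp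

/-- coordinates on `E` -/
structure Co (E : Subgroup C) (g : C) (ψ : W → C) : Prop where
  mem : ∀ v, ψ v ∈ E
  inj : Function.Injective ψ
  sj : ∀ x ∈ E, ∃ v, ψ v = x
  add : ∀ u v, ψ (u + v) = ψ u * ψ v
  smul : ∀ (a : ZMod 7) v, ψ (a • v) = ψ v ^ a.val
  fst : ψ (1, 0) = g

theorem co (ea : IsElementaryAbelian 7 E) (e49 : Nat.card E = 49) {g : C} (hg : g ∈ E) (g1 : g ≠ 1) : ∃ ψ, Co E g ψ := by
  have o := orderOf_eq_prime (ea.2 g hg) g1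
  obtain ⟨h, hh, n⟩ : ∃ h ∈ E, h ∉ zpowers g := by
    by_contra! k
    have := card_le_of_le k
    rw [Nat.card_zpowers, o, e49] at this; omega
  have c : Commute g h := congrArg Subtype.val (ea.1.1.1 ⟨g, hg⟩ ⟨h, hh⟩)
  have a : ∀ u v : W, g ^ (u + v).1.val * h ^ (u + v).2.val = g ^ u.1.val * h ^ u.2.val * (g ^ v.1.val * h ^ v.2.val) :=
    fun u v => by
      rw [Prod.fst_add, Prod.snd_add, pa (ea.2 g hg), pa (ea.2 h hh), (c.pow_pow _ _).mul_mul_mul_comm]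
  have i : Function.Injective fun v : W => g ^ v.1.val * h ^ v.2.val := fun u v e => by
    have e1 := a (u - v) v
    rw [sub_add_cancel, show g ^ u.1.val * h ^ u.2.val = _ from e, eq_comm, mul_eq_right] at e1
    have e2 : (u - v).2 = 0 := by
      by_contra k
      refine n ?_
      have : h = (h ^ (u - v).2.val) ^ ((u - v).2⁻¹).val := by
        rw [← pm (ea.2 h hh), inv_mul_cancel₀ k]; exact (pow_one h).symm
      rw [this, eq_inv_of_mul_eq_one_right e1]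
      exact pow_mem (inv_mem (pow_mem (mem_zpowers g) _)) _
    rw [e2, ZMod.val_zero, pow_zero, mul_one, ← orderOf_dvd_iff_pow_eq_one, o, ← ZMod.natCast_eq_zero_iff,
      ZMod.natCast_zmod_val] at e1
    exact sub_eq_zero.1 (Prod.ext e1 e2)
  have m : ∀ v : W, g ^ v.1.val * h ^ v.2.val ∈ E := fun v => mul_mem (pow_mem hg _) (pow_mem hh _)
  refine ⟨_, m, i, fun x hx => ?_, a, fun k v => ?_, by simp [ZMod.val_one]⟩
  · obtain ⟨v, e⟩ := ((Nat.bijective_iff_injective_and_card fun v : W => (⟨_, m v⟩ : E)).2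
      ⟨fun u v e => i (congrArg Subtype.val e), by simp [e49]⟩).2 ⟨x, hx⟩
    exact ⟨v, congrArg Subtype.val e⟩
  · rw [Prod.smul_fst, Prod.smul_snd, smul_eq_mul, smul_eq_mul, pm (ea.2 g hg), pm (ea.2 h hh), (c.pow_pow _ _).mul_pow]

/-- conjugation by `n` is `f` in coordinates -/
def R (ψ : W → C) (n : C) (f : W → W) : Prop := ∀ v, n * ψ v * n⁻¹ = ψ (f v)

variable {g n m : C} {ψ : W → C} {f k : W → W}

theorem R.mul (a : R ψ n f) (b : R ψ m k) : R ψ (n * m) (f ∘ k) := fun v => by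
  rw [Function.comp, ← a, ← b]; group

theorem R.pow (a : R ψ n f) (i : ℕ) : R ψ (n ^ i) f^[i] := by
  induction i with
  | zero => exact fun v => by simp
  | succ i h => rw [pow_succ]; exact h.mul a

theorem Co.zero (c : Co E g ψ) : ψ 0 = 1 := by simpa using c.smul 0 0

theorem Co.ex (c : Co E g ψ) (hn : n ∈ 𝐍(E)) : ∃ p q, R ψ n (L p q) := by
  obtain ⟨p, a⟩ := c.sj _ ((mem_normalizer_iff.1 hn _).1 (c.mem (1, 0)))
  obtain ⟨q, b⟩ := c.sj _ ((mem_normalizer_iff.1 hn _).1 (c.mem (0, 1)))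
  refine ⟨p, q, fun v => ?_⟩
  rw [L, c.add, c.smul, c.smul, a, b, conj_pow, conj_pow, conj_mul, ← c.smul, ← c.smul, ← c.add]
  simp

theorem Co.mem_of (c : Co E g ψ) (cE : 𝐂(E) ≤ E) (a : R ψ n f) (e : ∀ v, f v = v) : n ∈ E := cE fun x hx => by
  obtain ⟨v, rfl⟩ := c.sj x hx
  rw [← mul_inv_eq_iff_eq_mul.1 ((a v).trans (congrArg ψ (e v)))]

theorem Co.three (c : Co E g ψ) (ea : IsElementaryAbelian 7 E) (cE : 𝐂(E) ≤ E) (o : orderOf n = 3) (a : R ψ n f) :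
    (∀ v, f^[3] v = v) ∧ ¬ ∀ v, f v = v :=
  ⟨fun v => c.inj (by rw [← a.pow 3 v, ← o, pow_orderOf_eq_one]; simp), fun e =>
    absurd (o ▸ orderOf_dvd_of_pow_eq_one (ea.2 n (c.mem_of cE a e))) (by decide)⟩

theorem Co.seven (c : Co E g ψ) (ea : IsElementaryAbelian 7 E) (e49 : Nat.card E = 49) (syl : ¬ 343 ∣ Nat.card C)
    (cE : 𝐂(E) ≤ E) (hn : n ∈ 𝐍(E)) (a : R ψ n f) (e : ∀ v, f^[7] v = v) (v : W) : f v = v := by
  have h := ea.2 _ (c.mem_of cE (a.pow 7) e)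
  have p : IsPGroup 7 ↥(E ⊔ zpowers n) := (IsPGroup.of_card (n := 2) e49).to_sup_of_normal_left'
    (fun x => ⟨2, Subtype.ext (by
      obtain ⟨_, i, rfl⟩ := x
      show (n ^ i) ^ (7 * 7) = 1
      rw [← zpow_natCast, ← zpow_mul, mul_comm, zpow_mul, zpow_natCast, pow_mul, h, one_zpow])⟩) (zpowers_le.2 hn)
  obtain ⟨i, hi⟩ := p.exists_card_eq
  have l : Nat.card ↥(E ⊔ zpowers n) ≤ Nat.card E := by
    rw [hi, e49]
    refine Nat.pow_le_pow_right (by decide) (i := i) (j := 2) (not_lt.1 fun l => syl ?_)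
    exact ((pow_dvd_pow 7 (show 3 ≤ i from l)).trans hi.symm.dvd).trans (card_subgroup_dvd_card _)
  have m : n ∈ E := (eq_of_le_of_card_ge le_sup_left l).ge (mem_sup_right (mem_zpowers n))
  refine c.inj ((a v).symm.trans ?_)
  rw [mul_inv_eq_iff_eq_mul]
  exact congrArg Subtype.val (ea.1.1.1 ⟨n, m⟩ ⟨_, c.mem v⟩)

theorem ex3 (τ : 3 ∣ Nat.card ↥(𝐍(E) ⊓ 𝐜(g))) : ∃ n ∈ 𝐍(E), n * g * n⁻¹ = g ∧ orderOf n = 3 :=
  haveI : Fact (Nat.Prime 3) := ⟨by decide⟩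
  let ⟨n, o⟩ := exists_prime_orderOf_dvd_card' 3 τ
  ⟨n, n.2.1, mul_inv_eq_iff_eq_mul.2 (mem_centralizer_singleton_iff.1 n.2.2), (orderOf_coe n).trans o⟩

theorem d1 : ∀ q : W, (∀ v, (L (1, 0) q)^[3] v = v) → (¬ ∀ v, L (1, 0) q v = v) → ∀ s : ZMod 7 → Bool,
    (∀ a, s a → s ((a + q.1) * q.2 ^ 5)) → (Finset.univ.filter fun v : W =>
      if v.2 = 0 then v.1 ≠ 0 else s (v.1 * v.2 ^ 5)).card ∈ [6, 12, 24, 30, 42, 48] := by decide +kernel

/-- the map fixing `(a, 1)` with eigenvalue `k` on the first axis -/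
def F (a k : ZMod 7) : W → W := L (k, 0) (a - a * k, 1)

theorem d2 : ∀ a k, (∀ v, (F a k)^[3] v = v) → (¬ ∀ v, F a k v = v) → k = 2 ∨ k = 4 := by decide +kernel

set_option synthInstance.maxSize 1000 in
theorem d3 : ∀ a b k, k = 2 ∨ k = 4 → a ≠ b → (∀ v, (F a k ∘ (F b k)^[2])^[7] v = v) ∧
    ¬ ∀ v, (F a k ∘ (F b k)^[2]) v = v := by decide +kernel

variable {Y : Set C}

theorem cnt (ea : IsElementaryAbelian 7 E) (e49 : Nat.card E = 49) (cE : 𝐂(E) ≤ E)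
    (τ : ∀ g ∈ E, g ≠ 1 → 3 ∣ Nat.card ↥(𝐍(E) ⊓ 𝐜(g))) (hY : ∀ g ∈ Y, g ∈ E ∧ g ≠ 1)
    (pw : ∀ g ∈ Y, ∀ h ∈ zpowers g, h ≠ 1 → h ∈ Y) (cj : ∀ g ∈ Y, ∀ n ∈ 𝐍(E), n * g * n⁻¹ ∈ Y)
    (ne : Y.Nonempty) : Y.ncard ∈ [6, 12, 24, 30, 42, 48] := by
  classical
  obtain ⟨g, hg⟩ := ne
  obtain ⟨ψ, c⟩ := co ea e49 (hY g hg).1 (hY g hg).2
  obtain ⟨n, hn, e, o⟩ := ex3 (τ g (hY g hg).1 (hY g hg).2)
  obtain ⟨p, q, a⟩ := c.ex hn
  obtain rfl : p = (1, 0) := c.inj (by simpa [L, c.fst, e] using (a (1, 0)).symm)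
  have s : ∀ (k : ZMod 7) v, k ≠ 0 → ψ v ∈ Y → ψ (k • v) ∈ Y := fun k v k0 h => pw _ h _
    (c.smul k v ▸ pow_mem (mem_zpowers _) _) fun e => (hY _ h).2 (by
      rw [← c.zero, c.inj.eq_iff] at e ⊢
      exact (smul_eq_zero.1 e).resolve_left k0)
  have t : ∀ v : W, ψ v ∈ Y ↔ if v.2 = 0 then v.1 ≠ 0 else decide (ψ (v.1 * v.2 ^ 5, 1) ∈ Y) := fun v => by
    split_ifs with h
    · refine ⟨fun k e => (hY _ k).2 (by rw [← c.zero]; exact congrArg ψ (Prod.ext e h)), fun k => ?_⟩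
      have := s _ _ k (c.fst ▸ hg)
      rwa [show v.1 • ((1, 0) : W) = v from Prod.ext (by simp) (by simp [h])] at this
    · have := (by decide : ∀ v : W, v.2 ≠ 0 → v.2 ^ 5 ≠ 0 ∧ v.2 ^ 5 • v = (v.1 * v.2 ^ 5, 1) ∧
        v.2 • ((v.1 * v.2 ^ 5, 1) : W) = v) v h
      rw [decide_eq_true_iff]
      exact ⟨fun k => this.2.1 ▸ s _ _ this.1 k, fun k => this.2.2 ▸ s _ _ h k⟩
  have h3 := c.three ea cE o a
  have := d1 q h3.1 h3.2 (fun a => decide (ψ (a, 1) ∈ Y)) fun b h => by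
    have k := cj _ (of_decide_eq_true h) n hn
    have q0 : q.2 ≠ 0 := fun e => by simpa [L, e] using congrArg Prod.snd (h3.1 (0, 1))
    rw [a, t] at k
    simpa [L, q0] using k
  convert this
  rw [← Set.ncard_coe_finset, ← Set.ncard_image_of_injective _ c.inj]
  congr 1
  ext x
  refine ⟨fun h => ?_, ?_⟩
  · obtain ⟨v, rfl⟩ := c.sj x (hY x h).1
    exact ⟨v, by simpa using (t v).1 h, rfl⟩
  · rintro ⟨v, h, rfl⟩
    exact (t v).2 (by simpa using h)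

theorem not6 (ea : IsElementaryAbelian 7 E) (e49 : Nat.card E = 49) (syl : ¬ 343 ∣ Nat.card C) (cE : 𝐂(E) ≤ E)
    (τ : ∀ g ∈ E, g ≠ 1 → 3 ∣ Nat.card ↥(𝐍(E) ⊓ 𝐜(g))) (hY : ∀ g ∈ Y, g ∈ E ∧ g ≠ 1)
    (pw : ∀ g ∈ Y, ∀ h ∈ zpowers g, h ≠ 1 → h ∈ Y) (cj : ∀ g ∈ Y, ∀ n ∈ 𝐍(E), n * g * n⁻¹ ∈ Y) : Y.ncard ≠ 6 := fun h => by
  classical
  obtain ⟨g, hg⟩ := Set.nonempty_of_ncard_ne_zero (s := Y) (by omega)
  obtain ⟨ψ, c⟩ := co ea e49 (hY g hg).1 (hY g hg).2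
  have e : (zpowers g : Set C) \ {1} = Y := Set.eq_of_subset_of_ncard_le (fun x hx => pw g hg x hx.1 hx.2) (by
    rw [h, Set.ncard_sdiff_singleton_of_mem (one_mem (zpowers g)), ← Nat.card_coe_set_eq]
    exact (congrArg (· - 1) ((Nat.card_zpowers g).trans (orderOf_eq_prime (ea.2 g (hY g hg).1) (hY g hg).2))).ge)
  have k : ∀ a : ZMod 7, ∃ n ∈ 𝐍(E), ∃ k, (k = 2 ∨ k = 4) ∧ R ψ n (F a k) := fun a => by
    obtain ⟨n, hn, f, o⟩ := ex3 (τ _ (c.mem (a, 1)) fun e => by simpa using c.inj (e.trans c.zero.symm))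
    obtain ⟨p, q, r⟩ := c.ex hn
    obtain ⟨i, hi⟩ := (mem_zpowers_iff_mem_range_orderOf.trans Finset.mem_image).1 (e.ge (cj g hg n hn)).1
    have e1 : p = ((i : ZMod 7), 0) := c.inj (by
      have := c.smul i (1, 0)
      rw [c.fst, pz (ea.2 g (hY g hg).1), hi.2, ← c.fst, r] at this
      simpa [L] using this.symm)
    have e2 : q = (a - a * i, 1) := by
      have := c.inj ((r (a, 1)).symm.trans f)
      rw [L, e1, ← eq_sub_iff_add_eq'] at this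
      simpa using this
    rw [e1, e2] at r
    exact ⟨n, hn, i, d2 a i (c.three ea cE o r).1 (c.three ea cE o r).2, r⟩
  choose n hn k hk r using k
  obtain ⟨a, b, ab, e⟩ : ∃ a b, a ≠ b ∧ k a = k b := by
    rcases hk 0 with e0 | e0 <;> rcases hk 1 with e1 | e1 <;> rcases hk 2 with e2 | e2 <;>
      first | exact ⟨0, 1, by decide, e0.trans e1.symm⟩ | exact ⟨0, 2, by decide, e0.trans e2.symm⟩ |
        exact ⟨1, 2, by decide, e1.trans e2.symm⟩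
  have := d3 a b _ (hk a) ab
  exact this.2 (c.seven ea e49 syl cE (mul_mem (hn a) (pow_mem (hn b) 2)) ((r a).mul ((e ▸ r b).pow 2)) this.1)

end PL

variable {C : Type*} [Group C] [Finite C] {E : Subgroup C}

theorem pl (ea : IsElementaryAbelian 7 E) (e49 : Nat.card E = 49) (syl : ¬ 343 ∣ Nat.card C) (cE : 𝐂(E) ≤ E)
    (τ : ∀ g ∈ E, g ≠ 1 → 3 ∣ Nat.card ↥(𝐍(E) ⊓ 𝐜(g))) {Y : Set C} (hY : ∀ g ∈ Y, g ∈ E ∧ g ≠ 1)
    (pw : ∀ g ∈ Y, ∀ h ∈ zpowers g, h ≠ 1 → h ∈ Y) (cj : ∀ g ∈ Y, ∀ n ∈ 𝐍(E), n * g * n⁻¹ ∈ Y)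
    (ne : Y.Nonempty) : Y.ncard = 24 ∨ Y.ncard = 48 := by
  have s : Y ⊆ (E : Set C) \ {1} := hY
  have e := Set.ncard_sdiff_add_ncard_of_subset s
  rw [Set.ncard_sdiff_singleton_of_mem (one_mem E), ← Nat.card_coe_set_eq (E : Set C),
    show Nat.card (E : Set C) = 49 from e49] at e
  set X := ((E : Set C) \ {1}) \ Y
  have hX : ∀ g ∈ X, g ∈ E ∧ g ≠ 1 := fun g h => h.1
  have pX : ∀ g ∈ X, ∀ h ∈ zpowers g, h ≠ 1 → h ∈ X := fun g hg h m h1 => ⟨⟨zpowers_le.2 hg.1.1 m, h1⟩, fun k =>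
    hg.2 (pw h k g ((eq_of_le_of_card_ge (zpowers_le.2 m) (by
      rw [Nat.card_zpowers, Nat.card_zpowers, orderOf_eq_prime (ea.2 g hg.1.1) hg.1.2,
        orderOf_eq_prime (ea.2 h (hY h k).1) h1])).ge (mem_zpowers g)) hg.1.2)⟩
  have cX : ∀ g ∈ X, ∀ n ∈ 𝐍(E), n * g * n⁻¹ ∈ X := fun g hg n hn => ⟨⟨(mem_normalizer_iff.1 hn g).1 hg.1.1,
    by simpa using hg.1.2⟩, fun k => hg.2 (by simpa [mul_assoc] using cj _ k _ (inv_mem hn))⟩
  have a := PL.cnt ea e49 cE τ hY pw cj ne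
  have b := PL.not6 ea e49 syl cE τ hY pw cj
  have c := PL.not6 ea e49 syl cE τ hX pX cX
  rcases X.eq_empty_or_nonempty with k | k
  · rw [k, Set.ncard_empty] at e; omega
  have d := PL.cnt ea e49 cE τ hX pX cX k
  simp only [List.mem_cons, List.not_mem_nil, or_false] at a d
  omega

end CF.Sv
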