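import Cfsg.Agent.Sv.B
import Cfsg.Agent.Sv.LA
import Cfsg.Agent.S0058
import Cfsg.Agent.Loc.Misc2

/-! The centralizer of a `7A`-element modulo the element satisfies the hypotheses of `he`. -/

set_option autoImplicit false

namespace CF.Sv

open Cfsg Subgroup CF.Loc
open scoped commutatorElement

namespace XH

variable {G : Type*} [Group G]

theorem kg (hK : IsCompositionKProper G) {X : Subgroup G} (hX : X ≠ ⊤) : IsKGroup X :=
  fun H N _ hs hn => by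
    let f : (⊤ : Subgroup (H.map X.subtype)) →* H ⧸ N := (QuotientGroup.mk' N).comp
      ((H.equivMapOfInjective _ X.subtype_injective).symm.toMonoidHom.comp (Subgroup.subtype _))
    have hf : Function.Surjective f := (QuotientGroup.mk'_surjective N).comp
      ((H.equivMapOfInjective _ X.subtype_injective).symm.surjective.comp fun x => ⟨⟨x, trivial⟩, rfl⟩)
    have e := QuotientGroup.quotientKerEquivOfSurjective f hf
    exact Even.known_of_equiv e.symm (hK _ (fun h => hX (top_unique (h.ge.trans (map_subtype_le H))))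
      ⊤ .top f.ker (Even.isSimpleGroup_of_equiv e.symm hs)
      fun c => hn (Even.isMulCommutative_of_equiv e c))

theorem pow7 {g a u : G} (h : g * a * g⁻¹ = a * u) (c : Commute g u) (h7 : u ^ 7 = 1) :
    Commute (g ^ 7) a := by
  have key : ∀ k : ℕ, g ^ k * a * (g ^ k)⁻¹ = a * u ^ k := fun k => by
    induction k with
    | zero => simp
    | succ k ih =>
      calc _ = g * (g ^ k * a * (g ^ k)⁻¹) * g⁻¹ := by rw [pow_succ']; group
        _ = g * a * g⁻¹ * (g * u ^ k * g⁻¹) := by rw [ih]; group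
        _ = _ := by rw [h, (c.pow_right k).eq, pow_succ']; group
  exact mul_inv_eq_iff_eq_mul.1 (by simpa [h7] using key 7)

theorem mem_of {x u : G} (hx : orderOf x = 7) (hu : u ∈ zpowers x) (h : u ≠ 1) : x ∈ zpowers u := by
  have : Fact (Nat.Prime 7) := ⟨by norm_num⟩
  obtain ⟨k, hk⟩ := mem_zpowers_of_prime_card ((Nat.card_zpowers x).trans hx) (g := ⟨u, hu⟩)
    (g' := ⟨x, mem_zpowers x⟩) fun e => h (congrArg Subtype.val e)
  exact ⟨k, congrArg Subtype.val hk⟩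

variable (B : Bs G)

/-- The centralizer of `c`. -/
abbrev X : Subgroup G := 𝐜(B.c)

/-- The subgroup generated by `c`. -/
abbrev Zc : Subgroup (X B) := (zpowers B.c).subgroupOf (X B)

theorem cm {g u : G} (hg : g ∈ X B) (hu : u ∈ zpowers B.c) : Commute g u := by
  obtain ⟨k, rfl⟩ := hu
  exact (show Commute g B.c from mem_centralizer_singleton_iff.1 hg).zpow_right k

instance : (Zc B).Normal := ⟨fun u hu g => by
  rw [mem_subgroupOf, coe_mul, coe_mul, (cm B g.2 (mem_subgroupOf.1 hu)).eq, coe_inv, mul_inv_cancel_right]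
  exact hu⟩

/-- The projection to `X / ⟨c⟩`. -/
abbrev pr : X B →* X B ⧸ Zc B := QuotientGroup.mk' (Zc B)

/-- The centralizer of `c` in `Q`. -/
abbrev P : Subgroup (X B) := B.Q.subgroupOf (X B)

theorem pr_eq {g : X B} : pr B g = 1 ↔ (g : G) ∈ zpowers B.c := QuotientGroup.eq_one_iff g

theorem c0 : B.c ∉ zpowers B.d := fun h => B.c1 0 (by simpa using (B.φ_eq _ B.cQ).2 h)

theorem c7 : orderOf B.c = 7 :=
  have : Fact (Nat.Prime 7) := ⟨by norm_num⟩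
  orderOf_eq_prime (B.Q7 _ B.cQ) fun h => c0 B (h ▸ one_mem _)

theorem d1 : B.d ≠ 1 := fun h => by simpa [h] using B.d7

theorem cQ : zpowers B.c ≤ B.Q := zpowers_le.2 B.cQ

theorem disj {u : G} (h1 : u ∈ zpowers B.c) (h2 : u ∈ zpowers B.d) : u = 1 := by_contra fun h =>
  c0 B (zpowers_le.2 h2 (mem_of (c7 B) h1 h))

theorem dX : B.d ∈ X B :=
  mem_centralizer_singleton_iff.2 (mem_centralizer_singleton_iff.1 (B.Qc B.cQ)).symm

/-- The group generated by the 7-elements of `X ∩ N(Z₂)`. -/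
abbrev H : Subgroup G := closure {x | x ∈ 𝐜(B.c) ∧ x ∈ 𝐍(closure {B.d, B.w}) ∧ P7 x}

theorem HX : H B ≤ X B := (closure_le _).2 fun _ h => h.1

theorem dZ : B.d ∈ closure {B.d, B.w} := subset_closure (by simp)

theorem exists_w : ∃ h ∈ X B, h * B.d * h⁻¹ = B.w :=
  (B.hH _ (dZ B) _ (subset_closure (by simp)) (d1 B) fun h => B.li.e0 (by
    rw [← B.we, h, B.φ_one])).imp fun _ h => ⟨HX B h.1, h.2⟩

theorem wX : B.w ∈ X B :=
  let ⟨_, h, e⟩ := exists_w B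
  e ▸ mul_mem (mul_mem h (dX B)) (inv_mem h)

theorem ZP : closure {B.d, B.w} ≤ B.Q ⊓ X B := (closure_le _).2 (by
  rintro _ (rfl | rfl)
  exacts [⟨B.dQ, dX B⟩, ⟨B.wQ, wX B⟩])

theorem eq_one {u : G} (h1 : u ∈ closure {B.d, B.w}) (h2 : u ∈ zpowers B.c) : u = 1 := by
  by_contra h
  have key : ∀ u ∈ closure {B.d, B.w}, ∃ a : ZMod 7, B.φ u = a • B.e := fun u hu => by
    induction hu using closure_induction with
    | mem u hu =>
      rcases hu with rfl | rfl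
      exacts [⟨0, by simpa using (B.φ_eq _ B.dQ).2 (mem_zpowers _)⟩, ⟨1, by simp [B.we]⟩]
    | one => exact ⟨0, by simp [B.φ_one]⟩
    | mul u v hu hv h1 h2 =>
      obtain ⟨a, h1⟩ := h1
      obtain ⟨b, h2⟩ := h2
      exact ⟨a + b, by rw [B.φ_mul _ (ZP B hu).1 _ (ZP B hv).1, h1, h2, add_smul]⟩
    | inv u hu h1 =>
      obtain ⟨a, h1⟩ := h1
      exact ⟨-a, by rw [B.φ_inv (ZP B hu).1, h1, neg_smul]⟩
  obtain ⟨a, h3⟩ := key _ (zpowers_le.2 h1 (mem_of (c7 B) h2 h))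
  exact B.c1 a h3

theorem card_P : Nat.card (P B) = 7 ^ 4 := by
  rw [← B.cardC B.cQ (c0 B), P, ← inf_subgroupOf_right]
  exact Nat.card_congr (subgroupOfEquivOfLe inf_le_right).toEquiv

theorem card_comap [Finite G] (A : Subgroup (X B ⧸ Zc B)) :
    Nat.card (A.comap (pr B)) = 7 * Nat.card A := by
  refine Nat.eq_of_mul_eq_mul_right (Nat.pos_of_ne_zero A.index_ne_zero_of_finite) ?_
  rw [mul_assoc, card_mul_index, ← index_comap_of_surjective _ (QuotientGroup.mk'_surjective _),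
    card_mul_index, card_eq_card_quotient_mul_card_subgroup (Zc B), Nat.card_congr (subgroupOfEquivOfLe
      (zpowers_le.2 (mem_centralizer_singleton_iff.2 rfl))).toEquiv, Nat.card_zpowers, c7, mul_comm]

theorem comap_P : ((P B).map (pr B)).comap (pr B) = P B :=
  comap_map_eq_self (by rw [QuotientGroup.ker_mk']; exact fun _ h => cQ B h)

theorem mem_P {g : X B} : pr B g ∈ (P B).map (pr B) ↔ (g : G) ∈ B.Q := by
  rw [← mem_comap, comap_P, mem_subgroupOf]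

theorem card_Pb [Finite G] : Nat.card ((P B).map (pr B)) = 343 := by
  have := card_comap B ((P B).map (pr B))
  rw [comap_P, card_P] at this
  omega

theorem exists_comm : ∃ a b : X B, (a : G) ∈ B.Q ∧ (b : G) ∈ B.Q ∧ ⁅(a : G), (b : G)⁆ ≠ 1 := by
  by_contra! h
  have := B.ab (B := B.Q ⊓ X B) inf_le_left fun a ha b hb =>
    commutatorElement_eq_one_iff_mul_comm.1 (h ⟨b, hb.2⟩ ⟨a, ha.2⟩ hb.1 ha.1)
  rw [B.cardC B.cQ (c0 B)] at this
  omega

theorem na : ¬ IsMulCommutative ((P B).map (pr B)) := fun h => by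
  obtain ⟨a, b, ha, hb, e⟩ := exists_comm B
  refine e (disj B ((pr_eq B (g := ⁅a, b⁆)).1 ?_) (B.cm ha hb))
  rw [map_commutatorElement, commutatorElement_eq_one_iff_mul_comm]
  exact congrArg Subtype.val (h.is_comm.comm ⟨_, (mem_P B).2 ha⟩ ⟨_, (mem_P B).2 hb⟩)

theorem mem_N {g : X B} (hg : (g : G) ∈ 𝐍(zpowers B.d)) : pr B g ∈ 𝐍((P B).map (pr B)) :=
  le_normalizer_map _ ⟨g, mem_normalizer_iff.2 fun a => ⟨fun ha => B.nQ _ hg _ ha, fun ha => by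
    simpa [mul_assoc, mem_subgroupOf] using B.nQ _ (inv_mem hg) _ ha⟩, rfl⟩

variable [Finite G]

theorem of_mem_N {g : X B} (hg : pr B g ∈ 𝐍((P B).map (pr B))) : (g : G) ∈ 𝐍(zpowers B.d) := by
  have h1 : ∀ a : X B, (a : G) ∈ B.Q → (g : G) * a * (g : G)⁻¹ ∈ B.Q := fun a ha =>
    (mem_P B (g := g * a * g⁻¹)).1 (by
      simpa using (mem_normalizer_iff.1 hg _).1 ((mem_P B).2 ha))
  obtain ⟨a, b, ha, hb, e⟩ := exists_comm B
  obtain ⟨k, hk⟩ := mem_of B.d7 (B.cm ha hb) e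
  refine mem_normalizer_of_conj_mem ?_
  rintro _ ⟨l, rfl⟩
  replace hk : ⁅(a : G), (b : G)⁆ ^ k = B.d := hk
  have h2 : (g : G) * B.d * (g : G)⁻¹ = ⁅(g : G) * a * (g : G)⁻¹, (g : G) * b * (g : G)⁻¹⁆ ^ k := by
    rw [← hk, ← conj_zpow, conjugate_commutatorElement]
  rw [← conj_zpow, h2]
  exact zpow_mem (zpow_mem (B.cm (h1 a ha) (h1 b hb)) k) l

theorem card_C : Nat.card ↥(𝐜(B.d) ⊓ X B) ∣ 3 * 7 ^ 4 := by
  let f : ↥(𝐜(B.d) ⊓ X B) →* GV := B.ρ.comp (inclusion (inf_le_left.trans B.cN))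
  have h1 : Nat.card f.range ∣ 3 := by
    rw [← B.li.stab B.c1 B.c2, ← card_map_of_injective B.M.subtype_injective]
    refine card_dvd_of_le ?_
    rintro _ ⟨g, rfl⟩
    refine ⟨⟨_, (B.mem_M _).2 ⟨_, g.2.1, rfl⟩⟩, ?_, rfl⟩
    change B.ρ _ (B.φ B.c) = B.φ B.c
    rw [← B.φ_cj _ _ B.cQ]
    exact congrArg _ (mul_inv_eq_iff_eq_mul.2 (mem_centralizer_singleton_iff.1 g.2.2))
  have h2 : Nat.card f.ker ∣ 7 ^ 4 := by
    rw [← B.cardC B.cQ (c0 B), ← card_map_of_injective (subtype_injective _)]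
    refine card_dvd_of_le ?_
    rintro _ ⟨g, hg, rfl⟩
    exact ⟨(B.ker _).1 hg, g.2.2⟩
  rw [← card_mul_index f.ker, index_ker, mul_comm]
  exact mul_dvd_mul h1 h2

theorem nP : Nat.card 𝐍((P B).map (pr B)) ∣ 343 * 18 := by
  have h1 := card_comap B 𝐍((P B).map (pr B))
  have h2 : Nat.card ((𝐍((P B).map (pr B))).comap (pr B)) ∣ Nat.card ↥(𝐍(zpowers B.d) ⊓ X B) := by
    rw [← card_map_of_injective (X B).subtype_injective]
    refine card_dvd_of_le ?_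
    rintro _ ⟨g, hg, rfl⟩
    exact ⟨of_mem_N B hg, g.2⟩
  have h3 := (h2.trans (B.cardN _)).trans (mul_dvd_mul_left 6 (card_C B))
  rw [h1] at h3
  exact Nat.dvd_of_mul_dvd_mul_left (by norm_num : 0 < 7) h3

theorem syl : IsSyl 7 ((P B).map (pr B)) ⊤ := by
  have : Fact (Nat.Prime 7) := ⟨by norm_num⟩
  refine isSyl_of_normalizer (isSyl_of_not_dvd_relIndex (.of_card (n := 3) (card_Pb B))
    (le_inf le_top le_normalizer) fun h => ?_)
  have h1 := nP B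
  rw [top_inf_eq] at h
  rw [← card_mul_relIndex le_normalizer, card_Pb] at h1
  exact absurd (h.trans (Nat.dvd_of_mul_dvd_mul_left (by norm_num) h1)) (by norm_num)

omit [Finite G] in
theorem six {h : X B} (e : (h : G) * B.d * (h : G)⁻¹ = B.d ^ 3) {m : ℕ} (hm : pr B h ^ m = 1) :
    6 ∣ m := by
  have key : ∀ k : ℕ, (h : G) ^ k * B.d * ((h : G) ^ k)⁻¹ = B.d ^ 3 ^ k := fun k => by
    induction k with
    | zero => simp
    | succ k ih =>
      calc _ = (h : G) * ((h : G) ^ k * B.d * ((h : G) ^ k)⁻¹) * (h : G)⁻¹ := by rw [pow_succ']; group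
        _ = _ := by rw [ih, ← conj_pow, e, ← pow_mul, pow_succ']
  have h1 := key m
  rw [← map_pow, pr_eq] at hm
  rw [← coe_pow, ← (cm B (dX B) hm).eq, mul_inv_cancel_right, eq_comm, ← pow_one B.d, ← pow_mul,
    pow_eq_pow_iff_modEq, B.d7, one_mul, Nat.ModEq, ← Nat.div_add_mod m 6, pow_add, pow_mul,
    Nat.mul_mod, Nat.pow_mod] at h1
  have h2 := Nat.mod_lt m (by norm_num : 0 < 6)
  refine Nat.dvd_of_mod_eq_zero ?_
  generalize m % 6 = r at h1 h2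
  interval_cases r <;> simp at h1 ⊢

omit [Finite G] in
theorem exists_h : ∃ h : X B, (h : G) ∈ H B ∧ (h : G) * B.d * (h : G)⁻¹ = B.d ^ 3 := by
  obtain ⟨h, h1, e⟩ := B.hH _ (dZ B) _ (pow_mem (dZ B) 3) (d1 B) fun e =>
    absurd (B.d7 ▸ orderOf_dvd_of_pow_eq_one e) (by norm_num)
  exact ⟨⟨h, HX B h1⟩, h1, e⟩

omit [Finite G] in
theorem H_le {A : Subgroup (X B ⧸ Zc B)} (hA : ∀ x : X B, (x : G) ∈ 𝐍(closure {B.d, B.w}) → P7 (pr B x) →
    pr B x ∈ A) {h : X B} (hh : (h : G) ∈ H B) : pr B h ∈ A := by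
  have : H B ≤ (A.comap (pr B)).map (X B).subtype := (closure_le _).2 fun x ⟨h1, h2, k, h3⟩ =>
    ⟨⟨x, h1⟩, hA _ h2 ⟨k, by rw [← map_pow, show (⟨x, h1⟩ : X B) ^ 7 ^ k = 1 from Subtype.ext h3,
      map_one]⟩, rfl⟩
  obtain ⟨y, hy, e⟩ := this hh
  exact Subtype.ext e ▸ hy

/-- The image of `Z₂`. -/
abbrev Zb : Subgroup (X B ⧸ Zc B) := ((closure {B.d, B.w}).subgroupOf (X B)).map (pr B)

omit [Finite G] in
theorem Zb_le : Zb B ≤ (P B).map (pr B) := map_mono fun _ h => (ZP B h).1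

omit [Finite G] in
theorem d_ne : pr B ⟨B.d, dX B⟩ ≠ 1 := fun h => d1 B (eq_one B (dZ B) ((pr_eq B).1 h))

omit [Finite G] in
theorem hZ : ¬ IsPGroup 7 (closure {x | x ∈ 𝐍(Zb B) ∧ P7 x}) := fun hp => by
  obtain ⟨h, h1, e⟩ := exists_h B
  obtain ⟨k, hk⟩ := isPGroup_iff_forall.1 hp _ (H_le B (fun x h2 h3 => Subgroup.subset_closure (And.intro
    (le_normalizer_map _ ⟨x, mem_normalizer_iff.2 fun a => mem_normalizer_iff.1 h2 a, rfl⟩) h3)) h1)
  exact absurd (((by norm_num : 2 ∣ 6).trans (six B e hk)) |> Nat.prime_two.dvd_of_dvd_pow) (by norm_num)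

variable {B} {N : Subgroup (X B ⧸ Zc B)} [hN : N.Normal]

omit hN [Finite G] in
theorem comm_Z {u v : G} (hu : u ∈ closure {B.d, B.w}) (hv : v ∈ closure {B.d, B.w}) : u * v = v * u :=
  have : IsMulCommutative (closure {B.d, B.w}) := isMulCommutative_closure (by
    rintro _ (rfl | rfl) _ (rfl | rfl) <;> simp [mem_centralizer_singleton_iff.1 (B.Qc B.wQ)])
  setLike_mul_comm hu hv

omit hN [Finite G] in
theorem not_cyc : ¬ IsCyclic (Zb B) := fun hc => by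
  have : Fact (Nat.Prime 7) := ⟨by norm_num⟩
  obtain ⟨⟨_, u, hu, rfl⟩, hg⟩ := hc.exists_generator
  have key : ∀ v : X B, (v : G) ∈ closure {B.d, B.w} → (v : G) ∈ zpowers (u : G) := fun v hv => by
    obtain ⟨k, hk⟩ := hg ⟨_, v, hv, rfl⟩
    refine ⟨k, mul_inv_eq_one.1 (eq_one B (mul_mem (zpow_mem hu k) (inv_mem hv))
      ((pr_eq B (g := u ^ k * v⁻¹)).1 ?_))⟩
    rw [map_mul, map_inv, map_zpow, mul_inv_eq_one]
    exact congrArg Subtype.val hk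
  have h1 := key ⟨B.d, dX B⟩ (dZ B)
  have h2 := zpowers_le.2 (mem_of (orderOf_eq_prime (B.Q7 _ (ZP B hu).1) fun e => d1 B (by
    simpa [show (u : G) = 1 from e] using h1)) h1 (d1 B)) (key ⟨B.w, wX B⟩ (subset_closure (by simp)))
  exact B.li.e0 (B.we ▸ (B.φ_eq _ B.wQ).2 h2)

theorem seven (h0 : N ≠ ⊥) : 7 ∣ Nat.card N := by
  by_contra h7
  have : Fact (Nat.Prime 7) := ⟨by norm_num⟩
  have one : ∀ y ∈ N, P7 y → y = 1 := fun y hy ⟨k, hk⟩ => orderOf_eq_one_iff.1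
    (Nat.eq_one_of_dvd_coprimes (((Nat.Prime.coprime_iff_not_dvd Fact.out).2 h7).pow_left k)
      (orderOf_dvd_of_pow_eq_one hk) (orderOf_dvd_natCard _ hy))
  have key : ∀ g : X B, pr B g ∈ N → Commute (pr B g) (pr B ⟨B.d, dX B⟩) → pr B g = 1 := fun g hg hc => by
    have c7 : ∀ u ∈ zpowers B.c, u ^ 7 = 1 := fun u hu => B.Q7 _ (cQ B hu)
    have u1 := (pr_eq B (g := (⟨B.d, dX B⟩ : X B)⁻¹ * (g * ⟨B.d, dX B⟩ * g⁻¹))).1 (by
      simp only [map_mul, map_inv, hc.eq]; group)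
    have g1 : (g : G) ^ 7 ∈ 𝐜(B.d) := mem_centralizer_singleton_iff.2
      (pow7 (mul_inv_cancel_left _ _).symm (cm B g.2 u1) (c7 _ u1))
    have g2 : ∀ a ∈ B.Q, a ∈ X B → Commute (((g : G) ^ 7) ^ 7) a := fun a ha ha' => by
      have h1 := mul_mem (inv_mem ha) (B.nQ _ (B.cN g1) a ha)
      have u2 := (pr_eq B (g := (⟨a, ha'⟩ : X B)⁻¹ * (g ^ 7 * ⟨a, ha'⟩ * (g ^ 7)⁻¹))).1 (one _ (by
        simpa [mul_assoc] using mul_mem (hN.conj_mem _ (pow_mem hg 7) (pr B ⟨a, ha'⟩)⁻¹)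
          (inv_mem (pow_mem hg 7))) ⟨1, by
        rw [← map_pow, pow_one, pr_eq]; exact (congrArg (· ∈ zpowers B.c) (B.Q7 _ h1)).mpr (one_mem _)⟩)
      exact pow7 (mul_inv_cancel_left _ _).symm (cm B (pow_mem g.2 7) u2) (c7 _ u2)
    have g3 : (((g : G) ^ 7) ^ 7) ^ 7 ∈ 𝐂(B.Q) := fun b hb => by
      have h0 := pow_mem g1 7
      have h0' := pow_mem (pow_mem g.2 7) 7
      generalize ((g : G) ^ 7) ^ 7 = y at g2 h0 h0' ⊢
      have h1 := mul_mem (inv_mem hb) (B.nQ _ (B.cN h0) b hb)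
      refine (pow7 (mul_inv_cancel_left _ _).symm (g2 _ h1 (mem_centralizer_singleton_iff.2 ?_))
        (B.Q7 _ h1)).symm
      have h3 : Commute y B.c := mem_centralizer_singleton_iff.1 h0'
      have h2 : Commute y (b * B.c * b⁻¹) := by
        simpa [commutatorElement_def] using Commute.mul_right (B.cz h0 (B.cm hb B.cQ)) h3
      calc _ = b⁻¹ * y * b * (y⁻¹ * B.c) := by group
        _ = b⁻¹ * (y * (b * B.c * b⁻¹)) * b * y⁻¹ := by rw [h3.inv_left.eq]; group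
        _ = _ := by rw [h2.eq]; group
    refine one _ hg ⟨4, ?_⟩
    rw [← map_pow, show g ^ 7 ^ 4 = 1 from Subtype.ext ?_, map_one]
    show (g : G) ^ (7 * 7 * 7 * 7) = 1
    simpa only [← pow_mul] using B.Q7 _ (B.zQ (B.cQ_le g3))
  have : IsMulCommutative (Zb B) := ⟨⟨by
    rintro ⟨_, u, hu, rfl⟩ ⟨_, v, hv, rfl⟩
    exact Subtype.ext (by simpa only [coe_mul, ← map_mul] using congrArg (pr B) (Subtype.ext (comm_Z hu hv)))⟩⟩
  have h1 := Cfsg.Agent.S0058.result (Zb B) N not_cyc (by simp [normalizer_eq_top])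
    (((Nat.Prime.coprime_iff_not_dvd Fact.out).2 h7).pow_left 3 |>.coprime_dvd_left
      ((card_dvd_of_le (Zb_le B)).trans (card_Pb B).dvd))
  refine h0 (eq_bot_iff.2 (h1.ge.trans (iSup₂_le ?_)))
  rintro _ ⟨⟨u, hu, rfl⟩, u1⟩ y ⟨hy, hc⟩
  obtain ⟨g, rfl⟩ := QuotientGroup.mk'_surjective _ y
  obtain ⟨h, h2, e⟩ := B.hH _ hu _ (dZ B) (fun e => u1 (by rw [show u = 1 from Subtype.ext e, map_one]))
    (d1 B)
  have := key (⟨h, HX B h2⟩ * g * ⟨h, HX B h2⟩⁻¹) (by simpa only [map_mul, map_inv] using hN.conj_mem _ hy _) (by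
    rw [show (⟨B.d, dX B⟩ : X B) = ⟨h, HX B h2⟩ * u * ⟨h, HX B h2⟩⁻¹ from Subtype.ext e.symm]
    simpa using (show Commute (pr B g) (pr B u) from mem_centralizer_singleton_iff.1 hc).map
      (MulAut.conj (pr B ⟨h, HX B h2⟩)))
  simpa using this

theorem d_mem (h0 : N ≠ ⊥) : pr B ⟨B.d, dX B⟩ ∈ N := by
  have : Fact (Nat.Prime 7) := ⟨by norm_num⟩
  obtain ⟨⟨_, ⟨a, ha, rfl⟩, h1⟩, h2⟩ := ne_bot_iff_exists_ne_one.1
    (((syl B).inf_normal (N := N)).ne_bot_iff.2 (seven h0))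
  have h3 : pr B a ≠ 1 := fun e => h2 (Subtype.ext e)
  have key : ∀ u : X B, pr B u ∈ N → (u : G) ∈ zpowers B.d → (u : G) ≠ 1 → pr B ⟨B.d, dX B⟩ ∈ N :=
    fun u h4 h5 h6 => by
      obtain ⟨k, hk⟩ := mem_of B.d7 h5 h6
      rw [show (⟨B.d, dX B⟩ : X B) = u ^ k from Subtype.ext hk.symm, map_zpow]
      exact zpow_mem h4 k
  by_cases h4 : ∀ b : X B, (b : G) ∈ B.Q → ⁅(a : G), (b : G)⁆ = 1
  swap
  · push Not at h4
    obtain ⟨b, hb, e⟩ := h4
    refine key ⁅a, b⁆ ?_ (B.cm ha hb) e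
    simpa [commutatorElement_def, mul_assoc] using mul_mem h1 (hN.conj_mem _ (inv_mem h1) (pr B b))
  obtain ⟨b, hb, e⟩ := B.nd _ B.cQ (c0 B)
  obtain ⟨k, hk⟩ := B.cm ha hb
  have cX : B.c ∈ X B := mem_centralizer_singleton_iff.2 rfl
  have h5 : pr B (a * ⟨B.c, cX⟩ ^ (-k)) = pr B a := by
    rw [map_mul, (pr_eq B (g := ⟨B.c, cX⟩ ^ (-k))).2 (zpow_mem (mem_zpowers B.c) _), mul_one]
  refine key (a * ⟨B.c, cX⟩ ^ (-k)) (h5 ▸ h1) (by_contra fun h6 => ?_) fun e => h3 (by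
    rw [← h5, show a * ⟨B.c, cX⟩ ^ (-k) = 1 from Subtype.ext e, map_one])
  have h7 := eq_of_le_of_card_ge (H := B.Q ⊓ X B) (K := B.Q ⊓ 𝐜((a : G) * B.c ^ (-k)))
    (fun y hy => ⟨hy.1, mem_centralizer_singleton_iff.2 (Commute.mul_right
      (commutatorElement_eq_one_iff_commute.1 (h4 ⟨y, hy.2⟩ hy.1)).symm
        (cm B hy.2 (zpow_mem (mem_zpowers _) _)))⟩)
    ((B.cardC (mul_mem ha (zpow_mem B.cQ _)) h6).trans (B.cardC B.cQ (c0 B)).symm).le
  have h8 : ⁅b, (a : G) * B.c ^ (-k)⁆ = ⁅b, (a : G)⁆ * ⁅b, B.c⁆ ^ (-k) :=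
    by
      have := (B.ch hb).map_mul ⟨a, ha⟩ ((⟨B.c, B.cQ⟩ : B.Q) ^ (-k))
      rw [map_zpow] at this
      exact congrArg Subtype.val this
  replace hk : B.d ^ k = ⁅(a : G), b⁆ := hk
  rw [← commutatorElement_inv (a : G), ← commutatorElement_inv B.c, e, ← hk, inv_zpow', neg_neg,
    inv_mul_cancel, commutatorElement_eq_one_iff_mul_comm] at h8
  exact d1 B (e ▸ commutatorElement_eq_one_iff_mul_comm.2 (mem_centralizer_singleton_iff.1
    (h7.ge ⟨hb, mem_centralizer_singleton_iff.2 h8⟩).2).symm)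

theorem P_le (h0 : N ≠ ⊥) : (P B).map (pr B) ≤ N := by
  have : Fact (Nat.Prime 7) := ⟨by norm_num⟩
  have h1 := d_mem h0
  have cX : B.c ∈ X B := mem_centralizer_singleton_iff.2 rfl
  have h2 : pr B ⟨B.w, wX B⟩ ∈ N := by
    obtain ⟨h, h2, e⟩ := exists_w B
    rw [show (⟨B.w, wX B⟩ : X B) = ⟨h, h2⟩ * ⟨B.d, dX B⟩ * ⟨h, h2⟩⁻¹ from Subtype.ext e.symm]
    simpa only [map_mul, map_inv] using hN.conj_mem _ h1 _
  obtain ⟨σ, hσ, s1, s2⟩ := B.li.sig B.c1 B.c2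
  obtain ⟨g, -, rfl⟩ := (B.mem_M σ).1 hσ
  obtain ⟨u, hu, e⟩ := B.φ_inj B.cQ (B.nQ _ g.2 _ B.cQ) (by rw [B.φ_cj _ _ B.cQ, s1])
  obtain ⟨b, hb, e'⟩ := B.cj_mul B.cQ (c0 B) hu
  have hb' := B.cN (B.Qc hb)
  have h3 : b⁻¹ * g ∈ X B := mem_centralizer_singleton_iff.2 (by
    rw [← mul_inv_eq_iff_eq_mul]
    calc _ = b⁻¹ * (g * B.c * (g : G)⁻¹) * b := by group
      _ = _ := by rw [e, ← e']; group)
  let v : X B := ⟨_, h3⟩ * ⟨B.w, wX B⟩ * ⟨_, h3⟩⁻¹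
  have vQ : (v : G) ∈ B.Q := B.nQ _ (mul_mem (inv_mem hb') g.2) _ B.wQ
  have vφ : B.φ v = B.ρ g B.e := by
    refine (B.φ_cj (⟨b, hb'⟩⁻¹ * g) _ B.wQ).trans ?_
    rw [map_mul, map_inv, (B.ker ⟨b, hb'⟩).2 hb, inv_one, one_mul, B.we]
  have d0 := (B.φ_eq _ B.dQ).2 (mem_zpowers _)
  have m1 : (⟨B.d, dX B⟩ : X B) ∈ N.comap (pr B) ⊓ P B := ⟨h1, B.dQ⟩
  have m2 : (⟨B.c, cX⟩ : X B) ∈ N.comap (pr B) ⊓ P B :=
    ⟨mem_comap.2 ((pr_eq B (g := ⟨B.c, cX⟩)).2 (mem_zpowers _) ▸ one_mem _), B.cQ⟩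
  have m3 : (⟨B.w, wX B⟩ : X B) ∈ N.comap (pr B) ⊓ P B := ⟨h2, B.wQ⟩
  have m4 : v ∈ N.comap (pr B) ⊓ P B :=
    ⟨mem_comap.2 (by simpa only [v, map_mul, map_inv] using hN.conj_mem _ h2 _), vQ⟩
  let F : ZMod 7 × ZMod 7 × ZMod 7 × ZMod 7 → ↥(N.comap (pr B) ⊓ P B) := fun x =>
    ⟨⟨B.d, dX B⟩ ^ x.1.val * (⟨B.c, cX⟩ ^ x.2.1.val * ⟨B.w, wX B⟩ ^ x.2.2.1.val * v ^ x.2.2.2.val),
      mul_mem (pow_mem m1 _) (mul_mem (mul_mem (pow_mem m2 _) (pow_mem m3 _)) (pow_mem m4 _))⟩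
  have hF : Function.Injective F := by
    rintro ⟨i, j, k, l⟩ ⟨i', j', k', l'⟩ e
    have e1 : B.d ^ i.val * (B.c ^ j.val * B.w ^ k.val * (v : G) ^ l.val) =
        B.d ^ i'.val * (B.c ^ j'.val * B.w ^ k'.val * (v : G) ^ l'.val) :=
      congrArg (fun x : ↥(N.comap (pr B) ⊓ P B) => ((x : X B) : G)) e
    have ev : ∀ i j k l : ZMod 7, B.φ (B.d ^ i.val * (B.c ^ j.val * B.w ^ k.val * (v : G) ^ l.val)) =
        j • B.φ B.c + k • B.e + l • B.ρ g B.e := fun i j k l => by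
      have p1 := pow_mem B.cQ j.val
      have p2 := pow_mem B.wQ k.val
      have p3 := pow_mem vQ l.val
      rw [B.φ_mul _ (pow_mem B.dQ _) _ (mul_mem (mul_mem p1 p2) p3), B.φ_mul _ (mul_mem p1 p2) _ p3,
        B.φ_mul _ p1 _ p2, B.φ_pow B.dQ, B.φ_pow B.cQ, B.φ_pow B.wQ, B.φ_pow vQ, d0, vφ, B.we]
      simp
    have e2 := congrArg B.φ e1
    rw [ev, ev] at e2
    obtain rfl : l = l' := by_contra fun h => s2 ((l - l')⁻¹ * (k' - k)) ((l - l')⁻¹ * (j' - j)) (by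
      rw [mul_smul, mul_smul, ← smul_add]
      refine (eq_inv_smul_iff₀ (sub_ne_zero.2 h)).2 ?_
      linear_combination (norm := module) e2)
    obtain rfl : j = j' := by_contra fun h => B.c1 ((j - j')⁻¹ * (k' - k)) (by
      rw [mul_smul]
      refine (eq_inv_smul_iff₀ (sub_ne_zero.2 h)).2 ?_
      linear_combination (norm := module) e2)
    obtain rfl : k = k' := smul_left_injective _ B.li.e0 (by simpa using e2)
    rw [mul_left_inj, pow_inj_mod, B.d7, Nat.mod_eq_of_lt i.val_lt, Nat.mod_eq_of_lt i'.val_lt] at e1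
    rw [ZMod.val_injective _ e1]
  have h4 := eq_of_le_of_card_ge (inf_le_right (a := N.comap (pr B)) (b := P B)) (by
    simpa [card_P] using Nat.card_le_card_of_injective F hF)
  exact map_le_iff_le_comap.2 (h4.ge.trans inf_le_left)

theorem nm (h0 : N ≠ ⊥) : 343 * 6 ∣ Nat.card ↥(N ⊓ 𝐍((P B).map (pr B))) := by
  have : Fact (Nat.Prime 7) := ⟨by norm_num⟩
  refine Nat.Coprime.mul_dvd_of_dvd_of_dvd (by norm_num)
    (card_Pb B ▸ card_dvd_of_le (le_inf (P_le h0) le_normalizer)) ?_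
  obtain ⟨h, h1, e⟩ := exists_h B
  refine (six B e (pow_orderOf_eq_one _)).trans (Subgroup.orderOf_dvd_natCard _ ⟨H_le B (fun x _ ⟨k, hk⟩ => ?_) h1,
    mem_N B (mem_normalizer_of_conj_mem ?_)⟩)
  · obtain ⟨g, -, hg⟩ := (syl B).exists_cj_le (isPGroup_zpowers hk) le_top
    simpa [mul_assoc] using hN.conj_mem _ (P_le h0 (cj_le_iff_forall.1 hg _ (mem_zpowers _))) g⁻¹
  · rintro _ ⟨l, rfl⟩
    rw [← conj_zpow, e]
    exact zpow_mem (pow_mem (mem_zpowers _) 3) l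

end XH

end CF.Sv
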